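import Mathlib

/-! Groups acting linearly on finite vector spaces: invariant perfect pairings and Fourier transfer
of orbit information. -/

set_option autoImplicit false

namespace Cfsg.Lib.CK

open Module Submodule

variable {F : Type*} [Field F]

section basic

variable {A A' : Type*} [AddCommGroup A] [Module F A] [AddCommGroup A'] [Module F A']

theorem card_eq (F A : Type*) [Field F] [AddCommGroup A] [Module F A] [Finite A] :
    Nat.card A = Nat.card F ^ finrank F A := Module.natCard_eq_pow_finrank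

theorem two_le_card (F : Type*) [Field F] [Finite F] : 2 ≤ Nat.card F := Finite.one_lt_card

theorem mem_l (y z : A) : y ∈ span F {y, z} := subset_span (by simp)

theorem mem_r (y z : A) : z ∈ span F {y, z} := subset_span (by simp)

theorem one_le_two (y z : A) : span F {y} ≤ span F {y, z} := span_mono (by simp)

theorem span_two_le {y z : A} {X : Submodule F A} (hy : y ∈ X) (hz : z ∈ X) : span F {y, z} ≤ X :=
  span_le.2 (by rintro _ (rfl | rfl); exacts [hy, hz])

theorem span_one_le {y : A} {X : Submodule F A} (hy : y ∈ X) : span F {y} ≤ X :=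
  (span_singleton_le_iff_mem _ _).2 hy

theorem span_two_comm (y z : A) : span F {y, z} = span F {z, y} := by rw [Set.pair_comm]

theorem ne_zero_of_notMem {y : A} {X : Submodule F A} (hy : y ∉ X) : y ≠ 0 := fun e => hy (e ▸ zero_mem _)

/-- Independent pairs. -/
structure I2 (F : Type*) [Field F] [Module F A] (x y : A) : Prop where
  x0 : x ≠ 0
  ne : y ∉ span F {x}

theorem I2.y0 {x y : A} (h : I2 F x y) : y ≠ 0 := fun e => h.ne (e ▸ zero_mem _)

theorem mem_one_symm {x y : A} (h : y ∈ span F {x}) (h0 : y ≠ 0) : x ∈ span F {y} := by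
  obtain ⟨c, rfl⟩ := mem_span_singleton.1 h
  exact mem_span_singleton.2 ⟨c⁻¹, inv_smul_smul₀ (left_ne_zero_of_smul h0) x⟩

theorem I2.symm {x y : A} (h : I2 F x y) : I2 F y x := ⟨h.y0, fun k => h.ne (mem_one_symm k h.x0)⟩

theorem mem_sup_one {M : Submodule F A} {u v : A} : v ∈ M ⊔ span F {u} ↔ ∃ c : F, v - c • u ∈ M := by
  rw [mem_sup]
  constructor
  · rintro ⟨m, hm, _, hc, rfl⟩
    obtain ⟨c, rfl⟩ := mem_span_singleton.1 hc
    exact ⟨c, by simpa⟩
  · rintro ⟨c, h⟩
    exact ⟨_, h, _, smul_mem _ c (mem_span_singleton_self u), sub_add_cancel _ _⟩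

/-- Exchange. -/
theorem exch {M : Submodule F A} {u v : A} (h : v ∈ M ⊔ span F {u}) (hv : v ∉ M) : u ∈ M ⊔ span F {v} := by
  obtain ⟨c, hc⟩ := mem_sup_one.1 h
  have c0 : c ≠ 0 := by rintro rfl; simp [hv] at hc
  refine mem_sup_one.2 ⟨c⁻¹, ?_⟩
  convert smul_mem _ (-c⁻¹) hc using 1
  rw [smul_sub, smul_smul, neg_mul, inv_mul_cancel₀ c0]
  module

theorem span_two_sup (y z : A) : span F {y, z} = span F {y} ⊔ span F {z} := span_insert _ _

theorem span_two_eq {y z z' : A} (h : z' ∈ span F {y, z}) (h' : z' ∉ span F {y}) :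
    span F {y, z'} = span F {y, z} :=
  le_antisymm (span_two_le (mem_l _ _) h) (span_two_le (mem_l _ _) (by
    rw [span_two_sup] at h ⊢; exact exch h h'))

theorem I2.swap23 {x y z : A} (h : I2 F x y) (hz : z ∉ span F {x, y}) : I2 F x z ∧ y ∉ span F {x, z} :=
  ⟨⟨h.x0, fun k => hz (one_le_two _ _ k)⟩, fun k => hz (span_two_eq k h.ne ▸ mem_r _ _)⟩

theorem I2.add {x y : A} (h : I2 F x y) (t : F) : I2 F x (y + t • x) :=
  ⟨h.x0, fun k => h.ne ((Submodule.add_mem_iff_left _ (smul_mem _ t (mem_span_singleton_self x))).1 k)⟩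

theorem I2.smul_right {x y : A} (h : I2 F x y) {c : F} (hc : c ≠ 0) : I2 F x (c • y) :=
  ⟨h.x0, fun k => h.ne ((smul_mem_iff _ hc).1 k)⟩

theorem I2.finrank [Finite A] {x y : A} (h : I2 F x y) : finrank F (span F {x, y}) = 2 := by
  rw [span_two_sup, finrank_sup_span_singleton h.ne, finrank_span_singleton h.x0]

theorem map_mem_one (e : A ≃ₗ[F] A') {y u : A} : e u ∈ span F {e y} ↔ u ∈ span F {y} := by
  simp only [mem_span_singleton, ← map_smul, e.injective.eq_iff]

theorem map_mem_two (e : A ≃ₗ[F] A') {y z u : A} : e u ∈ span F {e y, e z} ↔ u ∈ span F {y, z} := by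
  simp only [mem_span_pair, ← map_smul, ← map_add, e.injective.eq_iff]

theorem map_i2 (e : A ≃ₗ[F] A') {x y : A} : I2 F (e x) (e y) ↔ I2 F x y :=
  ⟨fun h => ⟨e.map_ne_zero_iff.1 h.x0, (map_mem_one e).not.1 h.ne⟩,
    fun h => ⟨e.map_ne_zero_iff.2 h.x0, (map_mem_one e).not.2 h.ne⟩⟩

variable {Γ : Type*} [Group Γ] [DistribMulAction Γ A] [SMulCommClass Γ F A]

/-- The linear map of a group element. -/
abbrev lin (F A : Type*) [Field F] [AddCommGroup A] [Module F A] [DistribMulAction Γ A]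
    [SMulCommClass Γ F A] (g : Γ) : A ≃ₗ[F] A := DistribMulAction.toLinearEquiv F A g

omit [Module F A] [SMulCommClass Γ F A] in
theorem smul_ne_zero' (g : Γ) {a : A} (h : a ≠ 0) : g • a ≠ 0 := fun e => h ((smul_eq_zero_iff_eq g).1 e)

theorem smul_mem_one (g : Γ) {y u : A} : g • u ∈ span F {g • y} ↔ u ∈ span F {y} := map_mem_one (lin F A g)

theorem smul_mem_two (g : Γ) {y z u : A} : g • u ∈ span F {g • y, g • z} ↔ u ∈ span F {y, z} :=
  map_mem_two (lin F A g)

theorem i2_smul (g : Γ) {x y : A} : I2 F (g • x) (g • y) ↔ I2 F x y := map_i2 (lin F A g)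

theorem fix_two {g : Γ} {y z a : A} (h1 : g • y = y) (h2 : g • z = z) (ha : a ∈ span F {y, z}) :
    g • a = a := by
  obtain ⟨s, t, rfl⟩ := mem_span_pair.1 ha
  rw [smul_add, smul_comm, h1, smul_comm, h2]

theorem finrank_eq_of_smul (g : Γ) {L M : Submodule F A} (h : ∀ a, g • a ∈ M ↔ a ∈ L) :
    finrank F M = finrank F L := by
  have e : M = L.map (lin F A g : A →ₗ[F] A) := by
    ext a
    exact ⟨fun ha => ⟨g⁻¹ • a, (h _).1 (by simpa using ha), smul_inv_smul g a⟩,
      fun ⟨b, hb, e⟩ => e ▸ (h b).2 hb⟩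
  rw [e, LinearEquiv.finrank_map_eq]

end basic

/-- An invariant perfect pairing. -/
structure Pr (F Γ A B : Type*) [Field F] [Group Γ] [AddCommGroup A] [Module F A] [AddCommGroup B]
    [Module F B] [DistribMulAction Γ A] [DistribMulAction Γ B] where
  b : A →ₗ[F] B →ₗ[F] F
  l : ∀ a, (∀ f, b a f = 0) → a = 0
  r : ∀ f, (∀ a, b a f = 0) → f = 0
  inv : ∀ (g : Γ) a f, b (g • a) (g • f) = b a f

namespace Pr

variable {Γ A B : Type*} [Group Γ] [AddCommGroup A] [Module F A] [AddCommGroup B] [Module F B]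
  [DistribMulAction Γ A] [DistribMulAction Γ B] (P : Pr F Γ A B)

/-- The flipped pairing. -/
def flip : Pr F Γ B A := ⟨P.b.flip, P.r, P.l, fun g f a => P.inv g a f⟩

@[simp] theorem flip_b (f : B) (a : A) : P.flip.b f a = P.b a f := rfl

/-- The annihilator. -/
def perp (L : Submodule F A) : Submodule F B where
  carrier := {f | ∀ a ∈ L, P.b a f = 0}
  add_mem' := fun hf hg a ha => by rw [map_add, hf a ha, hg a ha, add_zero]
  zero_mem' := fun a _ => map_zero _
  smul_mem' := fun c f hf a ha => by rw [map_smul, hf a ha, smul_zero]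

theorem mem_perp {L : Submodule F A} {f : B} : f ∈ P.perp L ↔ ∀ a ∈ L, P.b a f = 0 := Iff.rfl

theorem mem_perp_one {y : A} {f : B} : f ∈ P.perp (span F {y}) ↔ P.b y f = 0 :=
  ⟨fun h => h y (mem_span_singleton_self y), fun h _ ha => span_one_le (X := LinearMap.ker (P.b.flip f)) h ha⟩

theorem mem_perp_two {y z : A} {f : B} : f ∈ P.perp (span F {y, z}) ↔ P.b y f = 0 ∧ P.b z f = 0 :=
  ⟨fun h => ⟨h y (mem_l _ _), h z (mem_r _ _)⟩,
    fun h _ ha => span_two_le (X := LinearMap.ker (P.b.flip f)) h.1 h.2 ha⟩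

theorem inv' (g : Γ) (a : A) (f : B) : P.b (g • a) f = P.b a (g⁻¹ • f) := by
  conv_lhs => rw [← smul_inv_smul g f, P.inv]

theorem inv'' (g : Γ) (a : A) (f : B) : P.b a (g • f) = P.b (g⁻¹ • a) f := by
  conv_lhs => rw [← smul_inv_smul g a, P.inv]

theorem inj : Function.Injective P.b.flip :=
  (injective_iff_map_eq_zero _).2 fun f hf => P.r f fun a => LinearMap.congr_fun hf a

variable [Finite A] [Finite B]

include P in
theorem finrank_eq : finrank F B = finrank F A :=
  le_antisymm ((LinearMap.finrank_le_finrank_of_injective P.inj).trans Subspace.dual_finrank_eq.le)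
    ((LinearMap.finrank_le_finrank_of_injective P.flip.inj).trans Subspace.dual_finrank_eq.le)

theorem bij : Function.Bijective P.b.flip :=
  ⟨P.inj, (LinearMap.injective_iff_surjective_of_finrank_eq_finrank
    (P.finrank_eq.trans Subspace.dual_finrank_eq.symm)).1 P.inj⟩

theorem exists_sep {L : Submodule F A} {v : A} (hv : v ∉ L) : ∃ f ∈ P.perp L, P.b v f = 1 := by
  obtain ⟨φ, h1, h2⟩ := Submodule.exists_dual_map_eq_bot_of_notMem hv inferInstance
  obtain ⟨f, rfl⟩ := P.bij.2 φ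
  refine ⟨(P.b v f)⁻¹ • f, smul_mem _ _ fun a ha => ?_, ?_⟩
  · exact (mem_bot F).1 (h2 ▸ mem_map_of_mem ha)
  · rw [map_smul]; exact inv_mul_cancel₀ h1

theorem mem_of_perp {L : Submodule F A} {v : A} (h : ∀ f ∈ P.perp L, P.b v f = 0) : v ∈ L := by
  by_contra hv
  obtain ⟨f, hf, e⟩ := P.exists_sep hv
  exact zero_ne_one ((h f hf).symm.trans e)

theorem perp_perp (L : Submodule F A) : P.flip.perp (P.perp L) = L := by
  ext v
  exact ⟨fun h => P.mem_of_perp fun f hf => h f hf, fun h f hf => hf v h⟩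

theorem finrank_perp (L : Submodule F A) : finrank F L + finrank F (P.perp L) = finrank F A := by
  have e : L.dualAnnihilator = (P.perp L).map ((LinearEquiv.ofBijective P.b.flip P.bij) : B →ₗ[F] Dual F A) := by
    ext φ
    obtain ⟨f, rfl⟩ := P.bij.2 φ
    rw [mem_dualAnnihilator]
    exact ⟨fun h => ⟨f, h, rfl⟩, fun ⟨f', h, e⟩ => P.inj e ▸ h⟩
  rw [← Subspace.finrank_add_finrank_dualAnnihilator_eq L, e, LinearEquiv.finrank_map_eq]

omit [Finite B] in
theorem sum_eq_zero [Fintype A] {T : A → ℂ} (l : A) {c : ℂ} (hc : c ≠ 1) (h : ∀ a, T (a + l) = c * T a) :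
    ∑ a, T a = 0 := by
  have e : ∑ a, T (a + l) = ∑ a, T a := Fintype.sum_equiv (Equiv.addRight l) _ _ fun _ => rfl
  simp only [h, ← Finset.mul_sum] at e
  exact by_contra fun n => hc ((mul_eq_right₀ n).1 e)

/-- Orbits outside `L` are `L`-invariant ⇒ orbits outside `L^⊥` are `L^⊥`-invariant. -/
theorem four [Finite F] (Δ : Subgroup Γ) (L : Submodule F A)
    (H : ∀ u ∉ L, ∀ a ∈ L, ∃ g ∈ Δ, g • u = u + a) {f m : B} (hf : f ∉ P.perp L)
    (hm : m ∈ P.perp L) : ∃ g ∈ Δ, g • f = f + m := by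
  classical
  have := Fintype.ofFinite A
  have := Fintype.ofFinite B
  set ψ := AddChar.FiniteField.primitiveChar_to_Complex F
  obtain ⟨t, ht⟩ : ∃ t, ψ t ≠ 1 := by
    have := AddChar.FiniteField.primitiveChar_to_Complex_isPrimitive F one_ne_zero
    rwa [AddChar.mulShift_one, AddChar.ne_one_iff] at this
  have ex : ∀ (L : Submodule F A) {f : B}, f ∉ P.perp L → ∃ l ∈ L, ψ (P.b l f) ≠ 1 := fun L f hf => by
    rw [P.mem_perp] at hf
    push Not at hf
    obtain ⟨l, h1, h2⟩ := hf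
    exact ⟨(t / P.b l f) • l, smul_mem _ _ h1, by
      rwa [map_smul, LinearMap.smul_apply, smul_eq_mul, div_mul_cancel₀ _ h2]⟩
  set O : Finset B := Finset.univ.filter fun f' => ∃ g ∈ Δ, g • f = f' with hO
  set Φ : A → ℂ := fun a => ∑ f' ∈ O, ψ (P.b a (-f')) with hΦ
  have key : ∀ f', ∑ a, Φ a * ψ (P.b a f') = if f' ∈ O then (Fintype.card A : ℂ) else 0 := by
    intro f'
    simp only [hΦ, Finset.sum_mul]
    rw [Finset.sum_comm, ← Finset.sum_ite_eq' O f' fun _ => (Fintype.card A : ℂ)]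
    refine Finset.sum_congr rfl fun f'' _ => ?_
    simp only [← AddChar.map_add_eq_mul, ← map_add]
    split_ifs with e
    · simp [e]
    · obtain ⟨l, -, hl⟩ := ex ⊤ (f := -f'' + f') fun k => e (neg_add_eq_zero.1 (P.r _ fun a => k a trivial))
      exact sum_eq_zero l hl fun a => by rw [P.b.map_add, LinearMap.add_apply, AddChar.map_add_eq_mul, mul_comm]
  have inv : ∀ g ∈ Δ, ∀ a, Φ (g • a) = Φ a := fun g hg a => by
    have k : ∀ g ∈ Δ, ∀ f' ∈ O, g • f' ∈ O := fun g hg f' hf' => by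
      simp only [hO, Finset.mem_filter, Finset.mem_univ, true_and] at hf' ⊢
      obtain ⟨k, hk, rfl⟩ := hf'
      exact ⟨g * k, Δ.mul_mem hg hk, mul_smul _ _ _⟩
    exact Finset.sum_bij' (fun f _ => g⁻¹ • f) (fun f _ => g • f) (k _ (inv_mem hg)) (k _ hg)
      (fun _ _ => smul_inv_smul _ _) (fun _ _ => inv_smul_smul _ _) fun f _ => by rw [P.inv', smul_neg]
  obtain ⟨l, hl, hlf⟩ := ex L hf
  have h1 : ∑ a, (Φ a * ψ (P.b a f) - Φ a * ψ (P.b a (f + m))) = 0 := sum_eq_zero l hlf fun a => by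
    by_cases ha : a ∈ L
    · simp [hm a ha, hm l hl]
    · obtain ⟨g, hg, e⟩ := H a ha l hl
      rw [← e, inv g hg, e]
      simp only [map_add, LinearMap.add_apply, AddChar.map_add_eq_mul, hm l hl, AddChar.map_zero_eq_one]
      ring
  rw [Finset.sum_sub_distrib, key, key, if_pos (by simpa [hO] using ⟨1, one_mem _, one_smul _ _⟩)] at h1
  by_contra h3
  rw [if_neg (by simpa [hO] using h3), sub_zero, Nat.cast_eq_zero] at h1
  exact Fintype.card_ne_zero h1

end Pr

end Cfsg.Lib.CK
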