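import Cfsg.Agent.Lib.CK.A
import Cfsg.Agent.Lib.Perm.Module

/-! Sub- and quotient actions, duals; antiflag transitive groups and good pairs. -/

set_option autoImplicit false

namespace Cfsg.Lib.CK

open Module Submodule MulAction

variable {F : Type*} [Field F]

section quot

variable {Γ A : Type*} [Group Γ] [AddCommGroup A] [Module F A] [DistribMulAction Γ A]

/-- `L` is invariant under `Δ`. -/
class Inv (Δ : Subgroup Γ) (L : Submodule F A) : Prop where
  h : ∀ g ∈ Δ, ∀ a ∈ L, g • a ∈ L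

/-- The stabilizer of a subspace. -/
def Stab (Γ : Type*) [Group Γ] [DistribMulAction Γ A] (L : Submodule F A) : Subgroup Γ where
  carrier := {g | ∀ a, g • a ∈ L ↔ a ∈ L}
  mul_mem' := fun {g h} hg hh a => by rw [mul_smul, hg, hh]
  one_mem' := fun a => by rw [one_smul]
  inv_mem' := fun {g} hg a => by rw [← hg, smul_inv_smul]

instance invStab' (L : Submodule F A) : Inv (Stab Γ L) L := ⟨fun _ hg a ha => (hg a).2 ha⟩

variable [SMulCommClass Γ F A]

instance invStab (x : A) : Inv (stabilizer Γ x) (span F {x}) :=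
  ⟨fun g hg a ha => by rw [← mem_stabilizer_iff.1 hg]; exact (smul_mem_one g).2 ha⟩

variable (Δ : Subgroup Γ) (L : Submodule F A) [hL : Inv Δ L]

instance quotSMul : SMul Δ (A ⧸ L) :=
  ⟨fun g => L.mapQ L (lin F A (g : Γ) : A →ₗ[F] A) fun a ha => hL.h g g.2 a ha⟩

variable {Δ L}

@[simp] theorem smul_mk (g : Δ) (a : A) :
    g • (Submodule.Quotient.mk a : A ⧸ L) = Submodule.Quotient.mk ((g : Γ) • a) := rfl

variable (Δ L)

instance quotAct : DistribMulAction Δ (A ⧸ L) where
  one_smul q := by induction q using Submodule.Quotient.induction_on; simp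
  mul_smul g h q := by induction q using Submodule.Quotient.induction_on; simp [mul_smul]
  smul_zero g := map_zero (L.mapQ L _ _)
  smul_add g := map_add (L.mapQ L _ _)

instance quotComm : SMulCommClass Δ F (A ⧸ L) := ⟨fun _ c a => map_smul (L.mapQ L _ _) c a⟩

instance subAct : DistribMulAction Δ L where
  smul g a := ⟨(g : Γ) • (a : A), hL.h g g.2 a a.2⟩
  one_smul a := Subtype.ext (one_smul _ _)
  mul_smul g h a := Subtype.ext (mul_smul _ _ _)
  smul_zero g := Subtype.ext (smul_zero _)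
  smul_add g a b := Subtype.ext (smul_add _ _ _)

instance subComm : SMulCommClass Δ F L := ⟨fun g c a => Subtype.ext (smul_comm (g : Γ) c (a : A))⟩

/-- The dual space. -/
def Du (F A : Type*) [Field F] [AddCommGroup A] [Module F A] := A →ₗ[F] F

instance duAdd : AddCommGroup (Du F A) := inferInstanceAs (AddCommGroup (A →ₗ[F] F))

instance duMod : Module F (Du F A) := inferInstanceAs (Module F (A →ₗ[F] F))

instance duFin [Finite F] [Finite A] : Finite (Du F A) :=
  show Finite (A →ₗ[F] F) from Finite.of_injective (fun f : A →ₗ[F] F => (f : A → F)) DFunLike.coe_injective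

instance quotFin [Finite A] (M : Submodule F A) : Finite (A ⧸ M) := Finite.of_surjective _ M.mkQ_surjective

instance duAct : DistribMulAction Γ (Du F A) where
  smul g f := LinearMap.comp (f : A →ₗ[F] F) (lin F A g⁻¹ : A →ₗ[F] A)
  one_smul f := LinearMap.ext fun a => by
    change (show A →ₗ[F] F from f) ((1 : Γ)⁻¹ • a) = _
    simp
  mul_smul g h f := LinearMap.ext fun a => by
    change (show A →ₗ[F] F from f) ((g * h)⁻¹ • a) = (show A →ₗ[F] F from f) (h⁻¹ • g⁻¹ • a)
    rw [mul_inv_rev, mul_smul]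
  smul_zero g := rfl
  smul_add g f h := rfl

instance duComm : SMulCommClass Γ F (Du F A) := ⟨fun _ _ _ => rfl⟩

/-- The canonical pairing. -/
def Pr.dual (F Γ A : Type*) [Field F] [Group Γ] [AddCommGroup A] [Module F A] [DistribMulAction Γ A]
    [SMulCommClass Γ F A] : Pr F Γ A (Du F A) where
  b := Module.Dual.eval F A
  l a h := (Module.forall_dual_apply_eq_zero_iff F a).1 h
  r f h := LinearMap.ext h
  inv g a f := by
    change (show A →ₗ[F] F from f) (g⁻¹ • g • a) = _
    simp only [inv_smul_smul]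
    rfl

variable {B : Type*} [AddCommGroup B] [Module F B] [DistribMulAction Γ B] [SMulCommClass Γ F B]
  (P : Pr F Γ A B)

instance invPerp : Inv Δ (P.perp L) :=
  ⟨fun g hg f hf a ha => by rw [P.inv'']; exact hf _ (hL.h _ (Δ.inv_mem hg) a ha)⟩

/-- The pairing between a quotient and the annihilator. -/
def Pr.quot [Finite A] [Finite B] : Pr F Δ (A ⧸ L) (P.perp L) where
  b := L.liftQ (P.b.domRestrict₂ (P.perp L)) fun a ha => LinearMap.ext fun f => f.2 a ha
  l q h := by
    induction q using Submodule.Quotient.induction_on with | H a =>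
    rw [Submodule.Quotient.mk_eq_zero]
    exact P.mem_of_perp fun f hf => h ⟨f, hf⟩
  r f h := Subtype.ext (P.r _ fun a => h (Submodule.Quotient.mk a))
  inv g q f := by
    induction q using Submodule.Quotient.induction_on with | H a =>
    exact P.inv g a f

end quot

section AT

variable {Γ A B : Type*} [Group Γ] [AddCommGroup A] [Module F A] [AddCommGroup B] [Module F B]
  [DistribMulAction Γ A] [DistribMulAction Γ B] [SMulCommClass Γ F A] [SMulCommClass Γ F B]

/-- Antiflag transitivity (in the form: all transvections are induced on each line). -/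
structure AT (F Γ A : Type*) [Field F] [Group Γ] [AddCommGroup A] [Module F A] [DistribMulAction Γ A] :
    Prop where
  two : 2 ≤ finrank F A
  mv : ∀ y u : A, I2 F y u → ∃ g : Γ, g • y = y ∧ g • u = u + y

theorem exists_i2 (hA : 2 ≤ finrank F A) {y : A} (hy : y ≠ 0) : ∃ u, I2 F y u := by
  by_contra! k
  have := finrank_span_singleton (K := F) hy
  rw [eq_top_iff'.2 fun u => by_contra fun n => k u ⟨hy, n⟩, finrank_top] at this
  omega

theorem AT.tv (h : AT F Γ A) {y u a : A} (k : I2 F y u) (ha : a ∈ span F {y}) :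
    ∃ g : Γ, g • y = y ∧ g • u = u + a := by
  by_cases a0 : a = 0
  · exact ⟨1, one_smul _ _, by rw [a0, one_smul, add_zero]⟩
  obtain ⟨g, g1, g2⟩ := h.mv a u ⟨a0, fun n => k.ne (span_one_le ha n)⟩
  obtain ⟨c, rfl⟩ := mem_span_singleton.1 (mem_one_symm ha a0)
  exact ⟨g, by rw [smul_comm, g1], g2⟩

theorem AT.line (h : AT F Γ A) {y u z : A} (k : I2 F y u) (hz : z ∈ span F {y, u}) (z0 : z ≠ 0) :
    ∃ g : Γ, g • y = z ∧ ∀ a ∈ span F {y, u}, g • a ∈ span F {y, u} := by
  have H : ∀ {y z : A}, I2 F y z → ∃ g : Γ, g • y = z ∧ ∀ a ∈ span F {y, z}, g • a ∈ span F {y, z} := by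
    intro y z k
    obtain ⟨g, g1, g2⟩ := h.mv _ _ (k.add (-1)).symm
    rw [neg_one_smul, add_comm z, add_neg_cancel_left] at g2
    refine ⟨g, g2, fun a ha => ?_⟩
    rw [← span_two_eq (add_mem (mem_r y z) (smul_mem _ (-1) (mem_l y z))) (k.add (-1)).ne, ← smul_mem_two g,
      g1, g2] at ha
    exact span_two_le (mem_r _ _) (add_mem (mem_r y z) (smul_mem _ (-1) (mem_l y z))) ha
  by_cases e : z ∈ span F {y}
  · obtain ⟨g, g1, g2⟩ := H k
    obtain ⟨s, s1, s2⟩ := H (y := u) (z := z) ⟨k.y0, fun n => k.ne (span_one_le e (mem_one_symm n z0))⟩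
    rw [span_two_eq (span_two_comm (F := F) y u ▸ hz) fun n => k.ne (span_one_le e (mem_one_symm n z0)),
      span_two_comm] at s2
    exact ⟨s * g, by rw [mul_smul, g1, s1], fun a ha => by rw [mul_smul]; exact s2 _ (g2 a ha)⟩
  · rw [← span_two_eq hz e]
    exact H ⟨k.x0, e⟩

theorem AT.trans (h : AT F Γ A) {y z : A} (hy : y ≠ 0) (hz : z ≠ 0) : ∃ g : Γ, g • y = z := by
  by_cases e : z ∈ span F {y}
  · obtain ⟨u, k⟩ := exists_i2 h.two hy
    exact (h.line k (one_le_two _ _ e) hz).imp fun _ => And.left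
  · exact (h.line ⟨hy, e⟩ (mem_r _ _) hz).imp fun _ => And.left

/-- Good pairs. -/
structure Good (F Γ : Type*) [Field F] [Group Γ] [Module F A] [DistribMulAction Γ A] (y z : A) : Prop where
  i2 : I2 F y z
  mv : ∀ u ∉ span F {y, z}, ∀ a ∈ span F {y, z}, ∃ g : Γ, g • y = y ∧ g • z = z ∧ g • u = u + a

variable [Finite A] [Finite B] [Finite F]

theorem AT.anti (h : AT F Γ A) (P : Pr F Γ A B) {y y' : A} {f f' : B} (hf : P.b y f ≠ 0)
    (e : P.b y f = P.b y' f') : ∃ g : Γ, g • y = y' ∧ g • f = f' := by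
  have hy : y ≠ 0 := by rintro rfl; simp at hf
  have hy' : y' ≠ 0 := by rintro rfl; simp [e] at hf
  obtain ⟨g, rfl⟩ := h.trans hy hy'
  obtain ⟨k, hk, e'⟩ := P.four (stabilizer Γ (g • y)) (span F {g • y}) (f := g • f) (m := f' - g • f)
    (fun u hu a ha => h.tv ⟨hy', hu⟩ ha) (by rwa [P.mem_perp_one, P.inv])
    (by rw [P.mem_perp_one, map_sub, P.inv, e, sub_self])
  exact ⟨k * g, by rw [mul_smul, mem_stabilizer_iff.1 hk], by rw [mul_smul, e', add_sub_cancel]⟩

theorem AT.dual (h : AT F Γ A) (P : Pr F Γ A B) : AT F Γ B := ⟨P.finrank_eq ▸ h.two, fun f u k => by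
  obtain ⟨g, hg, e⟩ := P.four (stabilizer Γ f) (P.flip.perp (span F {f})) (f := u) (m := f) (by
    intro v hv a ha
    rw [P.flip.mem_perp_one, P.flip_b] at hv ha
    obtain ⟨g, e1, e2⟩ := h.anti P (y' := v + a) (f' := f) hv
      (by rw [map_add, LinearMap.add_apply, ha, add_zero])
    exact ⟨g, e2, e1⟩) (fun n => k.ne (P.flip.perp_perp (span F {f}) ▸ n))
      (fun a ha => P.flip.mem_perp_one.1 ha)
  exact ⟨g, hg, e⟩⟩

omit [SMulCommClass Γ F A] [SMulCommClass Γ F B] [Finite F] in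
theorem card_affine (P : Pr F Γ A B) {y : A} (hy : y ≠ 0) :
    Nat.card {f : B // P.b y f = 1} = Nat.card F ^ (finrank F A - 1) := by
  obtain ⟨f₀, -, h₀⟩ := P.exists_sep (L := ⊥) (v := y) (by simpa using hy)
  have e : {f : B // P.b y f = 1} ≃ P.perp (span F {y}) :=
    { toFun := fun f => ⟨f - f₀, by rw [P.mem_perp_one, map_sub, f.2, h₀, sub_self]⟩
      invFun := fun f => ⟨f + f₀, by rw [map_add, P.mem_perp_one.1 f.2, h₀, zero_add]⟩
      left_inv := fun f => Subtype.ext (sub_add_cancel _ _)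
      right_inv := fun f => Subtype.ext (add_sub_cancel_right _ _) }
  have := P.finrank_perp (span F {y})
  rw [finrank_span_singleton hy] at this
  rw [Nat.card_congr e, card_eq F]
  congr 1
  omega

/-- The action of a point stabilizer on the opposite functionals. -/
def antiAct (P : Pr F Γ A B) (y : A) : MulAction (stabilizer Γ y) {f : B // P.b y f = 1} where
  smul g f := ⟨(g : Γ) • (f : B), by
    rw [P.inv'', mem_stabilizer_iff.1 (Subgroup.inv_mem _ g.2)]; exact f.2⟩
  one_smul f := Subtype.ext (one_smul _ _)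
  mul_smul g h f := Subtype.ext (mul_smul _ _ _)

theorem exists_char (F : Type*) [Field F] [Finite F] :
    ∃ p k : ℕ, Fact p.Prime ∧ CharP F p ∧ Nat.card F = p ^ (k + 1) := by
  have := Fintype.ofFinite F
  obtain ⟨p, hp, ⟨k, k0⟩, h, e⟩ := FiniteField.card' F
  exact ⟨p, k - 1, ⟨h⟩, hp, by rw [Nat.card_eq_fintype_card, e, Nat.sub_add_cancel k0]; rfl⟩

theorem AT.sylow [Finite Γ] (h : AT F Γ A) (P : Pr F Γ A B) {p k : ℕ} [Fact p.Prime]
    (hq : Nat.card F = p ^ k) {y : A} (S : Sylow p (stabilizer Γ y)) {f f' : B} (hf : P.b y f = 1)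
    (hf' : P.b y f' = 1) : ∃ g ∈ S, ((g : stabilizer Γ y) : Γ) • f = f' := by
  letI := antiAct P y
  haveI : IsPretransitive (stabilizer Γ y) {f : B // P.b y f = 1} := ⟨fun f f' => by
    obtain ⟨g, e1, e2⟩ := h.anti P (f.2.trans_ne one_ne_zero) (f.2.trans f'.2.symm)
    exact ⟨⟨g, e1⟩, Subtype.ext e2⟩⟩
  have c := card_affine P (y := y) (by rintro rfl; simp at hf)
  rw [hq, ← pow_mul] at c
  obtain ⟨g, e⟩ := (Cfsg.Lib.Perm.sylow_isPretransitive c S).exists_smul_eq ⟨f, hf⟩ ⟨f', hf'⟩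
  exact ⟨g, g.2, congrArg Subtype.val e⟩

omit [Finite F] in
theorem exists_fixed {Δ : Type*} [Group Δ] [DistribMulAction Δ A] {p k : ℕ} [Fact p.Prime]
    (hq : Nat.card F = p ^ (k + 1)) (hΔ : IsPGroup p Δ) (hA : 1 ≤ finrank F A) :
    ∃ a : A, a ≠ 0 ∧ ∀ g : Δ, g • a = a := by
  obtain ⟨b, hb, e⟩ := hΔ.exists_fixed_point_of_prime_dvd_card_of_fixed_point (α := A)
    (by rw [card_eq F, hq, ← pow_mul]; exact dvd_pow_self p (by positivity)) (a := 0) (fun g => smul_zero g)
  exact ⟨b, e.symm, hb⟩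

theorem AT.exists_good [Finite Γ] (h : AT F Γ A) {y : A} (hy : y ≠ 0) : ∃ z, Good F Γ y z := by
  set P := Pr.dual F Γ A
  obtain ⟨p, k, _, _, hq⟩ := exists_char F
  obtain ⟨S⟩ : Nonempty (Sylow p (stabilizer Γ y)) := inferInstance
  obtain ⟨q, q0, hS⟩ := exists_fixed (A := A ⧸ span F {y}) hq S.2 (by
    have := (span F {y}).finrank_quotient_add_finrank
    have := h.two
    rw [finrank_span_singleton hy] at *
    omega)
  induction q using Submodule.Quotient.induction_on with | H z =>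
  have i : I2 F y z := ⟨hy, by rwa [Ne, Submodule.Quotient.mk_eq_zero] at q0⟩
  have t1 : ∀ f f', P.b y f ≠ 0 → f' - f ∈ P.perp (span F {y, z}) →
      ∃ g : Γ, g • y = y ∧ g • z = z ∧ g • f = f' := by
    intro f f' hf e
    rw [P.mem_perp_two, map_sub, map_sub, sub_eq_zero, sub_eq_zero] at e
    obtain ⟨g, hg, e'⟩ := h.sylow P hq S (f := (P.b y f)⁻¹ • f) (f' := (P.b y f)⁻¹ • f')
      (by rw [map_smul]; exact inv_mul_cancel₀ hf) (by rw [map_smul, e.1]; exact inv_mul_cancel₀ hf)
    rw [smul_comm, (smul_right_injective _ (inv_ne_zero hf)).eq_iff] at e'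
    obtain ⟨c, hc⟩ := mem_span_singleton.1 ((Submodule.Quotient.eq _).1 (hS ⟨g, hg⟩))
    replace hc : (g : Γ) • z = c • y + z := eq_add_of_sub_eq hc.symm
    have := P.inv (g : Γ) z f
    rw [hc, e', map_add, map_smul, LinearMap.add_apply, e.2, add_eq_right, LinearMap.smul_apply, e.1,
      smul_eq_zero, or_iff_left hf] at this
    exact ⟨g, g.2, by rw [hc, this, zero_smul, zero_add], e'⟩
  obtain ⟨s, s1, s2⟩ := h.line i.symm (mem_r _ _) hy
  rw [span_two_comm] at s2
  refine ⟨z, i, fun u hu a ha => ?_⟩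
  obtain ⟨g, hg, e⟩ := P.flip.four (stabilizer Γ y ⊓ stabilizer Γ z) (P.perp (span F {y, z}))
    (f := u) (m := a) (by
      intro f hf m hm
      by_cases hyf : P.b y f = 0
      · have e : span F {s • y, s • z} = span F {y, z} := eq_of_le_of_finrank_eq
          (span_two_le (s2 _ (mem_l _ _)) (s2 _ (mem_r _ _))) (by rw [i.finrank, ((i2_smul s).2 i).finrank])
        obtain ⟨g, g1, g2, g3⟩ := t1 (s • f) (s • (f + m))
          (by rw [← s1, P.inv]; exact fun e => hf (P.mem_perp_two.2 ⟨hyf, e⟩))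
          (by rw [← smul_sub, add_sub_cancel_left, ← e, P.mem_perp_two, P.inv, P.inv]; exact P.mem_perp_two.1 hm)
        exact ⟨s⁻¹ * g * s, ⟨by simp [mul_smul, fix_two g1 g2 (s2 _ (mem_l _ _))],
          by simp [mul_smul, fix_two g1 g2 (s2 _ (mem_r _ _))]⟩, by simp [mul_smul, g3]⟩
      · obtain ⟨g, g1, g2, g3⟩ := t1 f (f + m) hyf (by rwa [add_sub_cancel_left])
        exact ⟨g, ⟨g1, g2⟩, g3⟩) (by rwa [P.perp_perp]) (by rwa [P.perp_perp])
  exact ⟨g, hg.1, hg.2, e⟩

omit [SMulCommClass Γ F A] [SMulCommClass Γ F B] in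
theorem Good.fun (P : Pr F Γ A B) {y z : A} (h : Good F Γ y z) {f f' : B} (hf : P.b z f ≠ 0)
    (e1 : P.b y f = P.b y f') (e2 : P.b z f = P.b z f') : ∃ g : Γ, g • y = y ∧ g • f = f' := by
  obtain ⟨g, hg, e⟩ := P.four (stabilizer Γ y) (span F {y, z}) (f := f) (m := f' - f)
    (fun u hu a ha => by
      obtain ⟨g, g1, -, g3⟩ := h.mv u hu a ha
      exact ⟨g, g1, g3⟩) (fun k => hf (P.mem_perp_two.1 k).2)
    (by rw [P.mem_perp_two, map_sub, map_sub, e1, e2, sub_self, sub_self]; simp)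
  exact ⟨g, hg, by rw [e, add_sub_cancel]⟩

end AT

end Cfsg.Lib.CK
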