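import Cfsg.Agent.Lib.CK.B

/-! The subspaces `W y` of an antiflag transitive group. -/

set_option autoImplicit false

namespace Cfsg.Lib.CK

open Module Submodule MulAction

variable {F : Type*} [Field F] {Γ A B : Type*} [Group Γ] [AddCommGroup A] [Module F A] [AddCommGroup B]
  [Module F B] [DistribMulAction Γ A] [DistribMulAction Γ B] [SMulCommClass Γ F A] [SMulCommClass Γ F B]

theorem Good.of_span {y z y' z' : A} (h : Good F Γ y z) (k : I2 F y' z')
    (e : span F {y', z'} = span F {y, z}) : Good F Γ y' z' :=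
  ⟨k, fun u hu a ha => by
    obtain ⟨g, g1, g2, g3⟩ := h.mv u (e ▸ hu) a (e ▸ ha)
    exact ⟨g, fix_two g1 g2 (e ▸ mem_l _ _), fix_two g1 g2 (e ▸ mem_r _ _), g3⟩⟩

theorem Good.symm {y z : A} (h : Good F Γ y z) : Good F Γ z y := h.of_span h.i2.symm (span_two_comm _ _)

theorem Good.of_mem {y z z' : A} (h : Good F Γ y z) (h1 : z' ∈ span F {y, z}) (h2 : z' ∉ span F {y}) :
    Good F Γ y z' := h.of_span ⟨h.i2.x0, h2⟩ (span_two_eq h1 h2)

theorem Good.add {y z : A} (h : Good F Γ y z) (t : F) : Good F Γ y (z + t • y) :=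
  h.of_mem (add_mem (mem_r _ _) (smul_mem _ _ (mem_l _ _))) (h.i2.add t).ne

theorem Good.smul {y z : A} (h : Good F Γ y z) (k : Γ) : Good F Γ (k • y) (k • z) :=
  ⟨(i2_smul k).2 h.i2, fun u hu a ha => by
    obtain ⟨g, g1, g2, g3⟩ := h.mv (k⁻¹ • u) (by rwa [← smul_mem_two k, smul_inv_smul]) (k⁻¹ • a)
      (by rwa [← smul_mem_two k, smul_inv_smul])
    exact ⟨k * g * k⁻¹, by simp [mul_smul, g1], by simp [mul_smul, g2], by simp [mul_smul, g3]⟩⟩

theorem good_smul (k : Γ) {y z : A} : Good F Γ (k • y) (k • z) ↔ Good F Γ y z :=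
  ⟨fun h => by simpa using h.smul k⁻¹, fun h => h.smul k⟩

/-- The subspace of vectors forming a good pair with `y`. -/
def W (F Γ : Type*) [Field F] [Group Γ] [Module F A] [DistribMulAction Γ A] [SMulCommClass Γ F A] (y : A) :
    Submodule F A where
  carrier := {z | z ∈ span F {y} ∨ Good F Γ y z}
  zero_mem' := Or.inl (zero_mem _)
  add_mem' := by
    have k : ∀ {z z' : A}, Good F Γ y z → z' ∈ span F {y, z} → z + z' ∈ span F {y} ∨ Good F Γ y (z + z') :=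
      fun hz h => or_iff_not_imp_left.2 (hz.of_mem (add_mem (mem_r _ _) h))
    rintro z z' (hz | hz) (hz' | hz')
    · exact Or.inl (add_mem hz hz')
    · exact add_comm z z' ▸ k hz' (one_le_two _ _ hz)
    · exact k hz (one_le_two _ _ hz')
    · by_cases h : z' ∈ span F {y, z}
      · exact k hz h
      obtain ⟨g, g1, -, g3⟩ := hz.mv z' h z (mem_r _ _)
      have := hz'.smul g
      rw [g1, g3, add_comm] at this
      exact Or.inr this
  smul_mem' := by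
    rintro c z (hz | hz)
    exacts [Or.inl (smul_mem _ c hz), or_iff_not_imp_left.2 (hz.of_mem (smul_mem _ c (mem_r _ _)))]

theorem mem_W {y z : A} : z ∈ W F Γ y ↔ z ∈ span F {y} ∨ Good F Γ y z := Iff.rfl

theorem self_mem_W (y : A) : y ∈ W F Γ y := Or.inl (mem_span_singleton_self y)

theorem Good.mem {y z : A} (h : Good F Γ y z) : z ∈ W F Γ y := Or.inr h

theorem good_of_mem {y z : A} (h : z ∈ W F Γ y) (hy : z ∉ span F {y}) : Good F Γ y z :=
  (mem_W.1 h).resolve_left hy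

theorem W_symm {y z : A} (h0 : z ≠ 0) (h : z ∈ W F Γ y) : y ∈ W F Γ z :=
  (mem_W.1 h).imp (mem_one_symm · h0) Good.symm

theorem W_zero : W F Γ (0 : A) = ⊥ := by
  rw [eq_bot_iff]
  rintro u (k | k)
  exacts [by simpa using k, absurd rfl k.i2.x0]

theorem W_of_mem_one {y z : A} (h : z ∈ span F {y}) : W F Γ z ≤ W F Γ y := fun u hu => by
  by_cases y0 : y = 0
  · rw [y0, span_zero_singleton, mem_bot] at h
    rwa [y0, ← h]
  by_cases z0 : z = 0
  · rw [z0, W_zero, mem_bot] at hu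
    exact hu ▸ zero_mem _
  by_cases u0 : u = 0
  exacts [u0 ▸ zero_mem _, W_symm y0 (span_one_le (W_symm u0 hu) (mem_one_symm h z0))]

theorem W_smul {c : F} (hc : c ≠ 0) (y : A) : W F Γ (c • y) = W F Γ y :=
  le_antisymm (W_of_mem_one (smul_mem _ c (mem_span_singleton_self y)))
    (W_of_mem_one (mem_span_singleton.2 ⟨c⁻¹, inv_smul_smul₀ hc y⟩))

theorem smul_mem_W (k : Γ) {y z : A} : k • z ∈ W F Γ (k • y) ↔ z ∈ W F Γ y := by
  rw [mem_W, mem_W, smul_mem_one, good_smul]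

theorem W_inf_le {y z v : A} (h : v ∈ span F {y, z}) (v0 : v ≠ 0) : W F Γ y ⊓ W F Γ z ≤ W F Γ v := by
  intro u hu
  by_cases h0 : u = 0
  exacts [h0 ▸ zero_mem _, W_symm v0 (span_two_le (W_symm h0 hu.1) (W_symm h0 hu.2) h)]

theorem AT.finrank_W (h : AT F Γ A) {y z : A} (hy : y ≠ 0) (hz : z ≠ 0) :
    finrank F (W F Γ y) = finrank F (W F Γ z) := by
  obtain ⟨g, rfl⟩ := h.trans hy hz
  exact (finrank_eq_of_smul g fun a => smul_mem_W g).symm

theorem AT.W_mv (h : AT F Γ A) {y u a : A} (hy : y ≠ 0) (hu : u ∉ W F Γ y) (ha : a ∈ W F Γ y) :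
    ∃ g : Γ, g • y = y ∧ g • u = u + a := by
  rcases mem_W.1 ha with ha' | ha'
  · exact h.tv ⟨hy, fun e => hu (Or.inl e)⟩ ha'
  · obtain ⟨g, g1, -, g3⟩ := ha'.mv u (fun e => hu (span_two_le (self_mem_W _) ha e)) a (mem_r _ _)
    exact ⟨g, g1, g3⟩

theorem AT.good_trans (h : AT F Γ A) {y z z' : A} (hz : Good F Γ y z) (hz' : Good F Γ y z') :
    ∃ (g : Γ) (c : F), c ≠ 0 ∧ g • y = y ∧ g • z = c • z' := by
  by_cases e : z ∈ span F {y, z'}
  · obtain ⟨a, c, rfl⟩ := mem_span_pair.1 e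
    obtain ⟨g, g1, g2⟩ := h.tv hz.i2 (smul_mem _ (-a) (mem_span_singleton_self y))
    refine ⟨g, c, ?_, g1, by rw [g2]; module⟩
    rintro rfl
    exact hz.i2.ne (by simpa using smul_mem _ a (mem_span_singleton_self y))
  · have n : z' - z ∉ span F {y} := fun k => e (by simpa using sub_mem (mem_r y z') (one_le_two _ _ k))
    obtain ⟨g, g1, -, g3⟩ := (good_of_mem (sub_mem hz'.mem hz.mem) n).mv z (fun k => e (by
      rwa [span_two_eq (by simpa using add_mem (mem_r y (z' - z)) k) hz'.i2.ne])) _ (mem_r _ _)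
    exact ⟨g, 1, one_ne_zero, g1, by rw [g3, one_smul, add_sub_cancel]⟩

theorem AT.good_conj (h : AT F Γ A) {y z y' z' : A} (hz : Good F Γ y z) (hz' : Good F Γ y' z') :
    ∃ (g : Γ) (c : F), c ≠ 0 ∧ g • y = y' ∧ g • z = c • z' := by
  obtain ⟨g, rfl⟩ := h.trans hz.i2.x0 hz'.i2.x0
  obtain ⟨k, c, c0, k1, k2⟩ := h.good_trans (hz.smul g) hz'
  exact ⟨k * g, c, c0, by rw [mul_smul, k1], by rw [mul_smul, k2]⟩

theorem AT.finrank_inf (h : AT F Γ A) {y z y' z' : A} (hz : Good F Γ y z) (hz' : Good F Γ y' z') :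
    finrank F ↥(W F Γ y ⊓ W F Γ z) = finrank F ↥(W F Γ y' ⊓ W F Γ z') := by
  obtain ⟨g, c, c0, rfl, e⟩ := h.good_conj hz hz'
  rw [← W_smul c0 z', ← e]
  exact (finrank_eq_of_smul g fun a => by simp only [mem_inf, smul_mem_W]).symm

theorem Good.span_le {y z : A} (h : Good F Γ y z) : span F {y, z} ≤ W F Γ y ⊓ W F Γ z :=
  span_two_le ⟨self_mem_W _, h.symm.mem⟩ ⟨h.mem, self_mem_W _⟩

omit [SMulCommClass Γ F B] in
theorem smul_mem_perp_W (P : Pr F Γ A B) (g : Γ) {y : A} {f : B} :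
    g • f ∈ P.perp (W F Γ (g • y)) ↔ f ∈ P.perp (W F Γ y) :=
  ⟨fun h a ha => by rw [← P.inv g]; exact h _ ((smul_mem_W g).2 ha),
    fun h a ha => by rw [P.inv'']; exact h _ ((smul_mem_W g).1 (by rwa [smul_inv_smul]))⟩

variable [Finite A] [Finite B]

theorem Good.two_le_inf {y z : A} (h : Good F Γ y z) : 2 ≤ finrank F ↥(W F Γ y ⊓ W F Γ z) :=
  h.i2.finrank.ge.trans (finrank_mono h.span_le)

theorem Good.two_le {y z : A} (h : Good F Γ y z) : 2 ≤ finrank F (W F Γ y) :=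
  h.two_le_inf.trans (finrank_mono inf_le_left)

theorem card_ne_zero (F A : Type*) [Field F] [AddCommGroup A] [Module F A] [Finite A] :
    Nat.card {a : A // a ≠ 0} = Nat.card F ^ finrank F A - 1 := by
  classical
  have := Fintype.ofFinite A
  rw [← card_eq, Nat.card_eq_fintype_card, Nat.card_eq_fintype_card, Fintype.card_subtype_compl]
  simp

theorem card_pairs (R : A → Submodule F B) {k : ℕ} (hR : ∀ y ≠ 0, finrank F (R y) = k) :
    {p : A × B | p.1 ≠ 0 ∧ p.2 ≠ 0 ∧ p.2 ∈ R p.1}.ncard =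
      (Nat.card F ^ finrank F A - 1) * (Nat.card F ^ k - 1) := by
  have e : {p : A × B | p.1 ≠ 0 ∧ p.2 ≠ 0 ∧ p.2 ∈ R p.1} ≃
      Σ y : {a : A // a ≠ 0}, {f : R y // f ≠ 0} :=
    { toFun := fun p => ⟨⟨p.1.1, p.2.1⟩, ⟨⟨p.1.2, p.2.2.2⟩, fun e => p.2.2.1 (congrArg Subtype.val e)⟩⟩
      invFun := fun q => ⟨(q.1.1, q.2.1.1), q.1.2, fun e => q.2.2 (Subtype.ext e), q.2.1.2⟩
      left_inv := fun _ => rfl
      right_inv := fun _ => rfl }
  have := Fintype.ofFinite {a : A // a ≠ 0}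
  rw [← Nat.card_coe_set_eq, Nat.card_congr e, Nat.card_sigma]
  simp only [card_ne_zero F]
  rw [Finset.sum_congr rfl fun (y : {a : A // a ≠ 0}) _ => by rw [hR y y.2]]
  rw [Finset.sum_const, Finset.card_univ, ← Nat.card_eq_fintype_card, card_ne_zero F, smul_eq_mul]

variable [Finite F]

theorem AT.big_trans (h : AT F Γ A) (P : Pr F Γ A B) {y y' : A} {f f' : B} (e : P.b y f = 0)
    (e' : P.b y' f' = 0) (n : f ∉ P.perp (W F Γ y)) (n' : f' ∉ P.perp (W F Γ y')) :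
    ∃ (g : Γ) (c : F), c ≠ 0 ∧ g • y = y' ∧ g • f = c • f' := by
  have ex : ∀ {y : A} {f : B}, P.b y f = 0 → f ∉ P.perp (W F Γ y) → ∃ z, Good F Γ y z ∧ P.b z f ≠ 0 := by
    intro y f e n
    rw [P.mem_perp] at n
    push Not at n
    obtain ⟨z, hz, hz'⟩ := n
    exact ⟨z, good_of_mem hz fun k => hz' (P.mem_perp_one.2 e z k), hz'⟩
  obtain ⟨z, hz, ez⟩ := ex e n
  obtain ⟨z', hz', ez'⟩ := ex e' n'
  obtain ⟨g, c, c0, rfl, e1⟩ := h.good_conj hz hz'
  have e2 : P.b z' (g • f) ≠ 0 := fun k => ez (by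
    rw [← P.inv g, e1, P.b.map_smul, LinearMap.smul_apply, k, smul_zero])
  obtain ⟨k, k1, k3⟩ := hz'.fun P (f' := (P.b z' (g • f) / P.b z' f') • f') e2
    (by rw [P.inv, e, LinearMap.map_smul, e', smul_zero])
    (by rw [LinearMap.map_smul, smul_eq_mul, div_mul_cancel₀ _ ez'])
  exact ⟨k * g, _, div_ne_zero e2 ez', by rw [mul_smul, k1], by rw [mul_smul, k3]⟩

theorem pow_sub_pos {n : ℕ} (hn : n ≠ 0) : 0 < Nat.card F ^ n - 1 :=
  Nat.sub_pos_of_lt (Nat.one_lt_pow hn (two_le_card F))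

theorem AT.exists_ne (h : AT F Γ A) : ∃ y : A, y ≠ 0 :=
  finrank_pos_iff_exists_ne_zero.1 (two_pos.trans_le h.two)

theorem AT.card_perp (h : AT F Γ A) (P : Pr F Γ A B) {y₀ : A} (hy₀ : y₀ ≠ 0) :
    {p : A × B | p.1 ≠ 0 ∧ p.2 ≠ 0 ∧ p.2 ∈ P.perp (W F Γ p.1)}.ncard =
      (Nat.card F ^ finrank F A - 1) * (Nat.card F ^ (finrank F A - finrank F (W F Γ y₀)) - 1) :=
  card_pairs (fun y : A => P.perp (W F Γ y)) fun y hy => by
    have := P.finrank_perp (W F Γ y)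
    rw [h.finrank_W hy hy₀] at this
    omega

variable [Finite Γ]

theorem AT.dual_aux (h : AT F Γ A) (P : Pr F Γ A B) :
    ∃ (y : A) (f : B), P.b y f = 0 ∧ f ∉ P.perp (W F Γ y) ∧ y ∉ P.flip.perp (W F Γ f) := by
  by_contra hc
  push Not at hc
  have hA := h.two
  have h' := h.dual P
  obtain ⟨y₀, hy₀⟩ := h.exists_ne
  obtain ⟨f₀, hf₀⟩ := h'.exists_ne
  obtain ⟨z₀, hz₀⟩ := h.exists_good hy₀
  obtain ⟨g₀, hg₀⟩ := h'.exists_good hf₀
  have w1 := hz₀.two_le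
  have w2 := hg₀.two_le
  have c0 := card_pairs (fun y : A => P.perp (span F {y})) (k := finrank F A - 1) fun y hy => by
    have := P.finrank_perp (span F {y})
    rw [finrank_span_singleton hy] at this
    omega
  have c2 := h'.card_perp P.flip hf₀
  rw [← Set.ncard_image_of_injective _ Prod.swap_injective, P.finrank_eq] at c2
  have le := (Set.ncard_le_ncard (s := {p : A × B | p.1 ≠ 0 ∧ p.2 ≠ 0 ∧ p.2 ∈ P.perp (span F {p.1})})
    (t := {p : A × B | p.1 ≠ 0 ∧ p.2 ≠ 0 ∧ p.2 ∈ P.perp (W F Γ p.1)} ∪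
      Prod.swap '' {p : B × A | p.1 ≠ 0 ∧ p.2 ≠ 0 ∧ p.2 ∈ P.flip.perp (W F Γ p.1)}) (by
      rintro ⟨y, f⟩ ⟨hy, hf, e⟩
      by_cases k : f ∈ P.perp (W F Γ y)
      · exact Or.inl ⟨hy, hf, k⟩
      · exact Or.inr ⟨(f, y), ⟨hf, hy, hc y f (P.mem_perp_one.1 e) k⟩, rfl⟩)).trans
    (Set.ncard_union_le _ _)
  rw [c0, h.card_perp P hy₀, c2, ← mul_add] at le
  have le' := Nat.le_of_mul_le_mul_left le (pow_sub_pos (by omega))
  have q2 := two_le_card F
  have a1 := Nat.pow_le_pow_right (n := Nat.card F) (i := finrank F A - finrank F (W F Γ y₀))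
    (j := finrank F A - 2) (by omega) (by omega)
  have a2 := Nat.pow_le_pow_right (n := Nat.card F) (i := finrank F A - finrank F (W F Γ f₀))
    (j := finrank F A - 2) (by omega) (by omega)
  have a3 : 2 * Nat.card F ^ (finrank F A - 2) ≤ Nat.card F ^ (finrank F A - 1) := by
    rw [show finrank F A - 1 = finrank F A - 2 + 1 by omega, pow_succ']
    exact Nat.mul_le_mul_right _ q2
  have a4 : 0 < Nat.card F ^ (finrank F A - finrank F (W F Γ y₀)) := by positivity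
  have a5 : 0 < Nat.card F ^ (finrank F A - finrank F (W F Γ f₀)) := by positivity
  omega

theorem AT.perp_W_imp (h : AT F Γ A) (P : Pr F Γ A B) {y : A} {f : B}
    (k : y ∈ P.flip.perp (W F Γ f)) : f ∈ P.perp (W F Γ y) := by
  obtain ⟨y₀, f₀, e, n1, n2⟩ := h.dual_aux P
  by_contra n
  obtain ⟨g, c, c0, rfl, e'⟩ := h.big_trans P e (k f (self_mem_W f)) n1 n
  rw [← W_smul c0, ← e'] at k
  exact n2 ((smul_mem_perp_W P.flip g).1 k)

theorem AT.perp_W_iff (h : AT F Γ A) (P : Pr F Γ A B) {y : A} {f : B} :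
    f ∈ P.perp (W F Γ y) ↔ y ∈ P.flip.perp (W F Γ f) :=
  ⟨(h.dual P).perp_W_imp P.flip, h.perp_W_imp P⟩

/-- Subadditivity. -/
theorem AT.W_le_sup (h : AT F Γ A) {y z v : A} (hv : v ∈ span F {y, z}) (hy : y ≠ 0) (hz : z ≠ 0) :
    W F Γ v ≤ W F Γ y ⊔ W F Γ z := by
  set P := Pr.dual F Γ A
  refine fun u hu => P.mem_of_perp fun f hf => h.perp_W_imp P (span_two_le ?_ ?_ hv) u hu
  exacts [(h.dual P).perp_W_imp P.flip fun a ha => hf a (mem_sup_left ha),
    (h.dual P).perp_W_imp P.flip fun a ha => hf a (mem_sup_right ha)]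

theorem AT.finrank_W_dual (h : AT F Γ A) (P : Pr F Γ A B) {y₀ : A} {f₀ : B}
    (hy₀ : y₀ ≠ 0) (hf₀ : f₀ ≠ 0) : finrank F (W F Γ f₀) = finrank F (W F Γ y₀) := by
  have hA := h.two
  have c1 := h.card_perp P hy₀
  have c2 := (h.dual P).card_perp P.flip hf₀
  rw [← Set.ncard_image_of_injective _ Prod.swap_injective, P.finrank_eq] at c2
  have e : {p : A × B | p.1 ≠ 0 ∧ p.2 ≠ 0 ∧ p.2 ∈ P.perp (W F Γ p.1)} =
      Prod.swap '' {p : B × A | p.1 ≠ 0 ∧ p.2 ≠ 0 ∧ p.2 ∈ P.flip.perp (W F Γ p.1)} := by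
    ext ⟨y, f⟩
    constructor
    · rintro ⟨hy, hf, k⟩
      exact ⟨(f, y), ⟨hf, hy, (h.perp_W_iff P).1 k⟩, rfl⟩
    · rintro ⟨⟨f', y'⟩, ⟨hf, hy, k⟩, e⟩
      cases e
      exact ⟨hy, hf, (h.perp_W_iff P).2 k⟩
  rw [e, c2] at c1
  have e1 := Nat.eq_of_mul_eq_mul_left (pow_sub_pos (by omega)) c1
  have q2 := two_le_card F
  have a4 : 0 < Nat.card F ^ (finrank F A - finrank F (W F Γ y₀)) := by positivity
  have a5 : 0 < Nat.card F ^ (finrank F A - finrank F (W F Γ f₀)) := by positivity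
  have e2 := Nat.pow_right_injective q2 (show Nat.card F ^ (finrank F A - finrank F (W F Γ f₀)) =
    Nat.card F ^ (finrank F A - finrank F (W F Γ y₀)) by omega)
  have b1 := (W F Γ y₀).finrank_le
  have b2 := (W F Γ f₀).finrank_le
  have := P.finrank_eq
  omega

end Cfsg.Lib.CK
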