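import Cfsg.Agent.Lib.CK.C

/-! The codimension of `W y ⊓ W c` is at most one; the codimension one case. -/

set_option autoImplicit false

namespace Cfsg.Lib.CK

open Module Submodule MulAction

variable {F : Type*} [Field F] {Γ A : Type*} [Group Γ] [AddCommGroup A] [Module F A] [DistribMulAction Γ A]
  [SMulCommClass Γ F A] [Finite A]

theorem ncard_sub (L : Submodule F A) : (L : Set A).ncard = Nat.card F ^ finrank F L := by
  rw [← Nat.card_coe_set_eq, ← card_eq]; rfl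

theorem dvd_sum [Fintype A] (L : Submodule F A) (m : A → ℕ) (h : ∀ u, ∀ a ∈ L, m (u + a) = m u) :
    Nat.card F ^ finrank F L ∣ ∑ u, m u := by
  classical
  obtain ⟨L', hL⟩ := L.exists_isCompl
  rw [← Fintype.sum_equiv (Submodule.prodEquivOfIsCompl L L' hL).toEquiv (fun x => m x.2) m (by
    intro x
    change _ = m (x.1 + x.2)
    rw [add_comm, h _ _ x.1.2]), Fintype.sum_prod_type]
  dsimp only
  rw [Finset.sum_const, Finset.card_univ, ← card_eq, Nat.card_eq_fintype_card, smul_eq_mul]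
  exact Dvd.intro _ rfl

theorem cod1 {M N : Submodule F A} (le : M ≤ N) (h : finrank F M + 1 = finrank F N) {a : A}
    (ha : a ∈ N) (ha' : a ∉ M) : M ⊔ span F {a} = N :=
  eq_of_le_of_finrank_eq (sup_le le (span_one_le ha)) (by rw [finrank_sup_span_singleton ha', h])

theorem cop (q a : ℕ) (hq : 0 < q) : q.Coprime (q ^ (a + 1) - 1) :=
  ((Nat.coprime_self_sub_right (Nat.one_le_pow _ _ hq)).2 (Nat.coprime_one_right _)).coprime_dvd_left
    (dvd_pow_self _ a.succ_ne_zero)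

variable [Finite F]

theorem AT.inf_succ (h : AT F Γ A) {y c : A} (hc : Good F Γ y c) :
    finrank F (W F Γ y) ≤ finrank F ↥(W F Γ y ⊓ W F Γ c) + 1 := by
  classical
  have := Fintype.ofFinite A
  set w := finrank F (W F Γ y) with hw
  set e := finrank F ↥(W F Γ y ⊓ W F Γ c) with he
  set q := Nat.card F with hq
  have d := dvd_sum (W F Γ y) (fun u => ∑ c, if Good F Γ y c ∧ u ∉ W F Γ y ∧ u ∈ W F Γ c then 1 else 0) (by
    intro u a ha
    by_cases hu : u ∈ W F Γ y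
    · simp [hu, add_mem hu ha]
    obtain ⟨g, g1, g2⟩ := h.W_mv hc.i2.x0 hu ha
    rw [← g2]
    refine (Fintype.sum_equiv (MulAction.toPerm g) _ _ fun c => ?_).symm
    have a1 : Good F Γ y (g • c) ↔ Good F Γ y c := by conv_lhs => rw [← g1, good_smul]
    have a2 : g • u ∈ W F Γ y ↔ u ∈ W F Γ y := by conv_lhs => rw [← g1, smul_mem_W]
    simp only [toPerm_apply, a1, a2, smul_mem_W])
  rw [Finset.sum_comm] at d
  have s1 : ∀ c', (∑ u, if Good F Γ y c' ∧ u ∉ W F Γ y ∧ u ∈ W F Γ c' then 1 else 0) =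
      if Good F Γ y c' then q ^ w - q ^ e else 0 := by
    intro c'
    split_ifs with k
    · simp only [k, true_and]
      rw [← Finset.card_filter, ← Set.ncard_coe_finset, hw, he, h.finrank_W hc.i2.x0 k.i2.y0,
        h.finrank_inf hc k, ← ncard_sub, ← ncard_sub, ← Set.ncard_diff (by
          intro x hx; exact hx.2)]
      congr 1
      ext x
      simp only [Finset.coe_filter, Finset.mem_univ, true_and, Set.mem_setOf_eq, Set.mem_diff,
        SetLike.mem_coe, mem_inf]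
      tauto
    · simp [k]
  simp only [s1] at d
  rw [← Finset.sum_filter, Finset.sum_const, smul_eq_mul, ← Set.ncard_coe_finset] at d
  have s2 : ((Finset.univ.filter fun c => Good F Γ y c : Finset A) : Set A).ncard = q ^ w - q ^ 1 := by
    rw [hw, ← finrank_span_singleton (K := F) hc.i2.x0, ← ncard_sub, ← ncard_sub,
      ← Set.ncard_diff (span_one_le (self_mem_W y))]
    congr 1
    ext x
    simp only [Finset.coe_filter, Finset.mem_univ, true_and, Set.mem_setOf_eq, Set.mem_diff, SetLike.mem_coe]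
    exact ⟨fun k => ⟨k.mem, k.i2.ne⟩, fun k => good_of_mem k.1 k.2⟩
  rw [s2] at d
  by_contra! hlt
  have q2 := two_le_card F
  obtain ⟨j, hj⟩ : ∃ j, w = e + 1 + (j + 1) := ⟨w - e - 2, by omega⟩
  have t1 : q ^ w - q ^ 1 = q * (q ^ (e + j + 1) - 1) := by
    rw [hj, Nat.mul_sub, ← pow_succ', pow_one, mul_one]; congr 2; omega
  have t2 : q ^ w - q ^ e = q ^ e * (q ^ (j + 1 + 1) - 1) := by
    rw [hj, Nat.mul_sub, ← pow_add, mul_one]; congr 2; omega
  rw [t1, t2, ← hw, ← hq, hj, pow_add, show q * (q ^ (e + j + 1) - 1) * (q ^ e * (q ^ (j + 1 + 1) - 1)) =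
    q ^ (e + 1) * ((q ^ (e + j + 1) - 1) * (q ^ (j + 1 + 1) - 1)) by ring,
    Nat.mul_dvd_mul_iff_left (by positivity)] at d
  have := ((cop q _ (by omega)).mul_right (cop q _ (by omega))).eq_one_of_dvd ((dvd_pow_self q (by omega)).trans d)
  omega

/-- Subspaces closed under `W`. -/
def Closed (Γ : Type*) [Group Γ] [DistribMulAction Γ A] [SMulCommClass Γ F A] (X : Submodule F A) : Prop :=
  ∀ u ∈ X, W F Γ u ≤ X

/-- The codimension one situation. -/
structure J1 (F Γ A : Type*) [Field F] [Group Γ] [AddCommGroup A] [Module F A] [DistribMulAction Γ A]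
    [SMulCommClass Γ F A] : Prop where
  at' : AT F Γ A
  cod : ∀ y c : A, Good F Γ y c → finrank F ↥(W F Γ y ⊓ W F Γ c) + 1 = finrank F (W F Γ y)

variable [Finite Γ]

namespace J1

variable (h : J1 F Γ A)
include h

omit [Finite Γ] [Finite F] in
theorem sup_rank {y c : A} (hc : Good F Γ y c) :
    finrank F ↥(W F Γ y ⊔ W F Γ c) = finrank F (W F Γ y) + 1 := by
  have := finrank_sup_add_finrank_inf_eq (W F Γ y) (W F Γ c)
  have := h.cod y c hc
  have := h.at'.finrank_W hc.i2.x0 hc.i2.y0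
  omega

omit [Finite Γ] [Finite F] in
theorem exists_out {y c : A} (hc : Good F Γ y c) : ∃ u ∈ W F Γ c, u ∉ W F Γ y := by
  by_contra! k
  have := h.sup_rank hc
  rw [sup_eq_left.2 k] at this
  omega

omit [Finite Γ] [Finite F] in
theorem sig_eq {y c v : A} (hc : Good F Γ y c) (hv : v ∈ W F Γ y ⊔ W F Γ c) (hv' : v ∉ W F Γ y) :
    W F Γ y ⊔ W F Γ c = W F Γ y ⊔ span F {v} :=
  (cod1 le_sup_left (h.sup_rank hc).symm hv hv').symm

theorem tri {y c u : A} (hc : Good F Γ y c) (hu : u ∈ W F Γ y ⊔ W F Γ c) :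
    u ∈ W F Γ y ∨ ∃ t : F, u ∈ W F Γ (c + t • y) := by
  obtain ⟨u₀, u1, u2⟩ := h.exists_out hc
  obtain ⟨v₀, v1, v2⟩ := h.exists_out hc.symm
  have dec : ∀ z ∈ W F Γ y ⊔ W F Γ c, z ∉ W F Γ y →
      ∃ b s : F, b ≠ 0 ∧ z - b • (u₀ + s • v₀) ∈ W F Γ y ⊓ W F Γ c := fun z hz n => by
    obtain ⟨a, ha, b, hb, rfl⟩ := mem_sup.1 hz
    obtain ⟨α, hα⟩ := mem_sup_one.1 ((cod1 inf_le_left (h.cod y c hc) v1 fun k => v2 k.2).ge ha)
    obtain ⟨β, hβ⟩ := mem_sup_one.1 ((cod1 inf_le_left (h.cod c y hc.symm) u1 fun k => u2 k.2).ge hb)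
    have b0 : β ≠ 0 := fun e => n (add_mem ha (by simpa [e] using hβ.2))
    refine ⟨β, β⁻¹ * α, b0, ?_⟩
    rw [smul_add, smul_smul, mul_inv_cancel_left₀ b0, add_comm a, add_sub_add_comm]
    exact add_mem ⟨hβ.2, hβ.1⟩ hα
  have D : ∀ t : F, W F Γ y ⊓ W F Γ c ≤ W F Γ (c + t • y) := fun t =>
    W_inf_le (add_mem (mem_r _ _) (smul_mem _ _ (mem_l _ _))) (hc.add t).i2.y0
  have ex : ∀ t : F, ∃ s : F, u₀ + s • v₀ ∈ W F Γ (c + t • y) := fun t => by
    obtain ⟨z, z1, z2⟩ := h.exists_out (hc.add t)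
    obtain ⟨b, s, b0, k⟩ := dec z (h.at'.W_le_sup (add_mem (mem_r _ _) (smul_mem _ _ (mem_l _ _)))
      hc.i2.x0 hc.i2.y0 z1) z2
    exact ⟨s, (smul_mem_iff _ b0).1 (by simpa using sub_mem z1 (D t k))⟩
  choose s hs using ex
  have inj : Function.Injective s := fun t t' e => by_contra fun n => u2 (by
    have := W_inf_le (v := y) (mem_span_pair.2 ⟨(t - t')⁻¹, -(t - t')⁻¹, by
      rw [neg_smul, ← sub_eq_add_neg, ← smul_sub, add_sub_add_left_eq_sub, ← sub_smul,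
        inv_smul_smul₀ (sub_ne_zero.2 n)]⟩) hc.i2.x0 ⟨hs t, e ▸ hs t'⟩
    exact (Submodule.add_mem_iff_left _ (smul_mem _ _ v1)).1 this)
  refine or_iff_not_imp_left.2 fun n => ?_
  obtain ⟨b, s', -, k⟩ := dec u hu n
  obtain ⟨t, rfl⟩ := Finite.surjective_of_injective inj s'
  exact ⟨t, by simpa using add_mem (D t k) (smul_mem _ b (hs t))⟩

theorem fib {y c v : A} (hc : Good F Γ y c) (hv : v ∉ W F Γ y) :
    v ∈ W F Γ y ⊔ W F Γ c ↔ c ∈ W F Γ v ⊔ span F {y} := by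
  rw [mem_sup_one]
  constructor
  · intro k
    obtain ⟨t, k⟩ := (h.tri hc k).resolve_left hv
    exact ⟨-t, by simpa using W_symm (ne_zero_of_notMem hv) k⟩
  · rintro ⟨t, k⟩
    rw [sub_eq_add_neg, ← neg_smul] at k
    exact h.at'.W_le_sup (add_mem (mem_r _ _) (smul_mem _ _ (mem_l _ _))) hc.i2.x0 hc.i2.y0
      (W_symm (hc.add _).i2.y0 k)

theorem hyper (hcl : ∀ X : Submodule F A, Closed Γ X → X ≠ ⊥ → X = ⊤) {y c : A} (hc : Good F Γ y c)
    (hall : ∀ c', Good F Γ y c' → W F Γ y ⊔ W F Γ c' = W F Γ y ⊔ W F Γ c) :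
    finrank F (W F Γ y) + 1 = finrank F A := by
  have : W F Γ y ⊔ W F Γ c = ⊤ := by
    refine hcl _ (fun u hu => ?_) fun e => hc.i2.x0 (by
      rw [← mem_bot F, ← e]; exact mem_sup_left (self_mem_W y))
    by_cases hy : u ∈ W F Γ y
    · rcases hy with e | e
      · exact (W_of_mem_one e).trans le_sup_left
      · rw [← hall u e]; exact le_sup_right
    have u0 := ne_zero_of_notMem hy
    have le : W F Γ y ≤ W F Γ u ⊔ span F {y} := by
      rintro e (k | k)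
      exacts [mem_sup_right k, (h.fib k hy).1 (by rwa [hall e k])]
    have e : W F Γ y ⊔ W F Γ c = W F Γ u ⊔ span F {y} := by
      refine eq_of_le_of_finrank_eq ?_ ?_
      · rw [h.sig_eq hc hu hy]
        exact sup_le le (span_one_le (mem_sup_left (self_mem_W u)))
      · rw [h.sup_rank hc, finrank_sup_span_singleton fun k => hy (W_symm hc.i2.x0 k),
          h.at'.finrank_W hc.i2.x0 u0]
    rw [e]; exact le_sup_left
  rw [← h.sup_rank hc, this, finrank_top]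

theorem line {y e c' u u' : A} (he : Good F Γ y e) (hc' : Good F Γ y c') (u1 : u ∈ W F Γ e)
    (u2 : u ∉ W F Γ y) (v1 : u' ∈ W F Γ c') (v2 : u' ∉ W F Γ y ⊔ W F Γ e) (s : F) :
    ∃ t : F, Good F Γ y (e + t • c') ∧ u + s • u' ∈ W F Γ y ⊔ W F Γ (e + t • c') := by
  have v3 : u' ∉ W F Γ y := fun k => v2 (mem_sup_left k)
  have s1 := h.sig_eq he (mem_sup_right u1) u2
  have s2 := h.sig_eq hc' (mem_sup_right v1) v3
  have n1 : u ∉ W F Γ y ⊔ span F {u'} := fun k => v2 (s1 ▸ exch k u2)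
  have n2 : e ∉ W F Γ u' ⊔ span F {y} := fun k => v2 ((h.fib he v3).2 k)
  have a2 := (h.fib hc' v3).1 (mem_sup_right v1)
  have g : ∀ t : F, Good F Γ y (e + t • c') := fun t => good_of_mem (add_mem he.mem (smul_mem _ _ hc'.mem))
    fun k => n2 ((Submodule.add_mem_iff_left _ (smul_mem _ t a2)).1 (mem_sup_right k))
  have ex : ∀ t : F, ∃ s : F, u + s • u' ∈ W F Γ y ⊔ W F Γ (e + t • c') := fun t => by
    obtain ⟨z, z1, z2⟩ := h.exists_out (g t)
    have z3 : z ∈ W F Γ y ⊔ span F {u'} ⊔ span F {u} := (sup_le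
      ((le_sup_right.trans s1.le).trans (sup_le_sup_right le_sup_left _))
      ((le_sup_right.trans s2.le).trans le_sup_left) : W F Γ e ⊔ W F Γ c' ≤ _)
      (h.at'.W_le_sup (add_mem (mem_l _ _) (smul_mem _ _ (mem_r _ _))) he.i2.y0 hc'.i2.y0 z1)
    obtain ⟨r, hr⟩ := mem_sup_one.1 (exch z3 fun k => n2 ((Submodule.add_mem_iff_left _ (smul_mem _ t a2)).1
      ((h.fib (g t) v3).1 (h.sig_eq (g t) (mem_sup_right z1) z2 ▸ exch k z2))))
    obtain ⟨s, hs⟩ := mem_sup_one.1 hr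
    exact ⟨-s, by
      simpa [sub_right_comm u (r • z), ← sub_eq_add_neg] using add_mem (mem_sup_left hs) (mem_sup_right (smul_mem _ r z1))⟩
  choose σ hσ using ex
  have inj : Function.Injective σ := fun t t' k => by_contra fun n => n1 (by
    have w : u + σ t • u' ∉ W F Γ y := fun w => n1 (mem_sup_one.2 ⟨-σ t, by simpa using w⟩)
    have := sub_mem ((h.fib (g t) w).1 (hσ t)) ((h.fib (g t') w).1 (k ▸ hσ t'))
    rw [add_sub_add_left_eq_sub, ← sub_smul, smul_mem_iff _ (sub_ne_zero.2 n), ← h.fib hc' w, s2] at this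
    exact (Submodule.add_mem_iff_left _ (mem_sup_right (smul_mem _ _ (mem_span_singleton_self _)))).1 this)
  obtain ⟨t, rfl⟩ := Finite.surjective_of_injective inj s
  exact ⟨t, g t, hσ t⟩

variable (hcl : ∀ X : Submodule F A, Closed Γ X → X ≠ ⊥ → X = ⊤)
include hcl

theorem mu {y c u d : A} (hN : finrank F (W F Γ y) + 1 ≠ finrank F A) (hc : Good F Γ y c)
    (hu : u ∈ W F Γ c) (hu' : u ∉ W F Γ y) (hd : d ∈ W F Γ y) (hd' : d ∈ W F Γ u) : d ∈ span F {c} := by
  by_contra hdc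
  have yu : y ∉ W F Γ u := fun k => hu' (W_symm hc.i2.x0 k)
  have cu := W_symm (ne_zero_of_notMem hu') hu
  have n0 : d ∉ span F {y, c} := fun k => yu (sup_le (span_one_le cu) (span_one_le hd')
    (exch (by rwa [← span_two_sup, span_two_comm]) hdc))
  obtain ⟨c', hc', ne⟩ : ∃ c', Good F Γ y c' ∧ W F Γ y ⊔ W F Γ c' ≠ W F Γ y ⊔ W F Γ c := by
    by_contra! k
    exact hN (h.hyper hcl hc k)
  obtain ⟨u', hv, hv'⟩ := h.exists_out hc'
  have s1 := h.sig_eq hc (mem_sup_right hu) hu'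
  have n1 : u' ∉ W F Γ y ⊔ W F Γ c := fun k => ne (by
    rw [h.sig_eq hc' (mem_sup_right hv) hv', h.sig_eq hc k hv'])
  have gd : Good F Γ y d := good_of_mem hd fun k => n0 (one_le_two _ _ k)
  have ud := W_symm gd.i2.y0 hd'
  obtain ⟨t, g1, m1⟩ := h.line hc hc' hu hu' hv n1 1
  obtain ⟨t', g2, m2⟩ := h.line gd hc' ud hu' hv (by rwa [h.sig_eq gd (mem_sup_right ud) hu', ← s1]) 1
  rw [one_smul] at m1 m2
  have n2 : u + u' ∉ W F Γ y ⊔ W F Γ c := fun k => n1 ((Submodule.add_mem_iff_right _ (mem_sup_right hu)).1 k)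
  have n3 : u + u' ∉ W F Γ y := fun k => n2 (mem_sup_left k)
  have t0 : t ≠ 0 := by rintro rfl; exact n2 (by simpa using m1)
  have ge : Good F Γ y (t' • c - t • d) := good_of_mem (sub_mem (smul_mem _ _ hc.mem) (smul_mem _ _ hd))
    fun k => n0 ((smul_mem_iff _ t0).1 (by simpa using sub_mem (smul_mem _ t' (mem_r y c)) (one_le_two _ _ k)))
  have m3 := sub_mem (smul_mem _ t' ((h.fib g1 n3).1 m1)) (smul_mem _ t ((h.fib g2 n3).1 m2))
  rw [show t' • (c + t • c') - t • (d + t' • c') = t' • c - t • d by module, ← h.fib ge n3, h.sig_eq ge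
    (mem_sup_right (W_symm ge.i2.y0 (sub_mem (smul_mem _ _ cu) (smul_mem _ _ hd')))) hu', ← s1] at m3
  exact n2 m3

theorem three {y c : A} (hN : finrank F (W F Γ y) + 1 ≠ finrank F A) (hc : Good F Γ y c) :
    finrank F (W F Γ y) = 3 := by
  obtain ⟨c', h1, h2⟩ := h.exists_out hc.symm
  have g : Good F Γ y c' := good_of_mem h1 fun e => h2 (span_one_le hc.symm.mem e)
  have e1 := finrank_mono (fun d hd => h.mu hcl (by rwa [h.at'.finrank_W hc.i2.y0 hc.i2.x0]) hc.symm h1 h2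
    hd.1.2 hd.2.2 : (W F Γ y ⊓ W F Γ c) ⊓ (W F Γ y ⊓ W F Γ c') ≤ span F {y})
  rw [finrank_span_singleton hc.i2.x0] at e1
  have e2 := finrank_sup_add_finrank_inf_eq (W F Γ y ⊓ W F Γ c) (W F Γ y ⊓ W F Γ c')
  have e3 := finrank_mono (sup_le inf_le_left inf_le_left :
    (W F Γ y ⊓ W F Γ c) ⊔ (W F Γ y ⊓ W F Γ c') ≤ W F Γ y)
  have := h.cod y c hc
  have := h.cod y c' g
  have := hc.two_le_inf
  omega

end J1

/-- The second neighbourhood. -/
def W2 (F Γ : Type*) [Field F] [Group Γ] [Module F A] [DistribMulAction Γ A] [SMulCommClass Γ F A] (y : A) :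
    Submodule F A := ⨆ c ∈ W F Γ y, W F Γ c

omit [Finite A] [Finite Γ] [Finite F] in
theorem W_le_W2 {y c : A} (hc : c ∈ W F Γ y) : W F Γ c ≤ W2 F Γ y := le_biSup (fun c => W F Γ c) hc

theorem J1.W2_spec (h : J1 F Γ A) (hcl : ∀ X : Submodule F A, Closed Γ X → X ≠ ⊥ → X = ⊤) {y c : A}
    (hN : finrank F (W F Γ y) + 1 ≠ finrank F A) (hc : Good F Γ y c) :
    finrank F (W2 F Γ y) = 5 ∧ ∀ v ∈ W2 F Γ y, ∃ c ∈ W F Γ y, v ∈ W F Γ c := by
  obtain ⟨c', h1, h2⟩ := h.exists_out hc.symm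
  have g : Good F Γ y c' := good_of_mem h1 fun e => h2 (span_one_le hc.symm.mem e)
  obtain ⟨u, hu, hu'⟩ := h.exists_out hc
  obtain ⟨u', hv, hv'⟩ := h.exists_out g
  have w3 := h.three hcl hN hc
  have s1 := h.sig_eq hc (mem_sup_right hu) hu'
  have s2 := h.sig_eq g (mem_sup_right hv) hv'
  have n1 : u' ∉ W F Γ y ⊔ W F Γ c := fun k => h2 (by
    obtain ⟨t, ht⟩ := mem_sup_one.1 ((h.fib g hu').1 (s2 ▸ exch (s1 ▸ k) hv'))
    simpa using add_mem (span_one_le (self_mem_W c) (h.mu hcl hN hc hu hu'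
      (sub_mem h1 (smul_mem _ t (self_mem_W y))) ht)) (smul_mem _ t hc.symm.mem))
  have eW := cod1 (hc.span_le.trans inf_le_left) (by rw [hc.i2.finrank, w3]) h1 fun k => h2 (hc.span_le k).2
  have eX : W2 F Γ y = W F Γ y ⊔ W F Γ c ⊔ span F {u'} := by
    refine le_antisymm (iSup₂_le fun e he => ?_) (sup_le (sup_le (W_le_W2 (self_mem_W y)) (W_le_W2 hc.mem))
      (span_one_le (W_le_W2 h1 hv)))
    have b2 : W F Γ c' ≤ W F Γ y ⊔ W F Γ c ⊔ span F {u'} :=
      (le_sup_right.trans s2.le).trans (sup_le_sup_right le_sup_left _)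
    obtain ⟨t, k⟩ := mem_sup_one.1 (eW.ge he)
    by_cases e0 : e - t • c' = 0
    · exact (W_of_mem_one (mem_span_singleton.2 ⟨t, (sub_eq_zero.1 e0).symm⟩)).trans b2
    · exact (h.at'.W_le_sup (mem_span_pair.2 ⟨1, t, by simp⟩) e0 g.i2.y0).trans
        (sup_le ((h.at'.W_le_sup k hc.i2.x0 hc.i2.y0).trans le_sup_left) b2)
  refine ⟨by rw [eX, finrank_sup_span_singleton n1, h.sup_rank hc, w3], fun v k => ?_⟩
  have t : ∀ e, Good F Γ y e → v ∈ W F Γ y ⊔ W F Γ e → ∃ c ∈ W F Γ y, v ∈ W F Γ c := fun e he k => by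
    rcases h.tri he k with k | ⟨t, k⟩
    exacts [⟨y, self_mem_W y, k⟩, ⟨_, (he.add t).mem, k⟩]
  rw [eX, s1, sup_right_comm] at k
  by_cases k' : v ∈ W F Γ y ⊔ span F {u'}
  · exact t c' g (s2 ▸ k')
  obtain ⟨r, hr⟩ := mem_sup_one.1 k
  obtain ⟨s, hs⟩ := mem_sup_one.1 hr
  have r0 : r ≠ 0 := by rintro rfl; exact k' (by simpa using hr)
  obtain ⟨t', g', m⟩ := h.line hc g hu hu' hv n1 (r⁻¹ * s)
  refine t _ g' ?_
  have := add_mem (mem_sup_left hs) (smul_mem _ r m)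
  rwa [smul_add, smul_smul, mul_inv_cancel_left₀ r0, sub_sub, sub_add_cancel] at this

end Cfsg.Lib.CK
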