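import Cfsg.Agent.Lib.CK.B

/-! A nonsingular alternating trilinear form over a finite field forces dimension ≤ 3. -/

set_option autoImplicit false

namespace Cfsg.Lib.CK

open Module MvPolynomial Matrix

variable {F : Type*} [Field F] [Finite F]

theorem ns_poly {n : ℕ} (hn : 4 ≤ n) (M : Matrix (Fin n) (Fin n) (MvPolynomial (Fin n) F))
    (hom : ∀ j k, (M j k).IsHomogeneous 1) (sk : Mᵀ = -M) (MX : M *ᵥ (fun k => X k) = 0)
    (ns : ∀ x b : Fin n → F, x ≠ 0 → (eval x).mapMatrix M *ᵥ b = 0 → ∃ c : F, b = c • x) : False := by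
  classical
  have i0 : Fin n := ⟨0, by omega⟩
  have det0 : M.det = 0 := exists_mulVec_eq_zero_iff.1 ⟨_, fun e => X_ne_zero i0 (congrFun e i0), MX⟩
  have ev : ∀ (x : Fin n → F) (i : Fin n), x i ≠ 0 → eval x (adjugate M i i) ≠ 0 := by
    intro x i hi h0
    rw [adjugate_apply, RingHom.map_det] at h0
    obtain ⟨b, hb, e⟩ := exists_mulVec_eq_zero_iff.2 h0
    have bi : b i = 0 := by simpa [mulVec, dotProduct, Pi.single_apply, apply_ite] using congrFun e i
    have r1 : ∀ j, j ≠ i → ((eval x).mapMatrix M *ᵥ b) j = 0 := fun j hj => by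
      simpa [mulVec, dotProduct, updateRow_ne hj] using congrFun e j
    have r2 : x ⬝ᵥ ((eval x).mapMatrix M *ᵥ b) = 0 := by
      have : (eval x).mapMatrix M *ᵥ x = 0 := funext fun j => by
        simpa [mulVec, dotProduct] using congrArg (eval x) (congrFun MX j)
      rw [dotProduct_mulVec, ← mulVec_transpose, RingHom.mapMatrix_apply, ← transpose_map, sk,
        ← RingHom.mapMatrix_apply, map_neg, neg_mulVec, this, neg_zero, zero_dotProduct]
    rw [dotProduct, Finset.sum_eq_single i (fun j _ hj => by rw [r1 j hj, mul_zero]) (by simp), mul_eq_zero,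
      or_iff_right hi] at r2
    obtain ⟨c, rfl⟩ := ns x b (fun e => hi (congrFun e i)) (funext fun j => by
      by_cases hj : j = i; exacts [hj ▸ r2, r1 j hj])
    exact hb (by rw [(mul_eq_zero.1 bi).resolve_right hi, zero_smul])
  have D0 : adjugate M i0 i0 ≠ 0 := fun e => ev (Pi.single i0 1) i0 (by simp) (by rw [e, map_zero])
  have ker : ∀ b : Fin n → MvPolynomial (Fin n) F, M *ᵥ b = 0 → ∀ j, X i0 * b j = b i0 * X j := by
    intro b h1 j
    by_contra hb
    refine D0 ?_
    rw [adjugate_apply]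
    refine exists_mulVec_eq_zero_iff.1 ⟨(X i0 : MvPolynomial (Fin n) F) • b - b i0 • fun k => X k,
      fun e => hb (sub_eq_zero.1 (congrFun e j)), funext fun j => ?_⟩
    by_cases hj : j = i0
    · subst hj
      simp [mulVec, dotProduct, Pi.single_apply, mul_comm]
    · have : M *ᵥ ((X i0 : MvPolynomial (Fin n) F) • b - b i0 • fun k => X k) = 0 := by
        rw [mulVec_sub, mulVec_smul, mulVec_smul, h1, MX, smul_zero, smul_zero, sub_zero]
      simpa only [mulVec, updateRow_ne hj] using congrFun this j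
  have sq : ∀ j, X i0 ^ 2 * adjugate M j j = adjugate M i0 i0 * X j ^ 2 := fun j => by
    have h1 := ker (fun l => adjugate M l j) (funext fun l => by
      have := congrFun (congrFun (mul_adjugate M) l) j
      rw [det0, zero_smul] at this
      exact this) j
    have h2 := ker (adjugate M i0) (by
      rw [← neg_neg M, ← sk, neg_mulVec, mulVec_transpose, neg_eq_zero, sk, neg_neg]
      have := congrFun (adjugate_mul M) i0
      rw [det0, zero_smul] at this
      exact this) j
    linear_combination (X i0) * h1 + (X j) * h2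
  obtain ⟨i1, hi1⟩ : ∃ i1 : Fin n, i1 ≠ i0 := by
    have : Nontrivial (Fin n) := Fin.nontrivial_iff_two_le.2 (by omega)
    exact exists_ne i0
  obtain ⟨g, hg⟩ : (X i0 : MvPolynomial (Fin n) F) ^ 2 ∣ adjugate M i0 i0 :=
    X_prime.pow_dvd_of_dvd_mul_right 2 (fun h => hi1 (X_dvd_X.1 (X_prime.dvd_of_dvd_pow h)).symm)
      (sq i1 ▸ dvd_mul_right _ _)
  have hj : ∀ j, adjugate M j j = g * X j ^ 2 := fun j => by
    have := sq j
    rw [hg, mul_assoc] at this
    exact mul_left_cancel₀ (pow_ne_zero 2 (X_ne_zero i0)) this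
  have hom : (adjugate M i0 i0).IsHomogeneous (n - 1) := by
    rw [adjugate_apply, det_apply']
    refine IsHomogeneous.sum _ _ _ fun σ _ => ?_
    have e : n - 1 = 0 + ∑ j, if σ j = i0 then 0 else 1 := by
      rw [Equiv.sum_comp σ fun j => if j = i0 then 0 else 1, Finset.sum_ite, Finset.sum_const_zero]
      simp [Finset.filter_ne', Finset.card_erase_of_mem]
    rw [e]
    refine IsHomogeneous.mul ?_ (IsHomogeneous.prod _ _ _ fun j _ => ?_)
    · rw [← map_intCast (C : F →+* MvPolynomial (Fin n) F)]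
      exact isHomogeneous_C _ _
    · split_ifs with h
      · rw [h, updateRow_self, Pi.single_apply]
        split_ifs
        exacts [isHomogeneous_one _ _, isHomogeneous_zero _ _ _]
      · rw [updateRow_ne h]
        exact hom _ _
  have g0 : g ≠ 0 := by rintro rfl; exact D0 (by rw [hg, mul_zero])
  have deg : g.totalDegree < Fintype.card (Fin n) := by
    have h1 := hom.totalDegree_le
    rw [hg, totalDegree_mul_of_isDomain (pow_ne_zero 2 (X_ne_zero i0)) g0] at h1
    rw [Fintype.card_fin]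
    omega
  have e0 : eval 0 g = 0 := by
    have h1 := hom.coeff_eq_zero (d := Finsupp.single i0 2 + 0) (by simp; omega)
    rw [hg, X_pow_eq_monomial, coeff_monomial_mul, one_mul] at h1
    rw [eval_zero]
    exact h1
  obtain ⟨p, -, hp, _, -⟩ := exists_char F
  have := Fintype.ofFinite F
  have z := char_dvd_card_solutions p deg
  rw [Fintype.card_eq_one_iff.2 ⟨⟨0, e0⟩, fun x => Subtype.ext (_root_.funext fun j => by_contra fun k =>
    ev x j k (by rw [hj, map_mul, x.2, zero_mul]))⟩] at z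
  exact hp.out.not_dvd_one z

variable {A : Type*} [AddCommGroup A] [Module F A]

theorem ns_form [Finite A] (φ : A →ₗ[F] A →ₗ[F] A →ₗ[F] F) (a12 : ∀ x, φ x x = 0)
    (s23 : ∀ x y z, φ x y z = -φ x z y) (ns : ∀ x y, I2 F x y → φ x y ≠ 0) : finrank F A ≤ 3 := by
  by_contra hn
  set e := Module.finBasis F A
  have s12 : ∀ x y, φ x y = -φ y x := fun x y => by
    have := a12 (x + y)
    simp only [map_add, LinearMap.add_apply, a12, zero_add, add_zero] at this
    exact eq_neg_of_add_eq_zero_right this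
  have ev : ∀ (x : Fin _ → F) j k, eval x (∑ i, C (φ (e i) (e k) (e j)) * X i) =
      φ (e.equivFun.symm x) (e k) (e j) := fun x j k => by
    simp [Basis.equivFun_symm_apply, mul_comm]
  refine ns_poly (n := finrank F A) (by omega) (Matrix.of fun j k => ∑ i, C (φ (e i) (e k) (e j)) * X i)
    (fun j k => by
      rw [of_apply]; exact IsHomogeneous.sum _ _ _ fun i _ => isHomogeneous_C_mul_X _ _) ?_ (funext fun j => ?_)
    fun x b hx h => ?_
  · ext1 j k
    simp only [transpose_apply, of_apply, Matrix.neg_apply, ← Finset.sum_neg_distrib]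
    exact Finset.sum_congr rfl fun i _ => by rw [s23, map_neg, neg_mul]
  · simp only [mulVec, dotProduct, of_apply, Finset.sum_mul, Pi.zero_apply]
    rw [← Finset.sum_product']
    refine Finset.sum_involution (fun p _ => p.swap) ?_ ?_ (by simp) (by simp)
    · rintro ⟨k, i⟩ -
      simp only [Prod.swap]
      rw [s12 (e i), LinearMap.neg_apply, map_neg]
      ring
    · rintro ⟨k, i⟩ - h e
      obtain rfl : i = k := congrArg Prod.fst e
      exact h (by simp [a12])
  · by_contra! hb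
    refine ns (e.equivFun.symm x) (e.equivFun.symm b) ((map_i2 _).2 ⟨hx, fun k => ?_⟩) (e.ext fun j => ?_)
    · obtain ⟨c, hc⟩ := Submodule.mem_span_singleton.1 k
      exact hb c hc.symm
    · have := congrFun h j
      simp only [mulVec, dotProduct, RingHom.mapMatrix_apply, map_apply, of_apply, ev] at this
      rw [Basis.equivFun_symm_apply e b]
      simpa [mul_comm] using this

omit [Finite F]

/-- Linear extension of a family that is antisymmetric on a spanning set. -/
theorem lin_ext {M : Type*} [AddCommGroup M] [Module F M] {U : Set A} (hU : Submodule.span F U = ⊤)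
    (l : A → A →ₗ[F] M) (h : ∀ y ∈ U, ∀ z ∈ U, l y z = -l z y) :
    ∃ L : A →ₗ[F] A →ₗ[F] M, ∀ y, ∀ z ∈ U, L y z = -l z y := by
  obtain ⟨b, b1, b2, b3⟩ := exists_linearIndependent F U
  let e := Basis.mk b3 (by rw [Subtype.range_coe, b2, hU])
  refine ⟨e.constr F fun i => l i, fun y z hz => ?_⟩
  refine LinearMap.congr_fun (e.ext fun i => ?_ : (e.constr F fun i => l i).flip z = -l z) y
  rw [LinearMap.flip_apply, Basis.constr_basis, h _ (b1 i.2) z hz, Basis.mk_apply, LinearMap.neg_apply]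

theorem span_compl {L : Submodule F A} (h : L ≠ ⊤) : Submodule.span F (L : Set A)ᶜ = ⊤ := by
  obtain ⟨u, -, hu⟩ := SetLike.exists_of_lt (lt_top_iff_ne_top.2 h)
  refine Submodule.eq_top_iff'.2 fun a => ?_
  by_cases ha : a ∈ L
  · simpa using sub_mem (Submodule.subset_span (R := F) (s := (L : Set A)ᶜ) fun k =>
      hu ((L.add_mem_iff_right ha).1 k)) (Submodule.subset_span (s := (L : Set A)ᶜ) hu)
  · exact Submodule.subset_span ha

theorem exists_smul_of_ker {α β : A →ₗ[F] F} (h : ∀ z, α z = 0 → β z = 0) : ∃ c : F, β = c • α := by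
  by_cases a0 : α = 0
  · exact ⟨0, LinearMap.ext fun z => by simp [h z, a0]⟩
  obtain ⟨u, hu⟩ := DFunLike.ne_iff.1 a0
  refine ⟨β u / α u, LinearMap.ext fun z => ?_⟩
  have := h (α u • z - α z • u) (by simp [mul_comm])
  simp only [map_sub, map_smul, smul_eq_mul, LinearMap.smul_apply, LinearMap.zero_apply] at *
  field_simp
  linear_combination this

theorem zero_of_off {α β ε : A →ₗ[F] F} {e : A} (he : ε e ≠ 0) (h : ∀ u, ε u ≠ 0 → (α u = 0 ↔ β u = 0))
    {z : A} (hz : α z = 0) : β z = 0 := by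
  by_cases z0 : ε z = 0
  swap
  · exact (h z z0).1 hz
  by_cases k : ∃ u, ε u ≠ 0 ∧ α u = 0
  · obtain ⟨u, u1, u2⟩ := k
    simpa [(h u u1).1 u2] using (h (u + z) (by simpa [z0])).1 (by simp [u2, hz])
  push Not at k
  obtain ⟨c, hc⟩ := exists_smul_of_ker (α := β) (β := ε) fun u hu => by_contra fun n => k u n ((h u n).2 hu)
  rw [hc, LinearMap.smul_apply] at z0 he
  exact (smul_eq_zero.1 z0).resolve_left (left_ne_zero_of_smul he)

/-- A reflexive symmetric orthogonality relation comes from an alternating form. -/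
theorem form1 (l : A → A →ₗ[F] F) (h1 : ∀ y, l y y = 0) (h2 : ∀ y z, l y z = 0 → l z y = 0) :
    ∃ L : A →ₗ[F] A →ₗ[F] F, ∀ y z, L y z = 0 ↔ l y z = 0 := by
  by_cases k : ∀ y z, l y z = 0
  · exact ⟨0, fun y z => by simp [k]⟩
  push Not at k
  obtain ⟨e, u, hu⟩ := k
  have n : ∀ y, l e y ≠ 0 → l y e ≠ 0 := fun y k k' => k (h2 _ _ k')
  obtain ⟨L, hL⟩ := lin_ext (span_compl (L := LinearMap.ker (l e)) fun k => hu (k.ge trivial))
    (fun y => (-l e y / l y e) • l y) fun y hy z hz => by
      have r : ∀ r, r = z - (l y z / l y e) • e - (l e z / l e y) • y → l z r = 0 := by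
        intro r hr
        have a1 : l r e = 0 := h2 _ _ (by simp [hr, h1, div_mul_cancel₀ _ hy])
        have a2 : l r y = 0 := h2 _ _ (by simp [hr, h1, div_mul_cancel₀ _ (n y hy)])
        have a3 := h1 r
        nth_rw 2 [hr] at a3
        exact h2 _ _ (by simpa [a1, a2] using a3)
      have := r _ rfl
      have a1 := n y hy
      have a2 := n z hz
      simp only [map_sub, map_smul, smul_eq_mul, h1, LinearMap.smul_apply, Set.mem_compl_iff,
        SetLike.mem_coe, LinearMap.mem_ker] at *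
      field_simp at this ⊢
      linear_combination this
  have : ∀ y u, l e u ≠ 0 → (L y u = 0 ↔ l y u = 0) := fun y u k => by
    rw [hL y u k]
    simp only [LinearMap.smul_apply, smul_eq_mul, neg_eq_zero, mul_eq_zero, div_eq_zero_iff, k, n u k, false_or]
    exact ⟨h2 _ _, h2 _ _⟩
  exact ⟨L, fun y z => ⟨zero_of_off hu (this y), zero_of_off hu fun u k => (this y u k).symm⟩⟩

theorem avoid3 {α β γ : A →ₗ[F] F} (ha : α ≠ 0) (hb : β ≠ 0) (hc : γ ≠ 0) {μ : F} (h0 : μ ≠ 0) (h1 : μ ≠ 1) :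
    ∃ z, α z ≠ 0 ∧ β z ≠ 0 ∧ γ z ≠ 0 := by
  obtain ⟨z, z1, z2⟩ : ∃ z, α z ≠ 0 ∧ β z ≠ 0 := by
    obtain ⟨a, ha⟩ := DFunLike.ne_iff.1 ha
    obtain ⟨b, hb⟩ := DFunLike.ne_iff.1 hb
    by_contra! k
    have e1 := k a ha
    have e2 : α b = 0 := by_contra fun n => hb (k b n)
    exact hb (by simpa [e1] using k (a + b) (by simpa [e2] using ha))
  by_cases z3 : γ z = 0
  swap
  · exact ⟨z, z1, z2, z3⟩
  obtain ⟨w, w1, w2⟩ : ∃ w, α w = 0 ∧ γ w ≠ 0 := by
    by_contra! k
    obtain ⟨c, rfl⟩ := exists_smul_of_ker k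
    rw [LinearMap.smul_apply, smul_eq_zero, or_iff_left z1] at z3
    exact hc (by rw [z3, zero_smul])
  by_cases k : β (z + w) = 0
  · refine ⟨z + μ • w, by simpa [w1], fun k' => h1 ?_, by simp [z3, w2, h0]⟩
    rw [map_add] at k k'
    rw [map_smul, eq_neg_of_add_eq_zero_right k, smul_eq_mul, mul_neg, add_neg_eq_zero] at k'
    exact mul_right_cancel₀ z2 (by rw [← k', one_mul])
  · exact ⟨z + w, by simpa [w1], k, by simpa [z3]⟩

/-- No symmetric ternary relation with hyperplane sections in dimension `> 3`. -/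
theorem form2 [Finite F] [Finite A] (l : A → A → A →ₗ[F] F) (h0 : ∀ x y, l x y x = 0)
    (s12 : ∀ x y z, l x y z = 0 → l y x z = 0) (s23 : ∀ x y z, l x y z = 0 → l x z y = 0)
    (ns : ∀ x y, l x y = 0 ↔ ¬ I2 F x y) : finrank F A ≤ 3 := by
  by_contra hn
  obtain ⟨e, he⟩ := (finrank_pos_iff_exists_ne_zero (R := F) (M := A)).1 (by omega)
  choose Λ hΛ using fun x => form1 (l x) (fun y => s12 _ _ _ (h0 y x)) (s23 x)
  have n0 : ∀ x y, Λ x y = 0 ↔ ¬ I2 F x y := fun x y => by
    rw [← ns, LinearMap.ext_iff, LinearMap.ext_iff]; exact forall_congr' (hΛ x y)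
  have pr : ∀ x y, ∃ c : F, c ≠ 0 ∧ Λ x y = c • Λ y x := fun x y => by
    obtain ⟨c, hc⟩ := exists_smul_of_ker fun z k => (hΛ x y z).2 (s12 _ _ _ ((hΛ y x z).1 k))
    by_cases c0 : c = 0
    · rw [c0, zero_smul] at hc
      exact ⟨1, one_ne_zero, by rw [hc, (n0 y x).2 fun k => (n0 x y).1 hc k.symm, smul_zero]⟩
    · exact ⟨c, c0, hc⟩
  choose κ κ0 hκ using pr e
  have sk : ∀ x y z, Λ x y z = -Λ x z y := fun x y z => by
    have a : ∀ y, Λ x y y = 0 := fun y => (hΛ _ _ _).2 (s12 _ _ _ (h0 y x))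
    have := a (y + z)
    simp only [map_add, LinearMap.add_apply, a, zero_add, add_zero] at this
    exact eq_neg_of_add_eq_zero_right this
  obtain ⟨l', hl⟩ : ∃ l' : A → A →ₗ[F] A →ₗ[F] F, ∀ x, l' x = -κ x • Λ x := ⟨_, fun _ => rfl⟩
  have le : ∀ x, l' x e = -Λ e x := fun x => by rw [hκ x, hl]; simp
  have sk' : ∀ x y z, l' x y z = -l' x z y := fun x y z => by simp [hl, sk x y z]
  have n1 : ∀ x y, l' x y = 0 ↔ ¬ I2 F x y := fun x y => by simp [hl, κ0, n0]
  have pr' : ∀ x y, ∃ c : F, c ≠ 0 ∧ ∀ z, l' x y z = -(c * l' y x z) := fun x y => by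
    obtain ⟨c, c0, hc⟩ := pr x y
    refine ⟨-(κ x * c / κ y), by simp [κ0, c0], fun z => ?_⟩
    have := κ0 y
    simp only [hl, LinearMap.smul_apply, hc, smul_eq_mul]
    field_simp
  have as1 : ∀ x y, Λ e x y ≠ 0 → ∀ z, l' x y z = -l' y x z := fun x y k z => by
    obtain ⟨c, -, hc⟩ := pr' x y
    have := hc e
    rw [sk', sk' y, le, le, LinearMap.neg_apply, LinearMap.neg_apply, sk e y, neg_neg, mul_neg, neg_neg,
      right_eq_mul₀ k] at this
    rw [hc, this, one_mul]
  have hU := span_compl (L := Submodule.span F {e}) fun k => by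
    have := finrank_span_singleton (K := F) he
    rw [k, finrank_top] at this
    omega
  have as2 : ∀ x ∉ Submodule.span F {e}, ∀ y ∉ Submodule.span F {e}, l' x y = -l' y x := fun x hx y hy => by
    obtain ⟨c, c0, hc⟩ := pr' x y
    by_cases c1 : c = 1
    · exact LinearMap.ext fun z => by rw [hc, c1, one_mul, LinearMap.neg_apply]
    by_cases k : I2 F x y
    · obtain ⟨z, z1, z2, z3⟩ := avoid3 (fun e => (n1 y x).1 e k.symm) (fun k => (n0 e x).1 k ⟨he, hx⟩)
        (fun k => (n0 e y).1 k ⟨he, hy⟩) c0 c1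
      have := hc z
      rw [sk', as1 x z z2, sk' z, ← as1 y z z3, sk' y z, neg_neg, neg_inj, right_eq_mul₀ z1] at this
      exact absurd this c1
    · rw [(n1 x y).2 k, (n1 y x).2 fun k' => k k'.symm, neg_zero]
  obtain ⟨Φ, hΦ⟩ := lin_ext hU l' as2
  have e1 : ∀ x ∉ Submodule.span F {e}, Φ x = l' x := fun x hx =>
    LinearMap.ext_on hU fun y hy => by rw [hΦ x y hy, as2 x hx y hy]
  have a0 : ∀ x ∉ Submodule.span F {e}, Φ x x = 0 := fun x hx => by
    rw [e1 x hx, n1]; exact fun k => k.ne (Submodule.mem_span_singleton_self x)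
  refine hn (ns_form Φ (fun x => ?_) (fun x y z => LinearMap.congr_fun (LinearMap.ext_on hU fun x hx => ?_ :
    (Φ.flip y).flip z = -(Φ.flip z).flip y) x) fun x y k => ?_)
  · by_cases hx : x ∈ Submodule.span F {e}
    swap
    · exact a0 x hx
    obtain ⟨u, hu⟩ := exists_i2 (F := F) (by omega) he
    simpa [← e1 u hu.ne, a0 u hu.ne, hΦ x u hu.ne] using
      a0 (x + u) fun k => hu.ne ((Submodule.add_mem_iff_right _ hx).1 k)
  · simp [e1 x hx, sk' x y z]
  · by_cases hy : y ∈ Submodule.span F {e}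
    · rw [e1 x fun hx => k.ne (span_one_le (mem_one_symm hx k.x0) hy)]
      exact fun n => (n1 x y).1 n k
    · rw [hΦ x y hy, neg_ne_zero]
      exact fun n => (n1 y x).1 n k.symm

end Cfsg.Lib.CK
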