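import Cfsg.Agent.Lib.CK.D

/-! Desarguesian spreads; nonexistence of the generalized pentagon. -/

set_option autoImplicit false

namespace Cfsg.Lib.CK

open Module Submodule

variable {F : Type*} [Field F] {A : Type*} [AddCommGroup A] [Module F A] [Finite A]

/-- A spread in which the span of two blocks is a union of blocks. -/
structure Spread (N : A → Submodule F A) (k : ℕ) : Prop where
  self : ∀ u, u ∈ N u
  eq : ∀ {u v}, v ∈ N u → v ≠ 0 → N v = N u
  zero : N 0 = ⊥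
  sub : ∀ u v, u ≠ 0 → v ≠ 0 → N (u + v) ≤ N u ⊔ N v
  rk : ∀ u ≠ 0, finrank F (N u) = k

namespace Spread

variable {N : A → Submodule F A} {k : ℕ} (h : Spread N k)
include h

omit [Finite A] in
theorem clo {a b v : A} (hv : v ∈ N a ⊔ N b) : N v ≤ N a ⊔ N b := by
  have le : ∀ {a a' : A}, a' ∈ N a → N a' ≤ N a := fun {a a'} k => by
    by_cases e : a' = 0
    exacts [by rw [e, h.zero]; exact bot_le, (h.eq k e).le]
  obtain ⟨a', ha, b', hb, rfl⟩ := mem_sup.1 hv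
  by_cases a0 : a' = 0
  · rw [a0, zero_add]; exact (le hb).trans le_sup_right
  by_cases b0 : b' = 0
  · rw [b0, add_zero]; exact (le ha).trans le_sup_left
  exact (h.sub _ _ a0 b0).trans (sup_le_sup (le ha) (le hb))

omit [Finite A] in
theorem disj2 {a b v x : A} (hv : v ∉ N a ⊔ N b) (h1 : x ∈ N a ⊔ N b) (h2 : x ∈ N v) : x = 0 :=
  by_contra fun x0 => hv (h.clo h1 (h.eq h2 x0 ▸ h.self v))

omit [Finite A] in
theorem disj {a v x : A} (hv : v ∉ N a) (h1 : x ∈ N a) (h2 : x ∈ N v) : x = 0 :=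
  h.disj2 (a := a) (b := a) (by rwa [sup_idem]) (mem_sup_left h1) h2

theorem sup_rk {a v : A} (ha : a ≠ 0) (hv : v ∉ N a) : finrank F ↥(N a ⊔ N v) = 2 * k := by
  have := finrank_sup_add_finrank_inf_eq (N a) (N v)
  rw [show N a ⊓ N v = ⊥ from eq_bot_iff.2 fun x hx => h.disj hv hx.1 hx.2, finrank_bot,
    h.rk a ha, h.rk v (ne_zero_of_notMem hv)] at this
  omega

theorem sup_eq {a v w : A} (ha : a ≠ 0) (hv : v ∉ N a) (hw : w ∉ N a) (k : w ∈ N a ⊔ N v) :
    N a ⊔ N w = N a ⊔ N v :=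
  eq_of_le_of_finrank_eq (sup_le le_sup_left (h.clo k)) (by rw [h.sup_rk ha hv, h.sup_rk ha hw])

theorem no_tv {u u' c n : A} (i : I2 F u u') (hu : u' ∈ N u) (big : ∀ w, N u ⊔ N w ≠ ⊤) (g : A ≃ₗ[F] A)
    (hg : ∀ a b, g b ∈ N (g a) ↔ b ∈ N a) (g1 : g u = u) (g2 : g u' = u')
    (tv : ∀ a ∈ N u, g a - a ∈ span F {c}) (hn : n ∈ N u) (hc : g n - n = c) (c0 : c ≠ 0) : False := by
  have out : ∀ {m w : A}, m ∈ N u → m ≠ 0 → w ∉ N u → m + w ∉ N w := fun hm m0 hw k =>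
    m0 (h.disj hw hm ((Submodule.add_mem_iff_left _ (h.self _)).1 k))
  have out' : ∀ {m w : A}, m ∈ N u → w ∉ N u → m + w ∉ N u := fun hm hw k =>
    hw ((Submodule.add_mem_iff_right _ hm).1 k)
  have ex : ∀ w ∉ N u, ∃ a, a ∈ N w ∧ u' + a ∈ N (u + w) := fun w hw => by
    have w0 := ne_zero_of_notMem hw
    obtain ⟨s, hs, r, hr, e⟩ := mem_sup.1 ((h.sup_eq w0 (fun k => hw (h.eq k i.x0 ▸ h.self w))
      (out (h.self u) i.x0 hw) (add_mem (mem_sup_right (h.self u)) (mem_sup_left (h.self w)))).ge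
      (mem_sup_right hu))
    exact ⟨-s, neg_mem hs, by rwa [← e, add_neg_cancel_comm]⟩
  choose! α α1 α2 using ex
  have uniq : ∀ w ∉ N u, ∀ a ∈ N w, u' + a ∈ N (u + w) → α w = a := fun w hw a h1 h2 =>
    sub_eq_zero.1 (h.disj (out (h.self u) i.x0 hw) (sub_mem (α1 w hw) h1) (by simpa using sub_mem (α2 w hw) h2))
  have half : ∀ {w w' s t : A}, w' ∉ N u ⊔ N w → w ∉ N u → s ∈ N w → t ∈ N w' →
      u' + (s + t) ∈ N (u + w + w') → α w = s := fun {w w' s t} h1 h2 hs ht k => by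
    obtain ⟨r, hr, t', ht', e⟩ := mem_sup.1 (h.sub _ _ (ne_zero_of_notMem (out' (h.self u) h2))
      (ne_zero_of_notMem h1) k)
    have := h.disj2 h1 (sub_mem (add_mem (mem_sup_left hu) (mem_sup_right hs)) (h.clo (add_mem
      (mem_sup_left (h.self u)) (mem_sup_right (h.self w))) hr)) (by
        rw [show u' + s - r = t' - t by rw [sub_eq_sub_iff_add_eq_add, add_assoc, ← e, add_comm]]
        exact sub_mem ht' ht)
    exact uniq w h2 s hs (by rwa [sub_eq_zero.1 this])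
  have add1 : ∀ w ∉ N u, ∀ w' ∉ N u ⊔ N w, α (w + w') = α w + α w' := fun w h2 w' h1 => by
    have h3 : w' ∉ N u := fun k => h1 (mem_sup_left k)
    have h4 : w + w' ∉ N u := fun k => h1 (by simpa using sub_mem (mem_sup_left k) (mem_sup_right (h.self w)))
    obtain ⟨s, hs, t, ht, e⟩ := mem_sup.1 (h.sub _ _ (ne_zero_of_notMem h2) (ne_zero_of_notMem h3) (α1 _ h4))
    have k := α2 _ h4
    rw [← e] at k ⊢
    rw [half h1 h2 hs ht (by rwa [add_assoc u]), half (fun k => h1 (h.sup_eq i.x0 h3 h2 k ▸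
      mem_sup_right (h.self _))) h3 ht hs (by rwa [add_comm t, add_assoc u, add_comm w'])]
  have exz : ∀ w, ∃ z, z ∉ N u ⊔ N w := fun w => by
    by_contra! k
    exact big w (eq_top_iff'.2 k)
  have add2 : ∀ w ∉ N u, ∀ w' ∉ N u, w + w' ∉ N u → α (w + w') = α w + α w' := fun w h1 w' h2 h3 => by
    by_cases k : w' ∈ N u ⊔ N w
    · obtain ⟨z, hz⟩ := exz w
      have := add1 _ h3 z (by rwa [h.sup_eq i.x0 h1 h3 (add_mem (mem_sup_right (h.self w)) k)])
      rwa [add_assoc, add1 w h1 _ fun k' => hz ((Submodule.add_mem_iff_right _ k).1 k'),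
        add1 w' h2 z (by rwa [h.sup_eq i.x0 h1 h2 k]), ← add_assoc, add_left_inj, eq_comm] at this
    · exact add1 w h1 w' k
  have ind1 : ∀ m ∈ N u, ∀ w ∉ N u, ∀ w' ∉ N u, w - w' ∉ N u → α (m + w) - α w = α (m + w') - α w' :=
    fun m hm w h1 w' h2 h3 => by
      have e1 := add2 _ (out' hm h2) _ h3 (by rw [add_assoc, add_sub_cancel]; exact out' hm h1)
      have e2 := add2 _ h2 _ h3 (by rwa [add_sub_cancel])
      rw [add_assoc, add_sub_cancel] at e1
      rw [add_sub_cancel] at e2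
      rw [e1, e2, add_sub_add_right_eq_sub]
  have ind : ∀ m ∈ N u, ∀ w ∉ N u, ∀ w' ∉ N u, α (m + w) - α w = α (m + w') - α w' := fun m hm w h1 w' h2 => by
    by_cases h3 : w - w' ∈ N u
    · obtain ⟨z, hz⟩ := exz w
      have z1 : z ∉ N u := fun k => hz (mem_sup_left k)
      rw [ind1 m hm w h1 z z1 fun k => hz (by simpa using sub_mem (mem_sup_right (h.self w)) (mem_sup_left k)),
        ind1 m hm w' h2 z z1 fun k => hz (by
          simpa using sub_mem (mem_sup_right (h.self w)) (mem_sup_left (add_mem h3 k)))]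
    · exact ind1 m hm w h1 w' h2 h3
  have gN : ∀ a, g a ∈ N u ↔ a ∈ N u := fun a => by simpa [g1] using hg u a
  have eqv : ∀ w ∉ N u, α (g w) = g (α w) := fun w hw => uniq _ ((gN w).not.2 hw) _ ((hg _ _).2 (α1 w hw))
    (by simpa [g1, g2] using (hg _ _).2 (α2 w hw))
  obtain ⟨w, hw⟩ := exz u
  rw [sup_idem] at hw
  have cN : c ∈ N u := hc ▸ sub_mem ((gN n).2 hn) hn
  have m1 : ∀ w ∉ N u, α (n + w) - α w ∈ N u ⊔ N w := fun w hw => sub_mem (h.clo (add_mem (mem_sup_left hn)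
    (mem_sup_right (h.self w))) (α1 _ (out' hn hw))) (mem_sup_right (α1 w hw))
  have m2 : α (n + w) - α w ∈ N u := by
    obtain ⟨z, hz⟩ := exz w
    have z1 : z ∉ N u := fun k => hz (mem_sup_left k)
    obtain ⟨a, ha, b, hb, e⟩ := mem_sup.1 (m1 z z1)
    rw [← ind n hn w hw z z1] at e
    rwa [← e, h.disj2 hz (by simpa [← e] using sub_mem (m1 w hw) (mem_sup_left ha)) hb, add_zero]
  obtain ⟨t, ht⟩ := mem_span_singleton.1 (tv _ m2)
  rw [map_sub, ← eqv _ hw, ← eqv _ (out' hn hw), map_add, ind _ ((gN n).2 hn) _ ((gN w).not.2 hw) w hw,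
    sub_sub_sub_cancel_right, show g n + w = c + (n + w) by rw [← hc]; abel, ind c cN _ (out' hn hw) w hw] at ht
  have e1 := h.disj (out cN c0 hw) (sub_mem (α1 w hw) (smul_mem _ t (h.self w))) (by
    convert sub_mem (α1 _ (out' cN hw)) (smul_mem _ t (h.self _)) using 1
    rw [smul_add, ht]; abel)
  have e2 := h.disj (out' (h.self u) hw) (sub_mem hu (smul_mem _ t (h.self u))) (by
    convert sub_mem (α2 w hw) (smul_mem _ t (h.self _)) using 1
    rw [smul_add, sub_eq_zero.1 e1]; abel)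
  exact i.ne (mem_span_singleton.2 ⟨t, (sub_eq_zero.1 e2).symm⟩)

theorem big [Finite F] (hk : 2 ≤ k) {Y : Submodule F A} (hY : finrank F Y = k + 1)
    (h1 : ∀ u ≠ 0, finrank F ↥(N u ⊓ Y) ≤ 1) : 2 * k < finrank F A := by
  by_contra! hm
  have c1 := card_pairs (fun u => N u ⊓ Y) (k := 1) fun u u0 => by
    have := finrank_sup_add_finrank_inf_eq (N u) Y
    have := (N u ⊔ Y).finrank_le
    have := h.rk u u0
    have := h1 u u0
    omega
  have c2 := card_pairs (fun v : Y => N v) (k := k) fun v v0 => h.rk v (by simpa using v0)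
  rw [Set.ncard_congr (s := {p : Y × A | p.1 ≠ 0 ∧ p.2 ≠ 0 ∧ p.2 ∈ N p.1})
    (t := {p : A × A | p.1 ≠ 0 ∧ p.2 ≠ 0 ∧ p.2 ∈ N p.1 ⊓ Y}) (fun p _ => (p.2, p.1.1))
    (fun p hp => ⟨hp.2.1, by simpa using hp.1, h.eq hp.2.2 hp.2.1 ▸ h.self _, p.1.2⟩)
    (fun p p' _ _ e => Prod.ext (Subtype.ext (congrArg Prod.snd e)) (congrArg Prod.fst e))
    (fun p hp => ⟨(⟨p.2, hp.2.2.2⟩, p.1), ⟨by simpa using hp.2.1, hp.1, (h.eq hp.2.2.1 hp.2.1).ge (h.self _)⟩, rfl⟩),
    c1, hY, pow_one, pow_succ] at c2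
  have q2 := two_le_card F
  have a1 := Nat.pow_le_pow_right (n := Nat.card F) (by omega) hm
  have a2 := Nat.pow_lt_pow_right q2 (show 1 < k by omega)
  have a3 : 1 ≤ Nat.card F ^ finrank F A := Nat.one_le_pow _ _ (by omega)
  rw [two_mul, pow_add] at a1
  rw [pow_one] at a2
  generalize Nat.card F ^ finrank F A = m at *
  generalize Nat.card F ^ k = a at *
  generalize Nat.card F = q at *
  obtain ⟨m, rfl⟩ := Nat.exists_eq_add_of_le' a3
  obtain ⟨q, rfl⟩ := Nat.exists_eq_add_of_le' (show 1 ≤ q by omega)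
  obtain ⟨a, rfl⟩ := Nat.exists_eq_add_of_le' (show 1 ≤ a by omega)
  rw [show (a + 1) * (q + 1) - 1 = a * q + a + q by rw [Nat.sub_eq_iff_eq_add (by nlinarith)]; ring] at c2
  simp only [add_tsub_cancel_right] at c2
  nlinarith

end Spread

theorem trace_zero {Ω : Type*} [Fintype Ω] [DecidableEq Ω] {M : Matrix Ω Ω ℝ} {t τ : ℤ} (ht : t ≠ 0)
    (h : M * M * M = (5 * t ^ 2 : ℝ) • M) (e : M.trace = τ) : τ = 0 := by
  have idem : ∀ s : ℝ, s * s = 5 * t ^ 2 → ∃ r : ℕ, (M * M).trace + s * τ = 2 * (s * s) * r := fun s hs => by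
    have s0 : s ≠ 0 := by rintro rfl; simp [ht] at hs
    have : IsIdempotentElem (Matrix.toLin' ((2 * (s * s))⁻¹ • (M * M + s • M))) := by
      rw [IsIdempotentElem, Module.End.mul_eq_comp, ← Matrix.toLin'_mul]
      congr 1
      simp only [smul_mul_assoc, mul_smul_comm, add_mul, mul_add, ← mul_assoc, h, ← hs]
      match_scalars <;> field_simp <;> ring
    have := (LinearMap.IsIdempotentElem.isProj_range _ this).trace
    rw [Matrix.trace_toLin'_eq, Matrix.trace_smul, Matrix.trace_add, Matrix.trace_smul, e, smul_eq_mul,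
      inv_mul_eq_iff_eq_mul₀ (by positivity)] at this
    exact ⟨_, this⟩
  have s5 : √5 * √5 = 5 := Real.mul_self_sqrt (by norm_num)
  obtain ⟨r, hr⟩ := idem (√5 * t) (by linear_combination (t : ℝ) ^ 2 * s5)
  obtain ⟨r', hr'⟩ := idem (-(√5 * t)) (by linear_combination (t : ℝ) ^ 2 * s5)
  have k : (τ : ℝ) = √5 * (t * (r - r') : ℤ) := by
    push_cast
    refine mul_left_cancel₀ (a := 2 * (√5 * t)) (by positivity) ?_
    linear_combination hr - hr'
  by_contra n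
  exact Int.not_irrational τ (k ▸ (Nat.prime_five.irrational_sqrt).mul_intCast fun e => n (by
    rw [e] at k; simpa using k))

open Classical in
/-- The incidence matrix of a family of subspaces. -/
noncomputable def mat (P : A → Submodule F A) : Matrix {a : A // a ≠ 0} {a : A // a ≠ 0} ℝ :=
  fun u v => if v.1 ∈ P u then 1 else 0

theorem mat_mul [Finite F] [Fintype {a : A // a ≠ 0}] (P : A → Submodule F A) {Q : A → Submodule F A}
    (hQ : ∀ u v, v ≠ 0 → v ∈ Q u → u ∈ Q v) (u v : {a : A // a ≠ 0}) :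
    (mat P * mat Q) u v = (Nat.card F : ℝ) ^ finrank F ↥(P u ⊓ Q v) - 1 := by
  classical
  have : ∀ c : {a : A // a ≠ 0}, mat P u c * mat Q c v = if c.1 ∈ P u ⊓ Q v then 1 else 0 := fun c => by
    simp only [mat, ite_zero_mul_ite_zero, mul_one, mem_inf, show v.1 ∈ Q c ↔ c.1 ∈ Q v from
      ⟨hQ _ _ v.2, hQ _ _ c.2⟩]
  rw [Matrix.mul_apply, Finset.sum_congr rfl fun c _ => this c, Finset.sum_boole, ← Fintype.card_subtype,
    ← Nat.card_eq_fintype_card, Nat.card_congr (β := {a : ↥(P u ⊓ Q v) // a ≠ 0})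
      ⟨fun c => ⟨⟨c.1.1, c.2⟩, by simpa using c.1.2⟩, fun c => ⟨⟨c.1.1, by simpa using c.2⟩, c.1.2⟩,
        fun _ => rfl, fun _ => rfl⟩, card_ne_zero F, Nat.cast_sub (Nat.one_le_pow _ _ Nat.card_pos)]
  simp

theorem no_pentagon [Finite F] (hA : finrank F A = 5) (N : A → Submodule F A) (h0 : ∀ u, u ∈ N u)
    (hs : ∀ u v, v ≠ 0 → v ∈ N u → u ∈ N v) (h3 : ∀ u ≠ 0, finrank F (N u) = 3)
    (h1 : ∀ u v, v ∈ span F {u} → N v ≤ N u)
    (h2 : ∀ u v, u ≠ 0 → v ∈ N u → v ∉ span F {u} → finrank F ↥(N u ⊓ N v) = 2)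
    (h4 : ∀ u v, u ≠ 0 → v ∉ N u → finrank F ↥(N u ⊓ N v) = 1) : False := by
  classical
  have := Fintype.ofFinite {a : A // a ≠ 0}
  obtain ⟨q, hq⟩ : ∃ q : ℝ, q = Nat.card F := ⟨_, rfl⟩
  have sZ : ∀ u v : A, v ≠ 0 → v ∈ span F {u} → u ∈ span F {v} := fun _ _ k k' => mem_one_symm k' k
  have sJ : ∀ u v : A, v ≠ 0 → v ∈ (⊤ : Submodule F A) → u ∈ (⊤ : Submodule F A) := fun _ _ _ _ => trivial
  have r1 : ∀ (u : {a : A // a ≠ 0}) (X : Submodule F A),
      q ^ finrank F ↥(span F {u.1} ⊓ X) - 1 = (q - 1) * if u.1 ∈ X then 1 else 0 := fun u X => by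
    split_ifs with k
    · rw [inf_eq_left.2 (span_one_le k), finrank_span_singleton u.2, pow_one, mul_one]
    · rw [((disjoint_span_singleton' u.2).2 k).symm.eq_bot]; simp
  have ZQ : ∀ Q : A → Submodule F A, (∀ u v, v ≠ 0 → v ∈ Q u → u ∈ Q v) →
      mat (fun u => span F {u}) * mat Q = (q - 1) • mat Q := fun Q hQ => by
    ext u v
    rw [mat_mul _ hQ, ← hq, r1, Matrix.smul_apply, mat, if_congr ⟨hQ _ _ u.2, hQ _ _ v.2⟩ rfl rfl, smul_eq_mul]
  have QZ : ∀ Q : A → Submodule F A, mat Q * mat (fun u => span F {u}) = (q - 1) • mat Q := fun Q => by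
    ext u v
    rw [mat_mul _ sZ, ← hq, inf_comm, r1]; rfl
  have NJ : mat N * mat (fun _ : A => (⊤ : Submodule F A)) = (q ^ 3 - 1) • mat (fun _ : A => (⊤ : Submodule F A)) := by
    ext u v
    rw [mat_mul _ sJ, inf_top_eq, h3 _ u.2]; simp [mat, hq]
  have JN : mat (fun _ : A => (⊤ : Submodule F A)) * mat N = (q ^ 3 - 1) • mat (fun _ : A => (⊤ : Submodule F A)) := by
    ext u v
    rw [mat_mul _ hs, top_inf_eq, h3 _ v.2]; simp [mat, hq]
  have JJ : mat (fun _ : A => (⊤ : Submodule F A)) * mat (fun _ : A => (⊤ : Submodule F A)) =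
      (q ^ 5 - 1) • mat (fun _ : A => (⊤ : Submodule F A)) := by
    ext u v
    rw [mat_mul _ sJ, top_inf_eq, finrank_top, hA]; simp [mat, hq]
  have NN : mat N * mat N = (q - 1) • mat (fun _ : A => (⊤ : Submodule F A)) + (q ^ 2 - q) • mat N +
      (q ^ 3 - q ^ 2) • mat (fun u : A => span F {u}) := by
    ext u v
    rw [mat_mul _ hs, ← hq]
    simp only [mat, Matrix.add_apply, Matrix.smul_apply, mem_top, if_true, smul_eq_mul]
    by_cases k : v.1 ∈ span F {u.1}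
    · rw [inf_eq_right.2 (h1 _ _ k), h3 _ v.2, if_pos k, if_pos (h1 _ _ k (h0 _))]; ring
    by_cases k' : v.1 ∈ N u
    · rw [h2 _ _ u.2 k' k, if_neg k, if_pos k']; ring
    · rw [h4 _ _ u.2 k', if_neg k, if_neg k']; ring
  have tr : ∀ Q : A → Submodule F A, (∀ u, u ∈ Q u) → (mat Q).trace = q ^ 5 - 1 := fun Q hQ => by
    simp only [Matrix.trace, Matrix.diag, mat, hQ, if_true, Finset.sum_const, Finset.card_univ]
    rw [← Nat.card_eq_fintype_card, card_ne_zero F, hA, nsmul_one, Nat.cast_sub (Nat.one_le_pow _ _ Nat.card_pos)]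
    simp [hq]
  have q2 : (2 : ℤ) ≤ Nat.card F := by exact_mod_cast two_le_card F
  have q5 : (1 : ℤ) < Nat.card F ^ 5 := one_lt_pow₀ (by omega) (by omega)
  have := trace_zero (M := (q ^ 5 - 1) • ((2 : ℝ) • mat N - q • mat (fun u : A => span F {u})) -
      (2 * (q ^ 3 - 1) - q * (q - 1)) • mat (fun _ : A => (⊤ : Submodule F A)))
    (t := (Nat.card F ^ 5 - 1) * Nat.card F * (Nat.card F - 1))
    (τ := (Nat.card F ^ 5 - 1) * ((2 - Nat.card F) * (Nat.card F ^ 5 - 1) - (2 * (Nat.card F ^ 3 - 1) -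
      Nat.card F * (Nat.card F - 1)))) (mul_ne_zero (mul_ne_zero (by omega) (by omega)) (by omega)) (by
      simp only [smul_mul_assoc, mul_smul_comm, sub_mul, mul_sub, add_mul, NN, NJ, JN, JJ, QZ, ZQ _ hs, ZQ _ sJ]
      push_cast
      rw [← hq]
      match_scalars <;> ring) (by
      simp only [Matrix.trace_sub, Matrix.trace_smul, tr _ h0, tr _ mem_span_singleton_self,
        tr _ fun _ => mem_top, smul_eq_mul]
      push_cast
      rw [← hq]
      ring)
  rw [mul_eq_zero, or_iff_right (by omega)] at this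
  generalize (Nat.card F : ℤ) = n at *
  nlinarith [mul_nonneg (sub_nonneg.2 q2) (sub_nonneg.2 q5.le), mul_nonneg (sub_nonneg.2 q2) (sq_nonneg n)]

end Cfsg.Lib.CK
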