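import Cfsg.Agent.Lib.CK.E
import Cfsg.Agent.Lib.CK.F

/-! Doubly transitive linear groups: transport, closures, invariant families of subspaces. -/

set_option autoImplicit false

namespace Cfsg.Lib.CK

open Module Submodule MulAction

variable {F : Type*} [Field F]

section iso

variable {Γ Γ' A A' : Type*} [Group Γ] [AddCommGroup A] [Module F A] [DistribMulAction Γ A]
  [SMulCommClass Γ F A] [Group Γ'] [AddCommGroup A'] [Module F A'] [DistribMulAction Γ' A']
  [SMulCommClass Γ' F A']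

/-- The closure of a vector under `W`. -/
def Cl (F Γ : Type*) [Field F] [Group Γ] [Module F A] [DistribMulAction Γ A] [SMulCommClass Γ F A] (y : A) :
    Submodule F A := sInf {X | y ∈ X ∧ Closed Γ X}

theorem self_mem_Cl (y : A) : y ∈ Cl F Γ y := mem_sInf.2 fun _ h => h.1

theorem Cl_le {y : A} {X : Submodule F A} (h1 : y ∈ X) (h2 : Closed Γ X) : Cl F Γ y ≤ X := sInf_le ⟨h1, h2⟩

theorem Cl_closed (y : A) : Closed Γ (Cl F Γ y) := fun u hu =>
  le_sInf fun _ hX => hX.2 u (Cl_le hX.1 hX.2 hu)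

/-- Isomorphic actions. -/
structure Iso (Γ Γ' : Type*) [Group Γ] [DistribMulAction Γ A] [Group Γ'] [DistribMulAction Γ' A']
    (e : A ≃ₗ[F] A') : Prop where
  l : ∀ g : Γ, ∃ g' : Γ', ∀ a, g' • e a = e (g • a)
  r : ∀ g' : Γ', ∃ g : Γ, ∀ a, g' • e a = e (g • a)

variable {e : A ≃ₗ[F] A'}

omit [SMulCommClass Γ F A] [SMulCommClass Γ' F A'] in
theorem Iso.symm (h : Iso Γ Γ' e) : Iso Γ' Γ e.symm :=
  ⟨fun g' => (h.r g').imp fun g k a => by rw [LinearEquiv.eq_symm_apply, ← k, e.apply_symm_apply],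
    fun g => (h.l g).imp fun g' k a => by rw [LinearEquiv.eq_symm_apply, ← k, e.apply_symm_apply]⟩

omit [SMulCommClass Γ F A] [SMulCommClass Γ' F A'] in
theorem Iso.good' (h : Iso Γ Γ' e) {y z : A} (k : Good F Γ y z) : Good F Γ' (e y) (e z) :=
  ⟨(map_i2 e).2 k.i2, fun u hu a ha => by
    obtain ⟨u, rfl⟩ := e.surjective u
    obtain ⟨a, rfl⟩ := e.surjective a
    rw [map_mem_two] at hu ha
    obtain ⟨g, g1, g2, g3⟩ := k.mv u hu a ha
    obtain ⟨g', hg⟩ := h.l g
    exact ⟨g', by rw [hg, g1], by rw [hg, g2], by rw [hg, g3, map_add]⟩⟩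

theorem Iso.mem_W (h : Iso Γ Γ' e) {y z : A} : e z ∈ W F Γ' (e y) ↔ z ∈ W F Γ y :=
  or_congr (map_mem_one e) ⟨fun k => by simpa using h.symm.good' k, h.good'⟩

theorem Iso.mem_W2' (h : Iso Γ Γ' e) {y z : A} (k : z ∈ W2 F Γ y) : e z ∈ W2 F Γ' (e y) :=
  (iSup₂_le (a := (W2 F Γ' (e y)).comap (e : A →ₗ[F] A')) fun _ hc _ hv =>
    W_le_W2 (h.mem_W.2 hc) (h.mem_W.2 hv)) k

theorem Iso.mem_W2 (h : Iso Γ Γ' e) {y z : A} : e z ∈ W2 F Γ' (e y) ↔ z ∈ W2 F Γ y :=
  ⟨fun k => by simpa using h.symm.mem_W2' k, h.mem_W2'⟩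

theorem Iso.mem_Cl' (h : Iso Γ Γ' e) {y z : A} (k : z ∈ Cl F Γ y) : e z ∈ Cl F Γ' (e y) :=
  Cl_le (X := (Cl F Γ' (e y)).comap (e : A →ₗ[F] A')) (self_mem_Cl _)
    (fun u hu _ hv => Cl_closed _ (e u) hu (h.mem_W.2 hv)) k

theorem Iso.mem_Cl (h : Iso Γ Γ' e) {y z : A} : e z ∈ Cl F Γ' (e y) ↔ z ∈ Cl F Γ y :=
  ⟨fun k => by simpa using h.symm.mem_Cl' k, h.mem_Cl'⟩

theorem iso_lin (g : Γ) : Iso Γ Γ (lin F A g) :=
  ⟨fun k => ⟨g * k * g⁻¹, fun a => by simp [mul_smul]⟩, fun k => ⟨g⁻¹ * k * g, fun a => by simp [mul_smul]⟩⟩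

theorem AT.Cl_eq [Finite A] (h : AT F Γ A) {y u : A} (hy : y ≠ 0) (hu : u ∈ Cl F Γ y) (u0 : u ≠ 0) :
    Cl F Γ u = Cl F Γ y := by
  refine eq_of_le_of_finrank_eq (Cl_le hu (Cl_closed y)) ?_
  obtain ⟨g, rfl⟩ := h.trans hy u0
  exact finrank_eq_of_smul g fun a => (iso_lin g).mem_Cl

/-- The quotient by a point. -/
abbrev Q (F : Type*) [Field F] [Module F A] (x : A) := A ⧸ span F {x}

/-- The projection. -/
abbrev pr (F : Type*) [Field F] [Module F A] (x y : A) : Q F x := Submodule.Quotient.mk y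

theorem pr_eq_zero {x y : A} : pr F x y = 0 ↔ y ∈ span F {x} := Submodule.Quotient.mk_eq_zero _

theorem pr_self (x : A) : pr F x x = 0 := pr_eq_zero.2 (mem_span_singleton_self x)

theorem I2.pr_ne {x y : A} (h : I2 F x y) : pr F x y ≠ 0 := pr_eq_zero.not.2 h.ne

theorem I2.of_pr {x y : A} (hx : x ≠ 0) (h : pr F x y ≠ 0) : I2 F x y := ⟨hx, pr_eq_zero.not.1 h⟩

/-- The isomorphism of quotients given by a group element. -/
def qe (F : Type*) [Field F] [Module F A] [SMulCommClass Γ F A] (g : Γ) (x : A) : Q F x ≃ₗ[F] Q F (g • x) :=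
  Submodule.Quotient.equiv _ _ (lin F A g) (by rw [map_span, Set.image_singleton]; rfl)

theorem qe_pr (g : Γ) (x y : A) : qe F g x (pr F x y) = pr F (g • x) (g • y) := rfl

theorem iso_qe (g : Γ) (x : A) : Iso (stabilizer Γ x) (stabilizer Γ (g • x)) (qe F g x) :=
  ⟨fun k => ⟨⟨g * k * g⁻¹, by simp [mul_smul, mem_stabilizer_iff.1 k.2]⟩, fun a => by
      induction a using Submodule.Quotient.induction_on
      simp [qe_pr, mul_smul]⟩,
    fun k => ⟨⟨g⁻¹ * k * g, by simp [mul_smul, mem_stabilizer_iff.1 k.2]⟩, fun a => by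
      induction a using Submodule.Quotient.induction_on
      simp [qe_pr, mul_smul]⟩⟩

/-- Preimage of a subspace of the quotient. -/
def up (x : A) (L : Submodule F (Q F x)) : Submodule F A := L.comap (span F {x}).mkQ

theorem left_mem_up (x : A) (L : Submodule F (Q F x)) : x ∈ up x L :=
  show pr F x x ∈ L from pr_self (F := F) x ▸ zero_mem _

theorem up_eq_top {x : A} {L : Submodule F (Q F x)} : up x L = ⊤ ↔ L = ⊤ := by
  simp only [eq_top_iff']
  exact ⟨fun h q => by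
    induction q using Submodule.Quotient.induction_on
    exact h _, fun h _ => h _⟩

theorem finrank_map_pr [Finite A] (x : A) (Y : Submodule F A) :
    finrank F (Y.map (span F {x}).mkQ) + finrank F ↥(Y ⊓ span F {x}) = finrank F Y := by
  rw [← ((span F {x}).mkQ.domRestrict Y).finrank_range_add_finrank_ker, LinearMap.range_domRestrict,
    ← finrank_map_subtype_eq Y, LinearMap.ker_domRestrict, map_comap_subtype, ker_mkQ]

theorem finrank_up [Finite A] {x : A} (hx : x ≠ 0) (L : Submodule F (Q F x)) :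
    finrank F (up x L) = finrank F L + 1 := by
  rw [← finrank_map_pr x, inf_eq_right.2 (span_one_le (left_mem_up x L)), finrank_span_singleton hx, up,
    map_comap_eq_of_surjective (mkQ_surjective _)]

theorem finrank_Q [Finite A] {x : A} (hx : x ≠ 0) : finrank F (Q F x) + 1 = finrank F A := by
  have := (span F {x}).finrank_quotient_add_finrank
  rwa [finrank_span_singleton hx] at this

theorem pr_mem_one {x y z : A} : pr F x z ∈ span F {pr F x y} ↔ z ∈ span F {x, y} := by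
  rw [span_two_sup, ← comap_map_mkQ, map_span, Set.image_singleton]; rfl

theorem pr_mem_two {x y z u : A} :
    pr F x u ∈ span F {pr F x y, pr F x z} ↔ u ∈ span F {x} ⊔ span F {y, z} := by
  rw [← comap_map_mkQ, map_span, Set.image_pair]; rfl

theorem pr_i2 {x y z : A} (k : I2 F x y) (hz : z ∉ span F {x, y}) : I2 F (pr F x y) (pr F x z) :=
  ⟨k.pr_ne, pr_mem_one.not.2 hz⟩

end iso

variable {Γ V V' : Type*} [Group Γ] [AddCommGroup V] [Module F V] [DistribMulAction Γ V] [SMulCommClass Γ F V]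
  [AddCommGroup V'] [Module F V'] [DistribMulAction Γ V'] [SMulCommClass Γ F V']

/-- Double transitivity on points. -/
structure T2 (F Γ V : Type*) [Field F] [Group Γ] [AddCommGroup V] [Module F V] [DistribMulAction Γ V] :
    Prop where
  three : 3 ≤ finrank F V
  mv : ∀ x y x' y' : V, I2 F x y → I2 F x' y' → ∃ (g : Γ) (c : F), g • x = x' ∧ g • y = c • y'

theorem T2.mv' (h : T2 F Γ V) {x y x' y' : V} (k : I2 F x y) (k' : I2 F x' y') :
    ∃ (g : Γ) (c : F), c ≠ 0 ∧ g • x = x' ∧ g • y = c • y' := by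
  obtain ⟨g, c, g1, g2⟩ := h.mv _ _ _ _ k k'
  exact ⟨g, c, left_ne_zero_of_smul (g2 ▸ smul_ne_zero' g k.y0), g1, g2⟩

theorem T2.at (h : T2 F Γ V) : AT F Γ V := ⟨by have := h.three; omega, fun y u k => by
  obtain ⟨g, c, c0, g1, g2⟩ := h.mv' k (k.add 1)
  rw [one_smul] at g2
  by_cases c1 : c = 1
  · exact ⟨g, g1, by rw [g2, c1, one_smul]⟩
  obtain ⟨s, d, s1, s2⟩ := h.mv _ _ _ _ k (k.add (c / (c - 1)))
  have e : g • s • u = s • c • u := by
    rw [s2, smul_comm g, smul_add g, smul_comm g, g1, g2, smul_comm s, s2]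
    have := sub_ne_zero.2 c1
    match_scalars <;> field_simp <;> ring
  refine ⟨g * (s⁻¹ * g * s)⁻¹, ?_, ?_⟩
  · rw [mul_smul, inv_smul_eq_iff.2 (show y = (s⁻¹ * g * s) • y by simp [mul_smul, s1, g1, eq_inv_smul_iff]), g1]
  · rw [mul_smul, inv_smul_eq_iff.2 (show u = (s⁻¹ * g * s) • c⁻¹ • u by
      rw [smul_comm, mul_smul, mul_smul, e, inv_smul_smul, inv_smul_smul₀ c0]), smul_comm, g2, inv_smul_smul₀ c0]⟩

theorem AT.t2 (h : AT F Γ V) (h3 : 3 ≤ finrank F V) (hW : ∀ y : V, y ≠ 0 → W F Γ y = ⊤) : T2 F Γ V :=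
  ⟨h3, fun x y x' y' k k' => by
    obtain ⟨g, c, -, e⟩ := h.good_conj (good_of_mem (hW x k.x0 ▸ mem_top) k.ne)
      (good_of_mem (hW x' k'.x0 ▸ mem_top) k'.ne)
    exact ⟨g, c, e⟩⟩

variable [Finite V] [Finite V'] [Finite F] [Finite Γ]

namespace T2

variable (h : T2 F Γ V)
include h

theorem good {x y : V} (k : I2 F x y) : Good F Γ x y := by
  obtain ⟨z, hz⟩ := h.at.exists_good k.x0
  obtain ⟨g, c, c0, g1, g2⟩ := h.mv' hz.i2 k
  have := (hz.smul g).mem
  rw [g1, g2, smul_mem_iff _ c0] at this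
  exact good_of_mem this k.ne

theorem dual (P : Pr F Γ V V') : T2 F Γ V' := (h.at.dual P).t2 (P.finrank_eq ▸ h.three) fun f hf => by
  obtain ⟨y, hy⟩ := h.at.exists_ne
  refine eq_top_of_finrank_eq ?_
  rw [h.at.finrank_W_dual P hy hf, P.finrank_eq, show W F Γ y = ⊤ from eq_top_iff'.2 fun z =>
    or_iff_not_imp_left.2 fun n => h.good ⟨hy, n⟩, finrank_top]

theorem quot_at {x : V} (hx : x ≠ 0) : AT F (stabilizer Γ x) (Q F x) :=
  ⟨by have := finrank_Q (F := F) hx; have := h.three; omega, fun y u k => by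
    induction y using Submodule.Quotient.induction_on with | H y =>
    induction u using Submodule.Quotient.induction_on with | H u =>
    obtain ⟨g, g1, g2, g3⟩ := (h.good (I2.of_pr hx k.x0)).mv u (pr_mem_one.not.1 k.ne) y (mem_r _ _)
    exact ⟨⟨g, g1⟩, by rw [smul_mk, g2], by rw [smul_mk, g3]; rfl⟩⟩

theorem flag (P : Pr F Γ V V') {x x' : V} {f f' : V'} (hx : x ≠ 0) (hx' : x' ≠ 0)
    (hf : f ≠ 0) (hf' : f' ≠ 0) (e : P.b x f = 0) (e' : P.b x' f' = 0) : ∃ g : Γ, g • x = x' ∧ g • f = f' := by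
  obtain ⟨g, rfl⟩ := h.at.trans hx hx'
  obtain ⟨k, hk⟩ := ((h.quot_at hx').dual (P.quot _ _)).trans
    (y := ⟨g • f, P.mem_perp_one.2 (by rw [P.inv, e])⟩) (z := ⟨f', P.mem_perp_one.2 e'⟩)
    (fun n => smul_ne_zero' g hf (Subtype.mk.inj n)) fun n => hf' (Subtype.mk.inj n)
  exact ⟨k * g, by rw [mul_smul, mem_stabilizer_iff.1 k.2], by rw [mul_smul]; exact Subtype.mk.inj hk⟩

end T2

/-- Equivariant families of subspaces through two points. -/
structure Fam (Γ : Type*) [Group Γ] [DistribMulAction Γ V] (β : V → V → Submodule F V) : Prop where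
  sm : ∀ (g : Γ) x y z, g • z ∈ β (g • x) (g • y) ↔ z ∈ β x y
  l : ∀ x y, x ∈ β x y
  r : ∀ x y, y ∈ β x y

namespace Fam

variable {β : V → V → Submodule F V} (hβ : Fam Γ β) (h : T2 F Γ V)
include hβ h

theorem s23 {x y z : V} (k : I2 F x y) (hz : z ∉ span F {x, y}) (m : z ∈ β x y) : y ∈ β x z := by
  obtain ⟨k1, k2⟩ := k.swap23 hz
  obtain ⟨a, a1, a2, a3⟩ := (h.good k1).mv y k2 z (mem_r _ _)
  obtain ⟨b, b1, b2, b3⟩ := (h.good k).mv (y + z) (fun n => hz ((Submodule.add_mem_iff_right _ (mem_r _ _)).1 n))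
    (-y) (neg_mem (mem_r _ _))
  rw [← hβ.sm a, a1, a2, a3, ← Submodule.add_mem_iff_right _ (neg_mem (hβ.r _ _)), neg_add_rev,
    neg_add_cancel_comm, neg_mem_iff, ← hβ.sm b, b1, b2, b3, add_neg_cancel_comm] at m
  exact m

theorem right {x y y' : V} (k : I2 F x y) (h1 : y' ∈ span F {x, y}) (h2 : y' ∉ span F {x}) :
    β x y' = β x y := by
  have H : ∀ {y y' : V}, I2 F x y → y' ∈ span F {x, y} → y' ∉ span F {x} → β x y ≤ β x y' :=
    fun {y y'} k h1 h2 z m => by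
      by_cases hz : z ∈ span F {x, y'}
      · exact span_two_le (hβ.l _ _) (hβ.r _ _) hz
      obtain ⟨k1, k2⟩ := I2.swap23 ⟨k.x0, h2⟩ hz
      rw [span_two_eq h1 h2] at hz
      exact hβ.s23 h k1 k2 (span_two_le (hβ.l _ _) (hβ.s23 h k hz m) h1)
  exact le_antisymm (H ⟨k.x0, h2⟩ (span_two_eq h1 h2 ▸ mem_r _ _) k.ne) (H k h1 h2)

theorem symm {x y : V} (k : I2 F x y) : β x y = β y x := by
  have H : ∀ {x y : V}, I2 F x y → β x y ≤ β y x := fun {x y} k z m => by
    by_cases hz : z ∈ span F {x, y}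
    · exact span_two_le (hβ.r _ _) (hβ.l _ _) hz
    have t : ∀ {x y : V}, I2 F x y → z ∉ span F {x, y} → ∀ c : F, z ∈ β x y → z ∈ β (x + c • y) y := by
      intro x y k hz c m
      obtain ⟨k1, k2⟩ := k.symm.swap23 (span_two_comm (F := F) x y ▸ hz)
      obtain ⟨a, a1, a2, a3⟩ := (h.good k1).mv x k2 _ (smul_mem _ c (mem_l _ _))
      rwa [← hβ.sm a, a1, a2, a3] at m
    have e := span_two_eq (add_mem (mem_r y x) (smul_mem _ 1 (mem_l y x))) (k.symm.add 1).ne
    have k1 := (k.symm.add 1).symm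
    have k2 : I2 F (x + (1 : F) • y) x := by simpa [add_comm] using (k.add 1).symm
    have m1 := t k hz 1 m
    rw [← hβ.right h k1 (by rw [span_two_comm, e]; exact mem_r _ _) k2.ne] at m1
    simpa using t k2 (by rwa [span_two_eq (by rw [span_two_comm, e]; exact mem_r _ _) k2.ne, span_two_comm, e,
      span_two_comm]) (-1) m1
  exact le_antisymm (H k) (H k.symm)

theorem line {x y x' y' : V} (k : I2 F x y) (k' : I2 F x' y') (h1 : x' ∈ span F {x, y})
    (h2 : y' ∈ span F {x, y}) : β x' y' = β x y := by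
  have H : ∀ {x' y' : V}, I2 F x' y' → x' ∈ span F {x, y} → y' ∈ span F {x, y} → x' ∉ span F {x} →
      β x' y' = β x y := fun k' h1 h2 n => by
    rw [← hβ.right h k h1 n, hβ.symm h ⟨k.x0, n⟩, hβ.right h (I2.symm ⟨k.x0, n⟩)
      (by rwa [span_two_comm, span_two_eq h1 n]) k'.ne]
  by_cases n : x' ∈ span F {x}
  · rw [hβ.symm h k', H k'.symm h2 h1 fun n' => k'.ne (span_one_le (mem_one_symm n k'.x0) n')]
  · exact H k' h1 h2 n

/-- No invariant family of hyperplanes. -/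
theorem tf (hyp : ∀ x y, I2 F x y → ∃ φ : V →ₗ[F] F, φ ≠ 0 ∧ ∀ z, φ z = 0 ↔ z ∈ β x y) : finrank F V ≤ 3 := by
  classical
  choose φ φ0 hφ using hyp
  refine form2 (fun x y => if k : I2 F x y then φ x y k else 0) (fun x y => ?_) (fun x y z e => ?_)
    (fun x y z e => ?_) fun x y => ?_
  · split_ifs with k
    exacts [(hφ _ _ k _).2 (hβ.l _ _), rfl]
  · by_cases k : I2 F x y
    · rw [dif_pos k, hφ] at e
      rwa [dif_pos k.symm, hφ, ← hβ.symm h k]
    · rw [dif_neg fun k' => k k'.symm]; rfl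
  · by_cases k' : I2 F x z
    swap
    · rw [dif_neg k']; rfl
    rw [dif_pos k', hφ]
    by_contra n
    obtain ⟨k1, k2⟩ := k'.swap23 fun m => n (span_two_le (hβ.l _ _) (hβ.r _ _) m)
    rw [dif_pos k1, hφ] at e
    exact n (hβ.s23 h k1 k2 e)
  · split_ifs with k <;> simp [k, φ0]

end Fam

end Cfsg.Lib.CK
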