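import Cfsg.Agent.Lib.CK.G

/-! Doubly transitive linear groups: blocks and the case of rank two. -/

set_option autoImplicit false

namespace Cfsg.Lib.CK

open Module Submodule MulAction

variable {F : Type*} [Field F] {Γ V : Type*} [Group Γ] [AddCommGroup V] [Module F V] [DistribMulAction Γ V]
  [SMulCommClass Γ F V]

section defs

variable (F Γ)

/-- The space `W` of the point stabilizer, pulled back. -/
def Wt (x y : V) : Submodule F V := up x (W F (stabilizer Γ x) (pr F x y))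

/-- The space `W2` of the point stabilizer, pulled back. -/
def W2t (x y : V) : Submodule F V := up x (W2 F (stabilizer Γ x) (pr F x y))

/-- The closure of the point stabilizer, pulled back. -/
def Ct (x y : V) : Submodule F V := up x (Cl F (stabilizer Γ x) (pr F x y))

/-- Triple transitivity (given double transitivity). -/
def T3 (V : Type*) [AddCommGroup V] [Module F V] [DistribMulAction Γ V] [SMulCommClass Γ F V] : Prop :=
  ∀ x y : V, I2 F x y → W F (stabilizer Γ x) (pr F x y) = ⊤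

/-- All transvections are induced. -/
def AllTv (V : Type*) [AddCommGroup V] [Module F V] [DistribMulAction Γ V] : Prop :=
  ∀ (φ : V →ₗ[F] F) (c : V), φ c = 0 → ∃ g : Γ, ∀ a, g • a = a + φ a • c

end defs

theorem fam_Wt : Fam Γ (Wt F Γ : V → V → _) :=
  ⟨fun g x y z => (iso_qe g x).mem_W (y := pr F x y) (z := pr F x z), fun _ _ => left_mem_up _ _,
    fun _ _ => self_mem_W _⟩

theorem fam_W2t : Fam Γ (W2t F Γ : V → V → _) :=
  ⟨fun g x y z => (iso_qe g x).mem_W2 (y := pr F x y) (z := pr F x z), fun _ _ => left_mem_up _ _,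
    fun _ _ => W_le_W2 (self_mem_W _) (self_mem_W _)⟩

theorem fam_Ct : Fam Γ (Ct F Γ : V → V → _) :=
  ⟨fun g x y z => (iso_qe g x).mem_Cl (y := pr F x y) (z := pr F x z), fun _ _ => left_mem_up _ _,
    fun _ _ => self_mem_Cl _⟩

theorem good_pr {x y z : V} (hz : z ∉ span F {x, y}) (h : z ∈ Wt F Γ x y) :
    Good F (stabilizer Γ x) (pr F x y) (pr F x z) := good_of_mem h (pr_mem_one.not.2 hz)

theorem Wt_dep {x y z : V} (k : y ∈ span F {x}) (h : z ∈ Wt F Γ x y) : z ∈ span F {x} := by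
  rw [Wt, pr_eq_zero.2 k, W_zero] at h
  exact pr_eq_zero.1 h

variable [Finite V] [Finite F]

theorem AT.j1 (h : AT F Γ V) (hcl : ∀ X : Submodule F V, Closed Γ X → X ≠ ⊥ → X = ⊤) {y : V} (hy : y ≠ 0)
    (hT : W F Γ y ≠ ⊤) : J1 F Γ V := by
  refine ⟨h, fun z c hc => le_antisymm (Nat.succ_le_of_lt (lt_of_le_of_ne (finrank_mono inf_le_left)
    fun e => hT (hcl _ ?_ fun k => hy ?_))) (h.inf_succ hc)⟩
  · rintro u (g | g)
    · exact W_of_mem_one g
    rw [← eq_of_le_of_finrank_eq (inf_le_right : W F Γ y ⊓ W F Γ u ≤ _)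
      (by rw [h.finrank_inf g hc, e, h.finrank_W hc.i2.x0 g.i2.y0])]
    exact inf_le_left
  · exact (mem_bot F).1 (k ▸ self_mem_W y)

variable [Finite Γ]

namespace T2

variable (h : T2 F Γ V)
include h

theorem rk {β : V → V → Submodule F V} (hβ : Fam Γ β) {x y a b : V} (k : I2 F x y) (k' : I2 F a b) :
    finrank F (β a b) = finrank F (β x y) := by
  obtain ⟨g, c, c0, rfl, e⟩ := h.mv' k k'
  rw [← hβ.right h k' (smul_mem _ c (mem_r _ _)) (k'.smul_right c0).ne, ← e]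
  exact finrank_eq_of_smul g (hβ.sm g x y)

theorem rkW {x y a b : V} (k : I2 F x y) (k' : I2 F a b) :
    finrank F (W F (stabilizer Γ a) (pr F a b)) = finrank F (W F (stabilizer Γ x) (pr F x y)) := by
  have := h.rk fam_Wt k k'
  rw [Wt, Wt, finrank_up k.x0, finrank_up k'.x0] at this
  omega

theorem Ct_eq {x y a b : V} (k : I2 F x y) (ha : a ∈ Ct F Γ x y) (hb : b ∈ Ct F Γ x y) (k' : I2 F a b) :
    Ct F Γ a b = Ct F Γ x y := by
  have aux : ∀ {x y a : V}, I2 F x y → a ∈ Ct F Γ x y → I2 F x a → Ct F Γ x a = Ct F Γ x y := fun k ha k' =>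
    congrArg (up _) ((h.quot_at k.x0).Cl_eq k.pr_ne ha k'.pr_ne)
  by_cases e : a ∈ span F {x}
  · have k1 : I2 F x b := ⟨k.x0, fun n => k'.ne (span_one_le (mem_one_symm e k'.x0) n)⟩
    rw [fam_Ct.line h k1 k' (one_le_two _ _ e) (mem_r _ _), aux k hb k1]
  have k1 : I2 F x a := ⟨k.x0, e⟩
  have e1 : Ct F Γ a x = Ct F Γ x y := by rw [← fam_Ct.symm h k1, aux k ha k1]
  rw [← e1] at hb ⊢
  exact aux k1.symm hb k'

theorem block {x y : V} (k : I2 F x y) : T2 F (Stab Γ (Ct F Γ x y)) (Ct F Γ x y) := by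
  refine ⟨?_, fun a b a' b' k1 k2 => ?_⟩
  · obtain ⟨c, hc⟩ := (h.quot_at k.x0).exists_good k.pr_ne
    rw [Ct, finrank_up k.x0]
    exact Nat.succ_le_succ (hc.two_le.trans (finrank_mono (Cl_closed _ _ (self_mem_Cl _))))
  have c : ∀ {a b : Ct F Γ x y}, I2 F a b → I2 F (a : V) b := fun k =>
    ⟨by simpa using k.x0, fun e => k.ne (by simpa [mem_span_singleton, Subtype.ext_iff] using e)⟩
  obtain ⟨g, t, t0, g1, g2⟩ := h.mv' (c k1) (c k2)
  refine ⟨⟨g, fun z => ?_⟩, t, Subtype.ext g1, Subtype.ext g2⟩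
  have := (fam_Ct (F := F)).sm g (a : V) b z
  rwa [g1, g2, h.Ct_eq k a'.2 (smul_mem _ t b'.2) ((c k2).smul_right t0), h.Ct_eq k a.2 b.2 (c k1)] at this

/-- The case of a `W` of rank two. -/
theorem w_two {x₀ y₀ : V} (k₀ : I2 F x₀ y₀) (w : finrank F (W F (stabilizer Γ x₀) (pr F x₀ y₀)) = 2) :
    finrank F V ≤ 3 := by
  set P := Pr.dual F Γ V
  let R : V → Du F V → Du F V → Prop := fun x f c =>
    ∀ y, (∀ z ∈ Wt F Γ x y, P.b z f = 0) ↔ P.b y f = 0 ∧ P.b y c = 0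
  have ex : ∀ x f, x ≠ 0 → f ≠ 0 → P.b x f = 0 → ∃ c, I2 F f c ∧ R x f c := fun x f hx hf e => by
    have aq := h.quot_at hx
    let Pq := P.quot (stabilizer Γ x) (span F {x})
    let f' : P.perp (span F {x}) := ⟨f, P.mem_perp_one.2 e⟩
    have f0 : f' ≠ 0 := fun n => hf (Subtype.mk.inj n)
    obtain ⟨c, hc⟩ := (aq.dual Pq).exists_good f0
    obtain ⟨u, hu⟩ := exists_i2 h.at.two hx
    have e1 := eq_of_le_of_finrank_eq (hc.span_le.trans inf_le_left)
      (by rw [hc.i2.finrank, aq.finrank_W_dual Pq hu.pr_ne f0, h.rkW k₀ hu, w])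
    refine ⟨c, ⟨hf, fun n => hc.i2.ne ?_⟩, fun y => ?_⟩
    · obtain ⟨t, ht⟩ := mem_span_singleton.1 n
      exact mem_span_singleton.2 ⟨t, Subtype.ext ht⟩
    have := aq.perp_W_iff Pq (y := pr F x y) (f := f')
    rw [← e1, Pr.mem_perp_two] at this
    refine Iff.trans ⟨fun k z hz => ?_, fun k z hz => k _ hz⟩ this
    induction z using Submodule.Quotient.induction_on
    exact k _ hz
  have sm : ∀ (g : Γ) x f c, R x f c → R (g • x) (g • f) (g • c) := fun g x f c k y => by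
    rw [P.inv'', P.inv'', ← k]
    refine ⟨fun k z hz => ?_, fun k z hz => ?_⟩
    · rw [← P.inv g]
      exact k _ (by rwa [← smul_inv_smul g y, fam_Wt.sm])
    · rw [P.inv'']
      exact k _ (by rwa [← fam_Wt.sm g, smul_inv_smul, smul_inv_smul])
  have rx : ∀ x f c, P.b x f = 0 → R x f c → P.b x c = 0 := fun x f c e k =>
    ((k x).1 fun z hz => P.mem_perp_one.2 e z (Wt_dep (mem_span_singleton_self x) hz)).2
  rw [← P.finrank_eq]
  refine Fam.tf (β := fun f c => ⨅ x, ⨅ (_ : x ≠ 0 ∧ P.b x f = 0 ∧ R x f c), LinearMap.ker (P.b x))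
    ⟨fun g f c s => ?_, fun f c => ?_, fun f c => ?_⟩ (h.dual P) fun f c k => ?_
  · simp only [mem_iInf, LinearMap.mem_ker]
    refine ⟨fun k x hx => ?_, fun k x hx => ?_⟩
    · rw [← P.inv g]
      exact k _ ⟨smul_ne_zero' g hx.1, by rw [P.inv, hx.2.1], sm g _ _ _ hx.2.2⟩
    · rw [P.inv'']
      exact k _ ⟨smul_ne_zero' _ hx.1, by rw [← P.inv'', hx.2.1], by simpa using sm g⁻¹ _ _ _ hx.2.2⟩
  · simp only [mem_iInf]
    exact fun x hx => hx.2.1
  · simp only [mem_iInf]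
    exact fun x hx => rx x f c hx.2.1 hx.2.2
  obtain ⟨z, z1, z2⟩ := P.flip.exists_sep k.ne
  rw [Pr.mem_perp_one] at z1
  change P.b z f = 0 at z1
  change P.b z c = 1 at z2
  have z0 : z ≠ 0 := by rintro rfl; simp at z2
  obtain ⟨c', k', hc'⟩ := ex z f z0 k.x0 z1
  obtain ⟨x, x0, x1, x2⟩ : ∃ x, x ≠ 0 ∧ P.b x f = 0 ∧ R x f c := by
    obtain ⟨g, t, t0, g1, g2⟩ := (h.dual P).mv' k' k
    refine ⟨g • z, smul_ne_zero' g z0, by rw [← g1, P.inv, z1], fun y => ?_⟩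
    have := sm g _ _ _ hc' y
    rwa [g1, g2, LinearMap.map_smul, smul_eq_zero, or_iff_right t0] at this
  refine ⟨P.b x, fun n => x0 (P.l x fun s => by rw [n]; rfl), fun s => ?_⟩
  simp only [mem_iInf, LinearMap.mem_ker]
  refine ⟨fun e x' ⟨a0, a1, a2⟩ => P.mem_perp_one.2 e _ (by_contra fun n => ?_), fun e => e x ⟨x0, x1, x2⟩⟩
  have sy : ∀ {a b : V}, a ≠ 0 → b ≠ 0 → P.b b f = 0 → (∀ z ∈ Wt F Γ a b, P.b z f = 0) →
      ∀ z ∈ Wt F Γ b a, P.b z f = 0 := fun {a b} a0 b0 e k => by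
    by_cases m : b ∈ span F {a}
    · exact fun z hz => P.mem_perp_one.2 e z (Wt_dep (mem_one_symm m b0) hz)
    · rwa [← fam_Wt.symm h ⟨a0, m⟩]
  obtain ⟨u, u1, u0, u2⟩ : ∃ u ∈ span F {x, x'}, u ≠ 0 ∧ P.b u c' = 0 := by
    by_cases e : P.b x c' = 0
    · exact ⟨x, mem_l _ _, x0, e⟩
    · exact ⟨x' + (-(P.b x' c' / P.b x c')) • x, add_mem (mem_r _ _) (smul_mem _ _ (mem_l _ _)),
        (I2.add ⟨x0, n⟩ _).y0, by simp [div_mul_cancel₀ _ e]⟩
  have u3 := P.mem_perp_two.2 ⟨x1, a1⟩ u u1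
  obtain ⟨d, k'', hd⟩ := ex u f u0 k.x0 u3
  have d1 := ((hd z).1 (sy z0 u0 u3 ((hc' u).2 ⟨u3, u2⟩))).2
  have d2 : ∀ y, P.b y f = 0 → P.b y c = 0 → P.b y d = 0 := fun y y1 y2 => by
    by_cases y0 : y = 0
    · simp [y0]
    obtain ⟨d', -, hd'⟩ := ex y f y0 k.x0 y1
    exact ((hd y).1 (sy y0 u0 u3 ((hd' u).2 ⟨u3, P.mem_perp_two.2
      ⟨((hd' x).1 (sy x0 y0 y1 ((x2 y).2 ⟨y1, y2⟩))).2, ((hd' x').1 (sy a0 y0 y1 ((a2 y).2 ⟨y1, y2⟩))).2⟩
      u u1⟩))).2
  refine k''.ne (P.flip.mem_of_perp fun y hy => ?_)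
  rw [Pr.mem_perp_one, Pr.flip_b] at hy
  simpa [d1] using d2 (y - P.b y c • z) (by simp [hy, z1]) (by simp [z2])

end T2

end Cfsg.Lib.CK
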