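import Cfsg.Agent.Lib.CK.H

/-! Doubly transitive linear groups (Cameron–Kantor): the step to triple transitivity. -/

set_option autoImplicit false

namespace Cfsg.Lib.CK

open Module Submodule MulAction

variable {F : Type*} [Field F] {Γ V : Type*} [Group Γ] [AddCommGroup V] [Module F V] [DistribMulAction Γ V]
  [SMulCommClass Γ F V] [Finite V] [Finite F] [Finite Γ]

namespace T2

variable (h : T2 F Γ V)
include h

theorem block_case {x y : V} (k : I2 F x y) (hT : W F (stabilizer Γ x) (pr F x y) ≠ ⊤)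
    (h3 : T3 F (Stab Γ (Ct F Γ x y)) (Ct F Γ x y))
    (ht : 5 ≤ finrank F (Ct F Γ x y) → AllTv F (Stab Γ (Ct F Γ x y)) (Ct F Γ x y)) : False := by
  have aq := h.quot_at k.x0
  have hq := finrank_Q (F := F) k.x0
  obtain ⟨c, hc⟩ := aq.exists_good k.pr_ne
  have WC : ∀ u : Q F x, W F (stabilizer Γ x) u ≤ Cl F (stabilizer Γ x) u := fun u =>
    Cl_closed u u (self_mem_Cl u)
  let x' : Ct F Γ x y := ⟨x, fam_Ct.l x y⟩
  let y' : Ct F Γ x y := ⟨y, fam_Ct.r x y⟩
  have k' : I2 F x' y' := ⟨fun e => k.x0 (Subtype.mk.inj e), fun e => k.ne (by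
    simpa [mem_span_singleton, Subtype.ext_iff] using e)⟩
  have e0 : W F (stabilizer Γ x) (pr F x y) = Cl F (stabilizer Γ x) (pr F x y) := by
    refine le_antisymm (WC _) fun z hz => or_iff_not_imp_left.2 fun n => good_of_mem ?_ n
    induction z using Submodule.Quotient.induction_on with | H z =>
    induction c using Submodule.Quotient.induction_on with | H c =>
    have gd : ∀ z : Ct F Γ x y, pr F x z ∉ span F {pr F x y} →
        Good F (stabilizer (Stab Γ (Ct F Γ x y)) x') (pr F x' y') (pr F x' z) := fun z n =>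
      good_of_mem (h3 x' y' k' ▸ mem_top) fun e => n (by
        obtain ⟨a, b, e⟩ := mem_span_pair.1 (pr_mem_one.1 e)
        exact pr_mem_one.2 (mem_span_pair.2 ⟨a, b, Subtype.mk.inj e⟩))
    have tr : ∀ {a b : Ct F Γ x y}, pr F x' a = pr F x' b → pr F x a = pr F x b := fun e => by
      rw [Submodule.Quotient.eq] at e ⊢
      simpa [mem_span_singleton, Subtype.ext_iff] using e
    obtain ⟨⟨⟨g, hg⟩, g0⟩, t, t0, g1, g2⟩ := ((h.block k).quot_at k'.x0).good_trans
      (gd ⟨c, WC _ hc.mem⟩ hc.i2.ne) (gd ⟨z, hz⟩ n)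
    have := (fam_Wt.sm g x y c).2 hc.mem
    rw [show g • x = x from Subtype.mk.inj g0] at this
    change pr F x (g • c) ∈ W F (stabilizer Γ x) (pr F x (g • y)) at this
    rwa [show pr F x (g • y) = _ from tr g1, show pr F x (g • c) = t • pr F x z from tr g2,
      smul_mem_iff _ t0] at this
  have e1 : ∀ u : Q F x, u ≠ 0 → W F (stabilizer Γ x) u = Cl F (stabilizer Γ x) u := fun u u0 => by
    obtain ⟨g, rfl⟩ := aq.trans k.pr_ne u0
    ext z
    rw [← smul_inv_smul g z, smul_mem_W, e0]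
    exact (iso_lin g).mem_Cl.symm
  set w := finrank F (W F (stabilizer Γ x) (pr F x y)) with hw
  have hs : Spread (W F (stabilizer Γ x) : Q F x → _) w := ⟨self_mem_W, fun {u v} m v0 => by
      have u0 : u ≠ 0 := by rintro rfl; rw [W_zero] at m; exact v0 m
      rw [e1 _ v0, e1 _ u0, aq.Cl_eq u0 (WC _ m) v0], W_zero,
    fun u v => aq.W_le_sup (add_mem (mem_l _ _) (mem_r _ _)), fun u u0 => aq.finrank_W u0 k.pr_ne⟩
  have lt := finrank_lt hT
  have w2 := hc.two_le
  have rC : finrank F (Ct F Γ x y) = w + 1 := by rw [Ct, finrank_up k.x0, ← e0]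
  by_cases w3 : w = 2
  · have := h.w_two k w3
    omega
  obtain ⟨z, -, hz⟩ := SetLike.exists_of_lt (lt_top_iff_ne_top.2 fun e : Ct F Γ x y = ⊤ => by
    rw [e, finrank_top] at rC; omega)
  have kz : I2 F y z := ⟨k.y0, fun e => hz (span_one_le (fam_Ct.r x y) e)⟩
  have xz : x ∉ Ct F Γ y z := fun e => hz (h.Ct_eq kz e (fam_Ct.l _ _) k ▸ fam_Ct.r _ _)
  have big := hs.big w2 (Y := (Ct F Γ y z).map (span F {x}).mkQ) (by
    rw [← rC, ← h.rk fam_Ct k kz, ← finrank_map_pr x (Ct F Γ y z),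
      ((disjoint_span_singleton' k.x0).2 xz).eq_bot, finrank_bot, add_zero]) fun u u0 => by
    induction u using Submodule.Quotient.induction_on with | H u =>
    rcases eq_or_ne (W F (stabilizer Γ x) (pr F x u) ⊓ (Ct F Γ y z).map (span F {x}).mkQ) ⊥ with e | e
    · rw [e, finrank_bot]; omega
    obtain ⟨_, ⟨a1, a, a2, rfl⟩, a0⟩ := (Submodule.ne_bot_iff _).1 e
    refine (finrank_mono ?_).trans (finrank_span_singleton a0).le
    rintro _ ⟨b1, b, b2, rfl⟩
    by_contra n
    have kab : I2 F a b := ⟨fun e => a0 (by rw [e, map_zero]), fun e => n (pr_mem_one.2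
      (span_one_le (mem_r _ _) e))⟩
    rw [← h.Ct_eq kz a2 b2 kab, h.Ct_eq (I2.of_pr k.x0 u0) (WC _ a1) (WC _ b1) kab] at xz
    exact xz (fam_Ct.l _ _)
  have le := hc.span_le.trans inf_le_left
  obtain ⟨n, n1, n2⟩ := SetLike.exists_of_lt (lt_of_le_of_ne le fun e => w3 (by rw [hw, ← e, hc.i2.finrank]))
  obtain ⟨g, g1, g2, g3, g4⟩ : ∃ g : stabilizer Γ x, g • pr F x y = pr F x y ∧ g • c = c ∧ g • n = n + pr F x y ∧
      ∀ a ∈ W F (stabilizer Γ x) (pr F x y), g • a - a ∈ span F {pr F x y} := by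
    by_cases w4 : w = 3
    · obtain ⟨g, g1, g2, g3⟩ := hc.mv n n2 _ (mem_l _ _)
      refine ⟨g, g1, g2, g3, fun a ha => ?_⟩
      obtain ⟨t, e⟩ := mem_sup_one.1 ((cod1 le (by rw [hc.i2.finrank, ← hw, w4]) n1 n2).ge ha)
      have := fix_two g1 g2 e
      rw [smul_sub, smul_comm, g3, sub_eq_iff_eq_add] at this
      exact mem_span_singleton.2 ⟨t, by rw [this]; module⟩
    obtain ⟨ψ, p1, p2⟩ := (Pr.dual F (stabilizer Γ x) (Q F x)).exists_sep n2
    rw [Pr.mem_perp_two] at p1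
    obtain ⟨⟨g, hg'⟩, hg⟩ := ht (by omega)
      ((show Q F x →ₗ[F] F from ψ) ∘ₗ (span F {x}).mkQ ∘ₗ (Ct F Γ x y).subtype) y' p1.1
    have gx : g • x = x := by
      refine (Subtype.mk.inj (hg x')).trans ?_
      change x + (show Q F x →ₗ[F] F from ψ) (pr F x x) • y = x
      rw [pr_self, map_zero, zero_smul, add_zero]
    have e : ∀ a ∈ W F (stabilizer Γ x) (pr F x y), (⟨g, gx⟩ : stabilizer Γ x) • a =
        a + (Pr.dual F (stabilizer Γ x) (Q F x)).b a ψ • pr F x y := fun a ha => by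
      induction a using Submodule.Quotient.induction_on with | H a =>
      rw [e0] at ha
      rw [smul_mk, show g • a = _ from Subtype.mk.inj (hg ⟨a, ha⟩)]
      rfl
    exact ⟨⟨g, gx⟩, by rw [e _ (self_mem_W _), p1.1, zero_smul, add_zero], by
      rw [e _ hc.mem, p1.2, zero_smul, add_zero], by rw [e _ n1, p2, one_smul], fun a ha => by
      rw [e a ha, add_sub_cancel_left]; exact smul_mem _ _ (mem_span_singleton_self _)⟩
  refine hs.no_tv hc.i2 hc.mem (fun u e => ?_) (lin F _ g) (fun _ _ => smul_mem_W g) g1 g2 g4 n1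
    (sub_eq_of_eq_add' g3) k.pr_ne
  have := finrank_add_le_finrank_add_finrank (W F (stabilizer Γ x) (pr F x y)) (W F (stabilizer Γ x) u)
  rw [e, finrank_top] at this
  by_cases u0 : u = 0
  · rw [u0, W_zero, finrank_bot] at this; omega
  · rw [hs.rk u u0] at this; omega

theorem conn_case {x y : V} (k : I2 F x y) (hT : W F (stabilizer Γ x) (pr F x y) ≠ ⊤)
    (hC : Ct F Γ x y = ⊤) : False := by
  have hq := finrank_Q (F := F) k.x0
  have lt := finrank_lt hT
  have aq := h.quot_at k.x0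
  obtain ⟨c₀, hc₀⟩ := aq.exists_good k.pr_ne
  have w2 := hc₀.two_le
  have hcl : ∀ {a : V}, a ≠ 0 → ∀ X : Submodule F (Q F a), Closed (stabilizer Γ a) X → X ≠ ⊥ → X = ⊤ := by
    intro a ha X h1 h2
    obtain ⟨b, hb, b0⟩ := (Submodule.ne_bot_iff _).1 h2
    induction b using Submodule.Quotient.induction_on with | H b =>
    exact eq_top_iff.2 ((up_eq_top.1 (eq_top_of_finrank_eq ((h.rk fam_Ct k (I2.of_pr ha b0)).trans
      (by rw [hC, finrank_top])))).ge.trans (Cl_le hb h1))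
  have j : ∀ {a b : V}, I2 F a b → J1 F (stabilizer Γ a) (Q F a) := fun {a b} k' =>
    (h.quot_at k'.x0).j1 (hcl k'.x0) k'.pr_ne fun e => by
      have := h.rkW k k'
      have := finrank_Q (F := F) k'.x0
      rw [e, finrank_top] at *
      omega
  by_cases hN : finrank F (W F (stabilizer Γ x) (pr F x y)) + 1 = finrank F (Q F x)
  · have := fam_Wt.tf h fun a b k' => by
      have r := h.rk fam_Wt k k'
      rw [Wt.eq_1 F Γ x, finrank_up k.x0] at r
      obtain ⟨u, -, hu⟩ := SetLike.exists_of_lt (lt_top_iff_ne_top.2 fun e : Wt F Γ a b = ⊤ => by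
        rw [e, finrank_top] at r; omega)
      obtain ⟨φ, p1, p2⟩ := (Pr.dual F Γ V).exists_sep hu
      refine ⟨φ, fun e => zero_ne_one ((DFunLike.congr_fun e u).symm.trans p2), fun z => ⟨fun e => ?_, p1 z⟩⟩
      obtain ⟨t, ht⟩ := mem_sup_one.1 ((cod1 le_top (by rw [finrank_top]; omega) mem_top hu).ge (mem_top (x := z)))
      have := p1 _ ht
      rw [map_sub, map_smul, LinearMap.sub_apply, LinearMap.smul_apply, p2,
        show (Pr.dual F Γ V).b z φ = 0 from e] at this
      simpa [show t = 0 by simpa using this] using ht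
    omega
  have w3 := (j k).three (hcl k.x0) hN hc₀
  have inter : ∀ {a b c v : V}, I2 F a b → c ∉ span F {a, b} → c ∈ Wt F Γ a b → v ∈ Wt F Γ c a →
      v ∈ Wt F Γ c b → v ∈ Wt F Γ a b := by
    intro a b c v k' n m v1 v2
    obtain ⟨k1, n1⟩ := k'.swap23 n
    have g := good_pr (span_two_comm (F := F) a c ▸ n1) (fam_Wt.symm h k1 ▸ fam_Wt.s23 h k' n m)
    have r := (j k1.symm).cod _ _ g
    rw [h.rkW k k1.symm, w3] at r
    refine sup_le (span_one_le m) (span_two_le (fam_Wt.l _ _) (fam_Wt.r _ _)) (pr_mem_two.1 ?_)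
    rw [eq_of_le_of_finrank_eq g.span_le (by rw [g.i2.finrank]; omega)]
    exact ⟨v1, v2⟩
  have s : ∀ {b c : Q F x}, Good F (stabilizer Γ x) b c → finrank F (W2 F (stabilizer Γ x) b) = 5 ∧
      ∀ v ∈ W2 F (stabilizer Γ x) b, ∃ c ∈ W F (stabilizer Γ x) b, v ∈ W F (stabilizer Γ x) c := fun g =>
    (j k).W2_spec (hcl k.x0) (by rwa [aq.finrank_W g.i2.x0 k.pr_ne]) g
  have key : ∀ b c : Q F x, Good F (stabilizer Γ x) b c →
      W2 F (stabilizer Γ x) c = W2 F (stabilizer Γ x) b := by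
    intro b c g
    induction b using Submodule.Quotient.induction_on with | H b =>
    induction c using Submodule.Quotient.induction_on with | H c =>
    have kb := I2.of_pr k.x0 g.i2.x0
    have kc := I2.of_pr k.x0 g.i2.y0
    have n' : c ∉ span F {b, x} := span_two_comm (F := F) x b ▸ pr_mem_one.not.1 g.i2.ne
    have m' : c ∈ Wt F Γ b x := fam_Wt.symm h kb ▸ g.mem
    obtain ⟨kbc, -⟩ := kb.symm.swap23 n'
    obtain ⟨v, v1, v2⟩ := (j kb.symm).exists_out (good_pr n' m')
    induction v using Submodule.Quotient.induction_on with | H v =>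
    change v ∈ Wt F Γ b c at v1
    change v ∉ Wt F Γ b x at v2
    rw [← fam_Wt.symm h kb] at v2
    have nv : pr F x v ∉ W F (stabilizer Γ x) (pr F x b) ⊔ W F (stabilizer Γ x) (pr F x c) := fun t => by
      obtain ⟨t, ht⟩ := ((j k).tri g t).resolve_left v2
      have g' : Good F (stabilizer Γ x) (pr F x b) (pr F x (c + t • b)) := g.add t
      refine v2 (inter kb (pr_mem_one.not.1 g'.i2.ne) g'.mem (fam_Wt.symm h (I2.of_pr k.x0 g'.i2.y0) ▸ ht) ?_)
      rwa [fam_Wt.line h kbc (kbc.add t).symm (add_mem (mem_r _ _) (smul_mem _ _ (mem_l _ _))) (mem_l _ _)]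
    set X := W F (stabilizer Γ x) (pr F x b) ⊔ W F (stabilizer Γ x) (pr F x c) ⊔ span F {pr F x v} with hX
    have r : finrank F X = 5 := by rw [hX, finrank_sup_span_singleton nv, (j k).sup_rank g, h.rkW k kb, w3]
    have l1 : X ≤ W2 F (stabilizer Γ x) (pr F x b) := sup_le (sup_le (W_le_W2 (self_mem_W _)) (W_le_W2 g.mem))
      (span_one_le (by
        change v ∈ W2t F Γ x b
        rw [fam_W2t.symm h kb]
        exact W_le_W2 m' v1))
    have l2 : X ≤ W2 F (stabilizer Γ x) (pr F x c) :=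
      sup_le (sup_le (W_le_W2 g.symm.mem) (W_le_W2 (self_mem_W _))) (span_one_le (by
        change v ∈ W2t F Γ x c
        rw [fam_W2t.symm h kc]
        rw [fam_Wt.symm h kbc] at v1
        exact W_le_W2 (show b ∈ Wt F Γ c x from fam_Wt.symm h kc ▸ g.symm.mem) v1))
    rw [← eq_of_le_of_finrank_eq l1 (r.trans (s g).1.symm), ← eq_of_le_of_finrank_eq l2 (r.trans (s g.symm).1.symm)]
  obtain ⟨s1, s2⟩ := s hc₀
  have top := hcl k.x0 (W2 F (stabilizer Γ x) (pr F x y)) (fun u hu => by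
    obtain ⟨c, c1 | c1, c2⟩ := s2 u hu
    exacts [W_le_W2 (W_of_mem_one c1 c2), (W_le_W2 c2).trans (key _ _ c1).le])
    (fun e => by rw [e, finrank_bot] at s1; omega)
  rw [top, finrank_top] at s1
  have r3 : ∀ u : Q F x, u ≠ 0 → finrank F (W F (stabilizer Γ x) u) = 3 := fun u u0 => by
    rw [aq.finrank_W u0 k.pr_ne, w3]
  refine no_pentagon s1 (W F (stabilizer Γ x)) self_mem_W (fun _ _ => W_symm) r3 (fun _ _ => W_of_mem_one)
    (fun u v u0 h1 h2 => ?_) fun u v u0 h1 => ?_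
  · have := (j k).cod _ _ (good_of_mem h1 h2)
    rw [r3 u u0] at this
    omega
  obtain ⟨c', g⟩ := aq.exists_good u0
  obtain ⟨c, c1, c2⟩ := (s g).2 v (eq_top_of_finrank_eq ((s g).1.trans s1.symm) ▸ mem_top)
  have g' := good_of_mem c1 fun e => h1 (W_of_mem_one e c2)
  rw [show W F _ u ⊓ W F _ v = span F {c} from le_antisymm (fun d hd => (j k).mu (hcl k.x0)
    (by rw [r3 u u0, s1]; omega) g' c2 h1 hd.1 hd.2)
    (span_one_le ⟨c1, W_symm (ne_zero_of_notMem h1) c2⟩), finrank_span_singleton g'.i2.y0]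

end T2

end Cfsg.Lib.CK
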