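import Cfsg.Agent.Lib.CK.I

/-! Doubly transitive linear groups (Cameron–Kantor): transvections and the main induction. -/

set_option autoImplicit false

namespace Cfsg.Lib.CK

open Module Submodule MulAction

universe u v

variable {F : Type*} [Field F] {Γ V : Type*} [Group Γ] [AddCommGroup V] [Module F V] [DistribMulAction Γ V]
  [SMulCommClass Γ F V] [Finite V] [Finite F]

/-- A nontrivial transvection is induced. -/
def HasTv (F Γ V : Type*) [Field F] [Group Γ] [AddCommGroup V] [Module F V] [DistribMulAction Γ V] : Prop :=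
  ∃ (g : Γ) (φ : V →ₗ[F] F) (c : V), φ ≠ 0 ∧ c ≠ 0 ∧ φ c = 0 ∧ ∀ a, g • a = a + φ a • c

theorem T2.allTv [Finite Γ] (h : T2 F Γ V) (t : HasTv F Γ V) : AllTv F Γ V := by
  obtain ⟨g, φ₀, c₀, p0, c0, e0, hg⟩ := t
  intro φ c e
  by_cases n : φ = 0 ∨ c = 0
  · exact ⟨1, fun a => by rcases n with rfl | rfl <;> simp⟩
  rw [not_or] at n
  obtain ⟨k, k1, k2⟩ := h.flag (Pr.dual F Γ V) (f := φ₀) (f' := φ) c0 n.2 p0 n.1 e0 e
  refine ⟨k * g * k⁻¹, fun a => ?_⟩
  rw [mul_smul, mul_smul, hg, smul_add, smul_inv_smul, smul_comm, k1,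
    show φ₀ (k⁻¹ • a) = φ a from congrArg ((Pr.dual F Γ V).b a) k2]

theorem exists_coef {g : Γ} {x : V} (hx : x ≠ 0) (η : V →ₗ[F] V) (h : ∀ a, g • a - η a ∈ span F {x}) :
    ∃ l : V →ₗ[F] F, ∀ a, g • a = η a + l a • x := by
  obtain ⟨f, -, hf⟩ := (Pr.dual F Γ V).exists_sep (L := ⊥) (v := x) (by simpa using hx)
  refine ⟨(show V →ₗ[F] F from f) ∘ₗ ((lin F V g : V →ₗ[F] V) - η), fun a => ?_⟩
  change _ = _ + (show V →ₗ[F] F from f) (g • a - η a) • x
  obtain ⟨t, e⟩ := mem_span_singleton.1 (h a)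
  rw [← e, LinearMap.map_smul, show (show V →ₗ[F] F from f) x = 1 from hf, smul_eq_mul, mul_one, e, add_sub_cancel]

theorem ker_triv (n : ¬ HasTv F Γ V) {g : Γ} {x : V} (hx : x ≠ 0) (g1 : g • x = x)
    (h : ∀ a, g • a - a ∈ span F {x}) (a : V) : g • a = a := by
  obtain ⟨l, hl⟩ := exists_coef hx LinearMap.id h
  have e : l = 0 := by
    by_contra e
    refine n ⟨g, l, x, e, hx, ?_, hl⟩
    have := hl x
    rw [g1, LinearMap.id_apply, left_eq_add, smul_eq_zero] at this
    exact this.resolve_right hx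
  rw [hl, e]; simp

theorem hasTv_of_quot (hn : 5 ≤ finrank F V) {x : V} (hx : x ≠ 0) (t : AllTv F (stabilizer Γ x) (Q F x)) :
    HasTv F Γ V := by
  by_contra n
  set P := Pr.dual F Γ V
  have lift : ∀ (f : V →ₗ[F] F) (c : V), f x = 0 → f c = 0 → ∃ (g : Γ) (l : V →ₗ[F] F), l x = 0 ∧
      ∀ a, g • a = a + f a • c + l a • x := by
    intro f c e1 e2
    obtain ⟨⟨g, g1⟩, hg⟩ := t ((span F {x}).liftQ f (span_one_le e1)) (pr F x c) e2
    obtain ⟨l, hl⟩ := exists_coef (g := g) hx (LinearMap.id + f.smulRight c) fun a =>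
      (Submodule.Quotient.eq (span F {x})).1 ((hg (pr F x a)).trans (by
        rw [liftQ_apply, ← Submodule.Quotient.mk_smul, ← Submodule.Quotient.mk_add]; rfl))
    refine ⟨g, l, ?_, hl⟩
    have := hl x
    rw [mem_stabilizer_iff.1 g1] at this
    simpa [e1, hx] using this
  have big : ∀ (a b c : V) (f : V →ₗ[F] F), ∃ f' : V →ₗ[F] F, f' a = 0 ∧ f' b = 0 ∧ f' c = 0 ∧
      ∀ t : F, t • f ≠ f' := by
    intro a b c f
    by_contra! k
    have r : ∀ a : V, finrank F (span F {a}) ≤ 1 := fun a => finrank_le_one ⟨a, mem_span_singleton_self _⟩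
      fun w => (mem_span_singleton.1 w.2).imp fun _ e => Subtype.ext e
    have r1 := P.finrank_perp (span F {a} ⊔ span F {b, c})
    have r2 := (finrank_mono (fun f' hf' => mem_span_singleton.2 (k f' (hf' a (mem_sup_left
      (mem_span_singleton_self a))) (hf' b (mem_sup_right (mem_l _ _))) (hf' c (mem_sup_right (mem_r _ _)))) :
      P.perp (span F {a} ⊔ span F {b, c}) ≤ span F {show Du F V from f})).trans
      (finrank_le_one ⟨f, mem_span_singleton_self _⟩ fun w =>
        (mem_span_singleton.1 w.2).imp fun _ e => Subtype.ext e)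
    have r3 := finrank_add_le_finrank_add_finrank (span F {a}) (span F {b, c})
    have r4 := finrank_add_le_finrank_add_finrank (span F {b}) (span F {c})
    rw [← span_two_sup] at r4
    have := r a
    have := r b
    have := r c
    omega
  obtain ⟨c, hc⟩ := exists_i2 (F := F) (by omega) hx
  obtain ⟨f, fx, fc, -, f0⟩ := big x c c 0
  obtain ⟨g, l, lx, hg⟩ := lift f c fx fc
  obtain ⟨a, a1, a2⟩ : ∃ a, f a = 0 ∧ l a ≠ 0 := by
    by_contra! k
    obtain ⟨s, rfl⟩ := exists_smul_of_ker k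
    exact n ⟨g, f, c + s • x, by simpa using (f0 0).symm, (hc.add s).y0, by simp [fx, fc], fun a => by
      rw [hg, LinearMap.smul_apply, smul_eq_mul]; module⟩
  obtain ⟨f', fa', fx', fc', p1⟩ := big a x c f
  obtain ⟨g', l', lx', hg'⟩ := lift f' a fx' fa'
  have gx : g • x = x := by rw [hg, fx, lx]; simp
  have gx' : g' • x = x := by rw [hg', fx', lx']; simp
  have d : ∀ b, g • g' • b = g' • g • b + (f' b * l a - f b * l' c) • x := fun b => by
    rw [hg (g' • b), hg' (g • b), hg, hg']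
    simp only [map_add, map_smul, fx, fx', fc', lx, lx', a1, smul_eq_mul]
    module
  refine p1 (l' c / l a) (LinearMap.ext fun b => ?_)
  have := ker_triv n (g := (g' * g)⁻¹ * (g * g')) hx (by simp [mul_smul, gx, gx', inv_smul_eq_iff])
    (fun b => by
      rw [mul_smul, mul_smul g, d, smul_add, ← mul_smul g', inv_smul_smul, add_sub_cancel_left, smul_comm,
        show (g' * g)⁻¹ • x = x by rw [inv_smul_eq_iff, mul_smul, gx, gx']]
      exact smul_mem _ _ (mem_span_singleton_self x)) b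
  rw [mul_smul, inv_smul_eq_iff, mul_smul, mul_smul, d, add_eq_left, smul_eq_zero, or_iff_left hx,
    sub_eq_zero] at this
  rw [LinearMap.smul_apply, smul_eq_mul, div_mul_eq_mul_div, div_eq_iff a2, this, mul_comm]

variable [Finite Γ]

theorem T2.five (h : T2 F Γ V) (hn : finrank F V = 5) {x : V} (hx : x ≠ 0) (n : ¬ HasTv F Γ V)
    (n' : ¬ HasTv F (stabilizer Γ x) (Q F x)) : False := by
  obtain ⟨p, k, hp, _, hq⟩ := exists_char F
  obtain ⟨S⟩ : Nonempty (Sylow p (stabilizer Γ x)) := inferInstance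
  have r := finrank_Q (F := F) hx
  obtain ⟨y, y0, hy⟩ := exists_fixed (A := Q F x) hq S.2 (by omega)
  have r' := finrank_Q (F := F) y0
  let ι : S →* stabilizer (stabilizer Γ x) y := S.1.subtype.codRestrict _ hy
  let ρ := (DistribMulAction.toModuleAut F (Q F y) (S := stabilizer (stabilizer Γ x) y)).comp ι
  letI := antiAct (Pr.dual F Γ V) x
  obtain ⟨f, -, hf⟩ := (Pr.dual F Γ V).exists_sep (L := ⊥) (v := x) (by simpa using hx)
  let f' : {f // (Pr.dual F Γ V).b x f = 1} := ⟨f, hf⟩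
  have le : ρ.ker ≤ stabilizer S f' := fun g hg => by
    have k1 := ker_triv n' (g := (g : stabilizer Γ x)) y0 (hy g) fun a =>
      (Submodule.Quotient.eq _).1 (DFunLike.congr_fun hg (pr F y a))
    have k2 := ker_triv n (g := ((g : stabilizer Γ x) : Γ)) hx g.1.2 fun a =>
      (Submodule.Quotient.eq _).1 (k1 (pr F x a))
    refine Subtype.ext (LinearMap.ext fun a => ?_)
    change (show V →ₗ[F] F from f) (((g : stabilizer Γ x) : Γ)⁻¹ • a) = _
    rw [inv_smul_eq_iff.2 (k2 a).symm]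
  have i1 : (stabilizer S f').index = Nat.card F ^ 4 := by
    rw [index_stabilizer, show orbit S f' = Set.univ from Set.eq_univ_of_forall fun f₁ => by
      obtain ⟨g, g1, g2⟩ := h.at.sylow (Pr.dual F Γ V) hq S hf f₁.2
      exact ⟨⟨g, g1⟩, Subtype.ext g2⟩, Set.ncard_univ, card_affine _ hx, hn]
  have := (Subgroup.index_dvd_of_le le).trans (Subgroup.index_ker ρ ▸ ρ.range.card_subgroup_dvd_card)
  have _ := Fintype.ofFinite F
  have q2 := two_le_card F
  rw [i1, ← Nat.card_congr ((Matrix.GeneralLinearGroup.toLin' (finBasisOfFinrankEq F (Q F y)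
    (show _ = 3 by omega))).trans (LinearMap.GeneralLinearGroup.generalLinearEquiv F _)).toEquiv,
    Matrix.card_GL_field, ← Nat.card_eq_fintype_card] at this
  generalize Nat.card F = q at this q2
  rw [show ∏ i : Fin 3, (q ^ 3 - q ^ (i : ℕ)) =
      q ^ 3 * ((q ^ (2 + 1) - 1) * ((q ^ (1 + 1) - 1) * (q ^ (0 + 1) - 1))) by
    simp only [Fin.prod_univ_three, Fin.val_zero, Fin.val_one, Fin.val_two]
    zify [Nat.one_le_pow _ _ (show 0 < q by omega), Nat.pow_le_pow_right (show 0 < q by omega) (show 1 ≤ 3 by omega),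
      Nat.pow_le_pow_right (show 0 < q by omega) (show 2 ≤ 3 by omega),
      Nat.pow_le_pow_right (show 0 < q by omega) (show 0 ≤ 3 by omega)]
    ring, pow_succ q 3, Nat.mul_dvd_mul_iff_left (by positivity)] at this
  have := ((cop q _ (by omega)).mul_right ((cop q _ (by omega)).mul_right (cop q _ (by omega)))).eq_one_of_dvd this
  omega

/-- Cameron–Kantor. -/
theorem ck_main (N : ℕ) : ∀ (Γ : Type v) (V : Type u) [Group Γ] [AddCommGroup V] [Module F V]
    [DistribMulAction Γ V] [SMulCommClass Γ F V] [Finite V] [Finite Γ], finrank F V = N → T2 F Γ V →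
      T3 F Γ V ∧ (5 ≤ finrank F V → AllTv F Γ V) := by
  induction N using Nat.strong_induction_on with | h N ih =>
  intro Γ V _ _ _ _ _ _ _ hN h
  have h3 : T3 F Γ V := fun x y k => by_contra fun hT => by
    by_cases hC : Ct F Γ x y = ⊤
    · exact h.conn_case k hT hC
    · obtain ⟨a, b⟩ := ih _ (hN ▸ finrank_lt hC) _ _ rfl (h.block k)
      exact h.block_case k hT a b
  refine ⟨h3, fun h5 => h.allTv (by_contra fun nt => ?_)⟩
  obtain ⟨c, hc⟩ := h.at.exists_ne
  have hq := finrank_Q (F := F) hc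
  have q2 := (h.quot_at hc).t2 (by omega) fun y hy => by
    induction y using Submodule.Quotient.induction_on
    exact h3 _ _ (I2.of_pr hc hy)
  refine nt (hasTv_of_quot h5 hc ?_)
  by_cases e5 : finrank F V = 5
  · exact q2.allTv (by_contra fun n' => h.five e5 hc nt n')
  · exact (ih _ (by omega) _ _ rfl q2).2 (by omega)

end Cfsg.Lib.CK
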