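import Cfsg.Agent.Lib.CK.J
import Cfsg.Agent.Lib.Linear.Simple

/-! Cameron–Kantor: a linear group that is 2-transitive on the points of a projective space of
vector dimension at least 5 over a finite field contains the special linear group. -/

namespace Cfsg.Lib.CK

open Module

/-- A subgroup of `GL(V)` containing all transvections contains `SL(V)`. -/
theorem mem_of_transvections {F V : Type*} [Field F] [AddCommGroup V] [Module F V]
    [FiniteDimensional F V] (M : Subgroup (V ≃ₗ[F] V))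
    (h : ∀ (φ : V →ₗ[F] F) (c : V), φ c = 0 → ∃ g ∈ M, ∀ a, g a = a + φ a • c)
    (g : V ≃ₗ[F] V) (hg : LinearMap.det (g : V →ₗ[F] V) = 1) : g ∈ M := by
  let b := finBasis F V
  let ψ := ((Matrix.GeneralLinearGroup.toLin' b).trans
    (LinearMap.GeneralLinearGroup.generalLinearEquiv F V)).toMonoidHom.comp Matrix.SpecialLinearGroup.toGL
  have hψ : ∀ A, (ψ A : V →ₗ[F] V) = Matrix.toLin b b A := fun A => rfl
  have := Linear.eq_top_of_transvection_mem (M.comap ψ) fun i j hij c => by
    obtain ⟨t, t1, t2⟩ := h (c • b.coord j) (b i) (by simp [hij])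
    have : ψ (Matrix.SpecialLinearGroup.transvection hij c) = t :=
      LinearEquiv.toLinearMap_injective (b.ext fun k => by
        rw [hψ, LinearEquiv.coe_coe, t2, Matrix.toLin_self, Matrix.SpecialLinearGroup.transvection_coe]
        simp [add_smul, Finset.sum_add_distrib, Matrix.one_apply, Matrix.single_apply, ite_and,
          Finsupp.single_apply, eq_comm])
    rwa [Subgroup.mem_comap, this]
  have e : ψ ⟨LinearMap.toMatrix b b g, by rw [LinearMap.det_toMatrix, hg]⟩ = g :=
    LinearEquiv.toLinearMap_injective ((hψ _).trans (Matrix.toLin_toMatrix _ _ _))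
  exact e ▸ Subgroup.mem_comap.1 (this.ge (Subgroup.mem_top _))

/-- A subgroup of `GL(V)`, `dim V ≥ 5`, that is 2-transitive on the points (1-spaces) of `V`
contains `SL(V)`. -/
theorem ck1 {F V : Type*} [Field F] [Finite F] [AddCommGroup V] [Module F V]
    [FiniteDimensional F V] (hn : 5 ≤ finrank F V) (M : Subgroup (V ≃ₗ[F] V))
    (h : ∀ v w v' w' : V, LinearIndependent F ![v, w] → LinearIndependent F ![v', w'] →
      ∃ g ∈ M, ∃ a b : F, g v = a • v' ∧ g w = b • w')
    (g : V ≃ₗ[F] V) (hg : LinearMap.det (g : V →ₗ[F] V) = 1) : g ∈ M := by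
  have : Finite V := Module.finite_of_finite F
  have : Finite (V ≃ₗ[F] V) := DFunLike.finite _
  let N : Subgroup (V ≃ₗ[F] V) :=
    { carrier := {e | ∃ m ∈ M, ∃ s : F, s ≠ 0 ∧ ∀ a, m a = s • e a}
      one_mem' := ⟨1, one_mem _, 1, one_ne_zero, by simp⟩
      mul_mem' := fun ⟨m, h1, s, s0, e⟩ ⟨m', h1', s', s0', e'⟩ =>
        ⟨m * m', mul_mem h1 h1', s * s', mul_ne_zero s0 s0', fun a => by simp [e, e', mul_smul]⟩
      inv_mem' := fun {x} ⟨m, h1, s, s0, e⟩ => ⟨m⁻¹, inv_mem h1, s⁻¹, inv_ne_zero s0, fun a =>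
        m.injective (by rw [← LinearEquiv.mul_apply, mul_inv_cancel, e]; simp [s0])⟩ }
  have li : ∀ {x y : V}, I2 F x y → LinearIndependent F ![x, y] := fun k =>
    (LinearIndependent.pair_iff' k.x0).2 fun a e => k.ne (Submodule.mem_span_singleton.2 ⟨a, e⟩)
  have t := (ck_main _ N V rfl ⟨by omega, fun x y x' y' k k' => by
    obtain ⟨m, h1, a, b, e1, e2⟩ := h x y x' y' (li k) (li k')
    have a0 : a ≠ 0 := left_ne_zero_of_smul (e1 ▸ m.map_ne_zero_iff.2 k.x0)
    refine ⟨⟨m.trans (LinearEquiv.smulOfNeZero F V a⁻¹ (inv_ne_zero a0)), m, h1, a, a0, fun v => by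
      simp [a0]⟩, b * a⁻¹, ?_, ?_⟩ <;> simp [Subgroup.smul_def, e1, e2, a0, mul_smul]⟩).2 hn
  refine mem_of_transvections M (fun φ c e => ?_) g hg
  obtain ⟨⟨τ, m, h1, s, s0, hm⟩, hτ⟩ := t φ c e
  change ∀ a, τ a = _ at hτ
  have pw : ∀ (k : ℕ) a, (m ^ k) a = s ^ k • (a + (k * φ a) • c) := fun k => by
    induction k with
    | zero => simp
    | succ k ih =>
      intro a
      rw [pow_succ', LinearEquiv.mul_apply, ih, hm, hτ]
      simp only [map_smul, map_add, e, smul_eq_mul]
      push_cast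
      module
  have _ := Fintype.ofFinite F
  refine ⟨(m ^ Fintype.card F)⁻¹ * m, mul_mem (inv_mem (pow_mem h1 _)) h1, fun a => ?_⟩
  rw [LinearEquiv.mul_apply, LinearEquiv.coe_inv, LinearEquiv.symm_apply_eq, pw, FiniteField.cast_card_eq_zero,
    FiniteField.pow_card, hm, hτ]
  simp

end Cfsg.Lib.CK
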