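import Mathlib

/-! Reduced monomials in the variables `x ^ p ^ i` and the carry process. -/

set_option autoImplicit false

namespace Cfsg.Lib.CKS

open Finsupp MvPolynomial Finset

variable {n : ℕ} [NeZero n] {p : ℕ}

/-- the exponent of `x` belonging to a monomial in the variables `x ^ p ^ i` -/
def wt (p : ℕ) (m : ZMod n →₀ ℕ) : ℕ := ∑ i, m i * p ^ i.val

/-- all digits below `p` -/
def Red (p : ℕ) (m : ZMod n →₀ ℕ) : Prop := ∀ i, m i < p

theorem wt_add (a b : ZMod n →₀ ℕ) : wt p (a + b) = wt p a + wt p b := by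
  simp [wt, add_mul, sum_add_distrib]

theorem wt_single (i : ZMod n) (k : ℕ) : wt p (single i k) = k * p ^ i.val := by
  classical
  unfold wt
  rw [Finset.sum_eq_single i]
  · simp
  · intro j _ hj; simp [Finsupp.single_apply, hj.symm]
  · simp

theorem wt_digits {a b : ZMod n →₀ ℕ} (ha : Red p a) (hb : Red p b) :
    wt p a < p ^ n ∧ (wt p a = wt p b → a = b) := by
  obtain ⟨k, rfl⟩ : ∃ k, n = k + 1 := ⟨n - 1, by have := NeZero.pos n; omega⟩
  let fa : Fin (k + 1) → Fin p := fun i => ⟨a i, ha i⟩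
  let fb : Fin (k + 1) → Fin p := fun i => ⟨b i, hb i⟩
  have e1 : wt p a = (finFunctionFinEquiv fa : ℕ) := by rw [finFunctionFinEquiv_apply]; rfl
  have e2 : wt p b = (finFunctionFinEquiv fb : ℕ) := by rw [finFunctionFinEquiv_apply]; rfl
  refine ⟨e1 ▸ (finFunctionFinEquiv fa).2, fun h => ?_⟩
  rw [e1, e2] at h
  have := finFunctionFinEquiv.injective (Fin.ext h)
  ext i
  exact congrArg Fin.val (congrFun this i)

theorem wt_pos (hp : 0 < p) {a : ZMod n →₀ ℕ} (ha : a ≠ 0) : 0 < wt p a := by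
  obtain ⟨i, hi⟩ : ∃ i, a i ≠ 0 := by
    by_contra h; push Not at h; exact ha (Finsupp.ext h)
  exact lt_of_lt_of_le (Nat.mul_pos (Nat.pos_of_ne_zero hi) (pow_pos hp _))
    (Finset.single_le_sum (f := fun j : ZMod n => a j * p ^ j.val) (fun _ _ => Nat.zero_le _)
      (mem_univ i))

theorem red_unique (hp : 0 < p) {a b : ZMod n →₀ ℕ} (ha : Red p a) (hb : Red p b) (a0 : a ≠ 0)
    (b0 : b ≠ 0) (h : wt p a ≡ wt p b [MOD p ^ n - 1]) : a = b := by
  have h1 := (wt_digits ha hb).1
  have h2 := (wt_digits hb ha).1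
  have h3 := wt_pos hp a0
  have h4 := wt_pos hp b0
  refine (wt_digits ha hb).2 ?_
  obtain ⟨x, hx⟩ : ∃ x, wt p a = x + 1 := ⟨wt p a - 1, by omega⟩
  obtain ⟨y, hy⟩ : ∃ y, wt p b = y + 1 := ⟨wt p b - 1, by omega⟩
  rw [hx, hy] at h ⊢
  have := Nat.ModEq.add_right_cancel' 1 h
  rw [Nat.ModEq.eq_of_lt_of_lt this (by omega) (by omega)]

theorem pow_modEq (hp : 0 < p) (k : ℕ) : p ^ k ≡ p ^ (k % n) [MOD p ^ n - 1] := by
  have h1 : p ^ n ≡ 1 [MOD p ^ n - 1] :=
    ((Nat.modEq_iff_dvd' (Nat.one_le_pow _ _ hp)).2 dvd_rfl).symm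
  conv_lhs => rw [← Nat.mod_add_div k n, pow_add, pow_mul]
  have := (h1.pow (k / n)).mul_left (p ^ (k % n))
  simpa using this

theorem pow_val_add (hp : 0 < p) (i j : ZMod n) :
    p ^ (i + j).val ≡ p ^ i.val * p ^ j.val [MOD p ^ n - 1] := by
  rw [← pow_add, ZMod.val_add]; exact (pow_modEq hp _).symm

theorem pow_val_succ (hp : 0 < p) (i : ZMod n) :
    p ^ (i + 1).val ≡ p * p ^ i.val [MOD p ^ n - 1] := by
  have h : ((i.val + 1 : ℕ) : ZMod n) = i + 1 := by simp
  rw [← h, ZMod.val_natCast, ← pow_succ']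
  exact (pow_modEq hp _).symm

/-- the carry process -/
theorem carry (hp : 2 ≤ p) (m : ZMod n →₀ ℕ) :
    ∃ (t : ZMod n →₀ ℕ) (k : ℕ), Red p t ∧ wt p t ≡ wt p m [MOD p ^ n - 1] ∧
      degree m = degree t + k * (p - 1) ∧ (m ≠ 0 → t ≠ 0) ∧ (k = 0 → m = t) ∧
      (k = 1 → ∃ j, m + single (j + 1) 1 = t + single j p) := by
  classical
  induction h : degree m using Nat.strong_induction_on generalizing m with
  | _ d ih =>
    by_cases hr : Red p m
    · exact ⟨m, 0, hr, Nat.ModEq.refl _, by rw [h]; simp, id, fun _ => rfl, fun h => by omega⟩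
    · simp only [Red, not_forall, not_lt] at hr
      obtain ⟨j, hj⟩ := hr
      obtain ⟨u, hu⟩ : ∃ u, m = u + single j p :=
        ⟨m - single j p, (tsub_add_cancel_of_le (Finsupp.single_le_iff.2 hj)).symm⟩
      have hd : degree m = degree (u + single (j + 1) 1) + (p - 1) := by
        rw [hu, map_add, map_add, degree_single, degree_single]; omega
      obtain ⟨t, k, h1, h2, h3, h4, h5, -⟩ := ih (degree (u + single (j + 1) 1)) (by omega) _ rfl
      refine ⟨t, k + 1, h1, h2.trans ?_, by rw [← h, hd, h3]; ring, fun _ => h4 ?_,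
        fun h => by omega, fun hk => ⟨j, ?_⟩⟩
      · rw [hu, wt_add, wt_add, wt_single, wt_single, one_mul]
        exact (pow_val_succ (by omega) j).add_left _
      · intro h0
        have := DFunLike.congr_fun h0 (j + 1)
        simp at this
      · rw [← h5 (by omega), hu]; abel

variable {K : Type*} [Field K]

/-- evaluation of the variables at the `p`-power conjugates of `x` -/
noncomputable def ev (p n : ℕ) (x : K) : MvPolynomial (ZMod n) K →ₐ[K] K :=
  aeval fun i : ZMod n => x ^ p ^ i.val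

theorem ev_monomial (x : K) (m : ZMod n →₀ ℕ) (c : K) :
    ev p n x (monomial m c) = c * x ^ wt p m := by
  rw [ev, aeval_monomial, Finsupp.prod_fintype _ _ (by simp)]
  simp only [Algebra.algebraMap_self, RingHom.id_apply, ← pow_mul, Finset.prod_pow_eq_pow_sum, wt]
  congr 2
  exact Finset.sum_congr rfl fun i _ => mul_comm _ _

theorem ev_eq (x : K) (P : MvPolynomial (ZMod n) K) :
    ev p n x P = ∑ m ∈ P.support, coeff m P * x ^ wt p m := by
  conv_lhs => rw [P.as_sum, map_sum]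
  exact Finset.sum_congr rfl fun m _ => ev_monomial x m _

variable [Fintype K]

open Classical in
/-- extraction of the coefficient of `x ^ e` -/
theorem extract (hK : Fintype.card K = p ^ n) (s : Finset (ZMod n →₀ ℕ)) (c : (ZMod n →₀ ℕ) → K)
    (h : ∀ x : K, x ≠ 0 → ∑ m ∈ s, c m * x ^ wt p m = 0) (e : ℕ) :
    ∑ m ∈ s with wt p m ≡ e [MOD p ^ n - 1], c m = 0 := by
  have hQ : 1 < p ^ n := hK ▸ Fintype.one_lt_card
  obtain ⟨w, hw⟩ : ∃ w, p ^ n = w + 2 := ⟨p ^ n - 2, by omega⟩
  have h1 : ∑ x : Kˣ, (∑ m ∈ s, c m * (x : K) ^ wt p m) * (x : K) ^ (w * e) = 0 :=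
    Finset.sum_eq_zero fun x _ => by rw [h x x.ne_zero, zero_mul]
  simp_rw [Finset.sum_mul, mul_assoc, ← pow_add] at h1
  rw [Finset.sum_comm] at h1
  simp_rw [← Finset.mul_sum, FiniteField.sum_pow_units, hK] at h1
  rw [Finset.sum_filter, ← neg_eq_zero, ← Finset.sum_neg_distrib]
  refine Eq.trans (Finset.sum_congr rfl fun m _ => ?_) h1
  have : (p ^ n - 1 ∣ wt p m + w * e) ↔ wt p m ≡ e [MOD p ^ n - 1] := by
    rw [hw, show w + 2 - 1 = w + 1 by omega, ← Nat.modEq_zero_iff_dvd]
    have h2 : (w + 1) * e ≡ 0 [MOD w + 1] := Nat.modEq_zero_iff_dvd.2 (dvd_mul_right _ _)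
    constructor
    · intro h3
      have h4 := h3.trans h2.symm
      rw [show (w + 1) * e = e + w * e by ring] at h4
      exact Nat.ModEq.add_right_cancel' _ h4
    · intro h3
      have := h3.add_right (w * e)
      rw [show e + w * e = (w + 1) * e by ring] at this
      exact this.trans h2
  by_cases h5 : wt p m ≡ e [MOD p ^ n - 1]
  · rw [if_pos h5, if_pos (this.2 h5)]; ring
  · rw [if_neg h5, if_neg (fun h => h5 (this.1 h))]; ring

/-- a coefficient that is alone in its residue class vanishes -/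
theorem coeff_eq_zero_of_alone (hK : Fintype.card K = p ^ n) (S : MvPolynomial (ZMod n) K)
    (h : ∀ x : K, x ≠ 0 → ev p n x S = 0) (u : ZMod n →₀ ℕ)
    (hu : ∀ m, coeff m S ≠ 0 → wt p m ≡ wt p u [MOD p ^ n - 1] → m = u) : coeff u S = 0 := by
  classical
  have h1 := extract hK S.support (fun m => coeff m S) (fun x hx => by rw [← ev_eq, h x hx])
    (wt p u)
  by_contra h0
  rw [Finset.sum_eq_single u] at h1
  · exact h0 h1
  · intro m hm hne
    rw [Finset.mem_filter, MvPolynomial.mem_support_iff] at hm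
    exact absurd (hu m hm.1 hm.2) hne
  · intro hm
    exact absurd (Finset.mem_filter.2 ⟨MvPolynomial.mem_support_iff.2 h0, Nat.ModEq.refl _⟩) hm

omit [NeZero n] [Fintype K] in
/-- polynomials vanishing on a down-closed set of exponents form an ideal -/
theorem coeff_mul_eq_zero {σ : Type*} (D : (σ →₀ ℕ) → Prop) (hD : ∀ u v, D (u + v) → D v)
    (Q P : MvPolynomial σ K) (hP : ∀ u, D u → coeff u P = 0) (u : σ →₀ ℕ) (hu : D u) :
    coeff u (Q * P) = 0 := by
  classical
  rw [coeff_mul]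
  refine Finset.sum_eq_zero fun x hx => ?_
  have hx' : x.1 + x.2 = u := by simpa using hx
  rw [hP x.2 (hD x.1 x.2 (hx' ▸ hu)), mul_zero]

/-- every function on `Kˣ` is given by a polynomial with non-zero reduced monomials -/
theorem exists_reduced (hp : 2 ≤ p) (hK : Fintype.card K = p ^ n) (ψ : K → K) :
    ∃ P : MvPolynomial (ZMod n) K, (∀ m, coeff m P ≠ 0 → Red p m ∧ m ≠ 0) ∧
      ∀ x : K, x ≠ 0 → ev p n x P = ψ x := by
  classical
  have hQ : 1 < p ^ n := hK ▸ Fintype.one_lt_card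
  choose t k h1 h2 _ h4 _ _ using fun e : ℕ => carry (n := n) hp (single 0 (e + (p ^ n - 1)))
  let L := Lagrange.interpolate (Finset.univ : Finset K) id ψ
  refine ⟨∑ e ∈ L.support, monomial (t e) (L.coeff e), fun m hm => ?_, fun x hx => ?_⟩
  · rw [coeff_sum] at hm
    obtain ⟨e, -, he⟩ := Finset.exists_ne_zero_of_sum_ne_zero hm
    rw [coeff_monomial] at he
    have : t e = m := by by_contra h; exact he (if_neg h)
    refine this ▸ ⟨h1 e, h4 e fun h0 => ?_⟩
    have := DFunLike.congr_fun h0 0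
    simp only [single_eq_same, Finsupp.coe_zero, Pi.zero_apply] at this
    omega
  · have hL : L.eval x = ψ x :=
      Lagrange.eval_interpolate_at_node (v := id) ψ (Set.injOn_id _) (Finset.mem_univ x)
    rw [← hL, Polynomial.eval_eq_sum, Polynomial.sum_def, map_sum]
    refine Finset.sum_congr rfl fun e _ => ?_
    rw [ev_monomial]
    congr 1
    have h5 : x ^ (p ^ n - 1) = 1 := by rw [← hK]; exact FiniteField.pow_card_sub_one_eq_one x hx
    have h6 := h2 e
    rw [wt_single, ZMod.val_zero, pow_zero, mul_one] at h6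
    have h7 : wt p (t e) ≡ e [MOD p ^ n - 1] := h6.trans (by simp [Nat.ModEq])
    rw [pow_eq_pow_mod _ h5, h7, ← pow_eq_pow_mod _ h5]

end Cfsg.Lib.CKS
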