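import Cfsg.Agent.Lib.CK.SA

/-! The polynomial method: a linearised polynomial that preserves a non-constant function of the
norm is a monomial. -/

set_option autoImplicit false

namespace Cfsg.Lib.CKS

open Finsupp MvPolynomial Finset

variable {n : ℕ} [NeZero n] {p f r : ℕ} [NeZero f] {K : Type*} [Field K]

/-- data of the polynomial method -/
structure PM (p r : ℕ) (cl : ZMod n →+* ZMod f) (α : ZMod n → K) (P : MvPolynomial (ZMod n) K) :
    Prop where
  prime : p.Prime
  five : 5 ≤ r
  fib : ∀ s, #{i | cl i = s} = r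
  cls : ∀ l, α l ≠ 0 → cl l = 0
  red : ∀ m, coeff m P ≠ 0 → Red p m
  ne : ∀ m, coeff m P ≠ 0 → m ≠ 0
  ntop : ∀ m, coeff m P ≠ 0 → ∃ i, m i ≠ p - 1
  per : ∀ m, coeff m P ≠ 0 → ∀ i j, cl i = cl j → m i = m j

/-- the multidegree -/
noncomputable def md (cl : ZMod n →+* ZMod f) : (ZMod n →₀ ℕ) →+ (ZMod f → ℕ) :=
  weight fun i => (Pi.single (cl i) 1 : ZMod f → ℕ)

theorem md_single (cl : ZMod n →+* ZMod f) (i : ZMod n) (k : ℕ) (s : ZMod f) :
    md cl (single i k) s = if cl i = s then k else 0 := by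
  rw [md, weight_single]
  by_cases h : cl i = s
  · subst h; simp
  · simp [h, Pi.single_apply, Ne.symm h]

theorem md_apply (cl : ZMod n →+* ZMod f) (m : ZMod n →₀ ℕ) (s : ZMod f) :
    md cl m s = ∑ i with cl i = s, m i := by
  conv_lhs => rw [← Finsupp.univ_sum_single m, map_sum]
  rw [Finset.sum_apply, Finset.sum_filter]
  exact Finset.sum_congr rfl fun i _ => md_single cl i _ s

theorem degree_eq_md (cl : ZMod n →+* ZMod f) (m : ZMod n →₀ ℕ) :
    degree m = ∑ s, md cl m s := by
  simp_rw [md_apply]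
  rw [degree_eq_sum, Finset.sum_fiberwise]

theorem le_md (cl : ZMod n →+* ZMod f) (m : ZMod n →₀ ℕ) (i : ZMod n) : m i ≤ md cl m (cl i) := by
  rw [md_apply]
  exact Finset.single_le_sum (f := fun j => m j) (fun _ _ => Nat.zero_le _) (by simp)

/-- the coefficients of the substituted variables -/
def bb (p : ℕ) (α : ZMod n → K) (i j : ZMod n) : K := α (j - i) ^ p ^ i.val

/-- the substituted variables -/
noncomputable def YY (p : ℕ) (α : ZMod n → K) (i : ZMod n) : MvPolynomial (ZMod n) K :=
  ∑ j, bb p α i j • X j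

/-- the substituted monomials -/
noncomputable def Yp (p : ℕ) (α : ZMod n → K) (m : ZMod n →₀ ℕ) : MvPolynomial (ZMod n) K :=
  ∏ i, YY p α i ^ m i

theorem Yp_add (α : ZMod n → K) (a b : ZMod n →₀ ℕ) : Yp p α (a + b) = Yp p α a * Yp p α b := by
  simp [Yp, pow_add, prod_mul_distrib]

theorem Yp_single (α : ZMod n → K) (i : ZMod n) (k : ℕ) :
    Yp p α (single i k) = YY p α i ^ k := by
  rw [Yp, Finset.prod_eq_single i]
  · simp
  · intro j _ hj; simp [Finsupp.single_apply, hj.symm]
  · simp

theorem coeff_bind (α : ZMod n → K) (P : MvPolynomial (ZMod n) K) (u : ZMod n →₀ ℕ) :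
    coeff u (bind₁ (YY p α) P) = ∑ m ∈ P.support, coeff m P * coeff u (Yp p α m) := by
  conv_lhs => rw [P.as_sum, map_sum, coeff_sum]
  refine Finset.sum_congr rfl fun m _ => ?_
  rw [bind₁_monomial, coeff_C_mul, Yp]
  congr 2
  refine Finset.prod_subset (subset_univ _) fun i _ hi => ?_
  rw [Finsupp.notMem_support_iff.1 hi, pow_zero]

theorem YY_pow_char [Fact p.Prime] [CharP K p] (α : ZMod n → K) (i : ZMod n) :
    YY p α i ^ p = ∑ j, monomial (single j p) (bb p α i j ^ p) := by
  rw [YY, sum_pow_char]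
  refine Finset.sum_congr rfl fun j _ => ?_
  rw [smul_pow, X_pow_eq_monomial, smul_monomial, smul_eq_mul, mul_one]

theorem coeff_YY_pow_mul [Fact p.Prime] [CharP K p] (α : ZMod n → K) (i : ZMod n)
    (W : MvPolynomial (ZMod n) K) (u : ZMod n →₀ ℕ) :
    coeff u (YY p α i ^ p * W) =
      ∑ j, if p ≤ u j then bb p α i j ^ p * coeff (u - single j p) W else 0 := by
  rw [YY_pow_char, Finset.sum_mul, coeff_sum]
  refine Finset.sum_congr rfl fun j _ => ?_
  rw [coeff_monomial_mul']
  simp [Finsupp.single_le_iff]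

namespace PM

variable {cl : ZMod n →+* ZMod f} {α : ZMod n → K} {P : MvPolynomial (ZMod n) K}
  (h : PM p r cl α P)
include h

theorem md_per {m : ZMod n →₀ ℕ} (hm : coeff m P ≠ 0) (i : ZMod n) :
    md cl m (cl i) = r * m i := by
  rw [md_apply, Finset.sum_congr rfl (g := fun _ => m i) fun j hj =>
    h.per m hm _ _ (by simpa using hj), Finset.sum_const, h.fib, smul_eq_mul]

theorem md_inj {a b : ZMod n →₀ ℕ} (ha : coeff a P ≠ 0) (hb : coeff b P ≠ 0)
    (e : md cl a = md cl b) : a = b := by
  ext i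
  have := congrFun e (cl i)
  rw [h.md_per ha, h.md_per hb] at this
  exact Nat.eq_of_mul_eq_mul_left (by have := h.five; omega) this

theorem bb_cl {i j : ZMod n} (hb : bb p α i j ≠ 0) : cl j = cl i := by
  have := h.cls (j - i) fun h0 => hb (by rw [bb, h0, zero_pow (pow_ne_zero _ h.prime.ne_zero)])
  rwa [map_sub, sub_eq_zero] at this

theorem hom (m u : ZMod n →₀ ℕ) (hu : coeff u (Yp p α m) ≠ 0) : md cl u = md cl m := by
  have h1 : ∀ i, IsWeightedHomogeneous (fun i => (Pi.single (cl i) 1 : ZMod f → ℕ)) (YY p α i)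
      (Pi.single (cl i) 1) := fun i => by
    refine IsWeightedHomogeneous.sum _ _ _ fun j _ => ?_
    by_cases hb : bb p α i j = 0
    · rw [hb, zero_smul]; exact isWeightedHomogeneous_zero _ _ _
    · rw [smul_eq_C_mul, ← h.bb_cl hb]
      exact (isWeightedHomogeneous_X K _ j).C_mul _
  have h2 := IsWeightedHomogeneous.prod (univ : Finset (ZMod n)) _ _ fun i _ => (h1 i).pow (m i)
  rw [md, h2 hu, weight_apply, Finsupp.sum_fintype _ _ (by simp)]

theorem coeff_bind_eq {m u : ZMod n →₀ ℕ} (hm : coeff m P ≠ 0) (e : md cl u = md cl m) :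
    coeff u (bind₁ (YY p α) P) = coeff m P * coeff u (Yp p α m) := by
  rw [coeff_bind, Finset.sum_eq_single m]
  · intro m' hm' hne
    rw [MvPolynomial.mem_support_iff] at hm'
    by_contra h0
    exact hne (h.md_inj hm' hm ((h.hom _ _ (right_ne_zero_of_mul h0)).symm.trans e))
  · intro h0; exact absurd (MvPolynomial.mem_support_iff.2 hm) h0

theorem supp {u : ZMod n →₀ ℕ} (hu : coeff u (bind₁ (YY p α) P - P) ≠ 0) :
    ∃ m, coeff m P ≠ 0 ∧ md cl u = md cl m := by
  by_cases h1 : coeff u P = 0
  · rw [coeff_sub, h1, sub_zero, coeff_bind] at hu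
    obtain ⟨m, -, hm⟩ := Finset.exists_ne_zero_of_sum_ne_zero hu
    exact ⟨m, left_ne_zero_of_mul hm, h.hom _ _ (right_ne_zero_of_mul hm)⟩
  · exact ⟨u, h1, rfl⟩

theorem ne_zero_of_md {m u : ZMod n →₀ ℕ} (hm : coeff m P ≠ 0) (e : md cl u = md cl m) :
    u ≠ 0 := by
  rintro rfl
  apply h.ne m hm
  rw [← degree_eq_zero_iff, degree_eq_md cl, ← e]
  simp

variable [Fintype K] (hK : Fintype.card K = p ^ n)
  (hinv : ∀ x : K, x ≠ 0 → ev p n x (bind₁ (YY p α) P - P) = 0)
  {β : ZMod n →₀ ℕ} (hβ : coeff β P ≠ 0) (top : ∀ m, coeff m P ≠ 0 → degree m ≤ degree β)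
include hK hinv hβ top

theorem top_coeff (t : ZMod n →₀ ℕ) (ht : Red p t) :
    coeff t (Yp p α β - monomial β 1) = 0 := by
  rw [coeff_sub, coeff_monomial]
  by_cases e : md cl t = md cl β
  · have h1 := coeff_eq_zero_of_alone hK _ hinv t fun m hm hw => by
      obtain ⟨m', h1, h2⟩ := h.supp hm
      obtain ⟨t', k, c1, c2, c3, c4, c5, -⟩ := carry h.prime.two_le m
      have h3 := red_unique h.prime.pos c1 ht (c4 (h.ne_zero_of_md h1 h2)) (h.ne_zero_of_md hβ e)
        (c2.trans hw)
      have h4 := top m' h1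
      rw [degree_eq_md cl m', ← h2, ← degree_eq_md, degree_eq_md cl β, ← e, ← degree_eq_md, c3,
        h3] at h4
      have h5 := h.prime.two_le
      have : k = 0 := by
        by_contra hk
        have := Nat.mul_pos (Nat.pos_of_ne_zero hk) (show 0 < p - 1 by omega)
        omega
      rw [c5 this, h3]
    rw [coeff_sub, h.coeff_bind_eq hβ e, sub_eq_zero] at h1
    by_cases e' : β = t
    · subst e'
      rw [if_pos rfl, sub_eq_zero]
      exact mul_left_cancel₀ hβ (by rw [h1, mul_one])
    · rw [if_neg e', sub_zero]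
      by_contra h0
      exact e' (h.md_inj hβ (h1 ▸ mul_ne_zero hβ h0) e.symm)
  · rw [if_neg (fun h' => e (by rw [h'])), sub_zero]
    by_contra h0
    exact e (h.hom _ _ h0)

variable [CharP K p]

theorem case_one {i : ZMod n} (h1 : β i ≠ 0) (h2 : β i ≠ p - 1) {j k : ZMod n}
    (hj : bb p α i j ≠ 0) (hk : bb p α i k ≠ 0) : j = k := by
  haveI := Fact.mk h.prime
  by_contra hne
  have h3 := h.red β hβ i
  obtain ⟨γ, hγ⟩ : ∃ γ, β i + (γ + 1) = p := ⟨p - β i - 1, by omega⟩
  have bj : β j = β i := h.per β hβ _ _ (h.bb_cl hj)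
  have bk : β k = β i := h.per β hβ _ _ (h.bb_cl hk)
  set v : ZMod n →₀ ℕ := single j γ + single k 1 with hv
  have ht : Red p (v + β) := fun l => by
    have := h.red β hβ l
    by_cases e1 : j = l
    · subst e1; simp [hv, Finsupp.single_apply, Ne.symm hne]; omega
    · by_cases e2 : k = l
      · subst e2; simp [hv, Finsupp.single_apply, hne]; omega
      · simpa [hv, Finsupp.single_apply, e1, e2]
  have h4 := coeff_mul_eq_zero (Red p) (fun u v h l => lt_of_le_of_lt (by simp) (h l))
    (YY p α i ^ (γ + 1)) _ (h.top_coeff hK hinv hβ top) _ ht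
  obtain ⟨β', hβ'⟩ : ∃ β', β = single i (β i) + β' :=
    ⟨β - single i (β i), (add_tsub_cancel_of_le (Finsupp.single_le_iff.2 le_rfl)).symm⟩
  have h5 : YY p α i ^ (γ + 1) * Yp p α β = YY p α i ^ p * Yp p α β' := by
    conv_lhs => rw [hβ', Yp_add, Yp_single, ← mul_assoc, ← pow_add, add_comm, hγ]
  rw [mul_sub, coeff_sub, h5, coeff_YY_pow_mul, Finset.sum_eq_zero fun l _ =>
    if_neg (not_le.2 (ht l)), coeff_mul_monomial, mul_one, zero_sub, neg_eq_zero, YY,
    coeff_linearCombination_X_pow_of_fintype, if_pos] at h4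
  · refine mul_ne_zero ?_ ?_ h4
    · rw [Ne, CharP.cast_eq_zero_iff K p]
      intro hd
      have h6 : v.multinomial ∣ (γ + 1).factorial := by
        have := Nat.multinomial_spec v.support v
        rw [← degree_apply, hv, map_add, degree_single, degree_single] at this
        exact Dvd.intro_left _ this
      have := h.prime.dvd_factorial.1 (hd.trans h6)
      omega
    · rw [hv, Finsupp.prod_add_index' (by simp) (by simp [pow_add]), Finsupp.prod_single_index
        (by simp), Finsupp.prod_single_index (by simp)]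
      exact mul_ne_zero (pow_ne_zero _ hj) (pow_ne_zero _ hk)
  · rw [hv, Finsupp.sum_add_index' (by simp) (by simp), Finsupp.sum_single_index rfl,
      Finsupp.sum_single_index rfl]

variable (dig : ∀ m, coeff m P ≠ 0 → degree β ≤ degree m → ∀ i, m i = 0 ∨ m i = p - 1)
  {i : ZMod n} (h1 : β i = p - 1) (h2 : β (i + 1) = 0)
include dig h1 h2

omit [CharP K p] in
theorem one_carry {l : ZMod n} (hl : cl l = cl i) {t : ZMod n →₀ ℕ} (ht : Red p t) :
    coeff (t + single l p) (Yp p α β - monomial β 1) = 0 := by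
  have hp := h.prime.two_le
  have hr := h.five
  rw [coeff_sub, coeff_monomial, if_neg, sub_zero]
  swap
  · intro e
    have := h.red β hβ l
    rw [e] at this
    simp at this
  by_contra h0
  have e := h.hom _ _ h0
  have hs : cl (i + 1) ≠ cl i := fun e' => by
    have := h.per β hβ _ _ e'
    omega
  have m0 : md cl β (cl (i + 1)) = 0 := by rw [h.md_per hβ, h2, mul_zero]
  have t0 : md cl t (cl (i + 1)) = 0 := by
    have := congrFun e (cl (i + 1))
    rw [map_add, Pi.add_apply, m0] at this
    omega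
  have l1 : cl (l + 1) = cl (i + 1) := by rw [map_add, map_add, hl]
  have t1 : ∀ j, cl j = cl (i + 1) → t j = 0 := fun j hj => by
    have := le_md cl t j
    rw [hj] at this
    omega
  have ht' : Red p (t + single (l + 1) 1) := fun j => by
    by_cases e1 : l + 1 = j
    · subst e1; simp [t1 _ l1]; omega
    · simpa [Finsupp.single_apply, e1] using ht j
  have hd : degree β = degree t + p := by
    rw [degree_eq_md cl β, ← e, ← degree_eq_md, map_add, degree_single]
  have h3 := coeff_eq_zero_of_alone hK _ hinv (t + single l p) fun m hm hw => by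
    obtain ⟨m', a1, a2⟩ := h.supp hm
    obtain ⟨t', k, c1, c2, c3, c4, c5, c6⟩ := carry hp m
    have h3 : t' = t + single (l + 1) 1 := by
      refine red_unique h.prime.pos c1 ht' (c4 (h.ne_zero_of_md a1 a2)) (fun h0 => ?_)
        (c2.trans (hw.trans ?_))
      · have := DFunLike.congr_fun h0 (l + 1)
        simp at this
      · rw [wt_add, wt_add, wt_single, wt_single, one_mul]
        exact ((pow_val_succ (by omega) l).add_left _).symm
    have h4 := top m' a1
    have h5 : degree m' = degree m := by rw [degree_eq_md cl m', ← a2, ← degree_eq_md]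
    rw [h3, map_add, degree_single] at c3
    have h6 : md cl m (cl (i + 1)) = r * m' (i + 1) := by rw [a2, h.md_per a1]
    rcases k with _ | _ | k
    · rw [c5 rfl, h3, map_add, Pi.add_apply, t0, md_single, if_pos l1] at h6
      rcases Nat.eq_zero_or_pos (m' (i + 1)) with h7 | h7
      · rw [h7] at h6; omega
      · nlinarith
    · obtain ⟨j, hj⟩ := c6 rfl
      rw [h3] at hj
      by_cases e1 : j = l
      · subst e1
        exact add_right_cancel (hj.trans (by abel))
      exfalso
      have e2 : cl (j + 1) ≠ cl (i + 1) := fun e2 => by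
        have h7 := DFunLike.congr_fun hj (j + 1)
        have h8 : j ≠ j + 1 := fun e3 => hs (by
          rw [← e2, ← e3]
          have := e2
          rw [map_add, map_add] at this
          exact add_right_cancel this)
        have h9 : l + 1 ≠ j + 1 := fun e3 => e1 (add_right_cancel e3).symm
        simp [t1 _ e2, Finsupp.single_apply, h8, h9] at h7
      have h7 := congrFun (congrArg (md cl) hj) (cl (i + 1))
      simp only [map_add (md cl), Pi.add_apply, md_single, if_neg e2, if_pos l1, t0, h6] at h7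
      rcases dig m' a1 (by omega) (i + 1) with h8 | h8
      · rw [h8] at h7; omega
      · rw [h8] at h7
        have : 5 * (p - 1) ≤ r * (p - 1) := Nat.mul_le_mul_right _ hr
        split_ifs at h7 <;> omega
    · exfalso
      have : 2 * (p - 1) ≤ (k + 1 + 1) * (p - 1) := Nat.mul_le_mul_right _ (by omega)
      omega
  rw [coeff_sub, h.coeff_bind_eq hβ e] at h3
  have h4 : coeff (t + single l p) P = 0 := by
    by_contra h4
    have := h.red _ h4 l
    simp at this
  rw [h4, sub_zero] at h3
  exact mul_ne_zero hβ h0 h3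

theorem case_two {j k : ZMod n} (hj : bb p α i j ≠ 0) (hk : bb p α i k ≠ 0) : j = k := by
  haveI := Fact.mk h.prime
  have hp := h.prime.two_le
  by_contra hne
  let D : (ZMod n →₀ ℕ) → Prop := fun u =>
    Red p u ∨ ∃ l t, cl l = cl i ∧ Red p t ∧ u = t + single l p
  have hD : ∀ u v, D (u + v) → D v := by
    rintro u v (h3 | ⟨l, t, a1, a2, a3⟩)
    · exact Or.inl fun l => lt_of_le_of_lt (by simp) (h3 l)
    · have a4 := fun l' => DFunLike.congr_fun a3 l'
      simp only [Finsupp.coe_add, Pi.add_apply, Finsupp.single_apply] at a4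
      by_cases a5 : p ≤ v l
      · refine Or.inr ⟨l, v - single l p, a1, fun l' => ?_,
          (tsub_add_cancel_of_le (Finsupp.single_le_iff.2 a5)).symm⟩
        have := a4 l'
        have := a2 l'
        simp only [Finsupp.coe_tsub, Pi.sub_apply, Finsupp.single_apply]
        split_ifs at * <;> omega
      · refine Or.inl fun l' => ?_
        have := a4 l'
        have := a2 l'
        split_ifs at * with a6
        · subst a6; omega
        · omega
  have h3 := coeff_mul_eq_zero D hD (YY p α i) (Yp p α β - monomial β 1) (by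
    rintro u (hu | ⟨l, t, a1, a2, rfl⟩)
    · exact h.top_coeff hK hinv hβ top u hu
    · exact h.one_carry hK hinv hβ top dig h1 h2 a1 a2)
  obtain ⟨β', hβ'⟩ : ∃ β', β = single i (p - 1) + β' :=
    ⟨β - single i (p - 1), (add_tsub_cancel_of_le (Finsupp.single_le_iff.2 h1.ge)).symm⟩
  have h5 : YY p α i * Yp p α β = YY p α i ^ p * Yp p α β' := by
    conv_lhs => rw [hβ', Yp_add, Yp_single, ← mul_assoc, ← pow_succ', Nat.sub_add_cancel (by omega)]
  have bj : β j = p - 1 := (h.per β hβ _ _ (h.bb_cl hj)).trans h1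
  have bk : β k = p - 1 := (h.per β hβ _ _ (h.bb_cl hk)).trans h1
  obtain ⟨v, hv⟩ : ∃ v, β = v + single j (p - 1) :=
    ⟨β - single j (p - 1), (tsub_add_cancel_of_le (Finsupp.single_le_iff.2 bj.ge)).symm⟩
  have rv : Red p v := fun l => lt_of_le_of_lt (by rw [hv]; simp) (h.red β hβ l)
  have h6 : ∀ l, cl l = cl i → bb p α i l ^ p * coeff v (Yp p α β') =
      coeff (v + single l p) (YY p α i * monomial β 1) := fun l hl => by
    have := h3 _ (Or.inr ⟨l, v, hl, rv, rfl⟩)
    rw [mul_sub, coeff_sub, h5, coeff_YY_pow_mul, Finset.sum_eq_single l, if_pos (by simp),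
      add_tsub_cancel_right, sub_eq_zero] at this
    · exact this
    · intro l' _ hl'
      rw [if_neg]
      simpa [Finsupp.single_apply, hl'.symm] using rv l'
    · simp
  have h7 := h6 j (h.bb_cl hj)
  have h8 := h6 k (h.bb_cl hk)
  have e1 : v + single j p = single j 1 + β := by
    rw [hv, add_left_comm, ← single_add, Nat.add_sub_cancel' (by omega)]
  rw [e1, coeff_mul_monomial, mul_one, YY, coeff_sum, Finset.sum_eq_single j, coeff_smul,
    coeff_X_same, smul_eq_mul, mul_one] at h7
  · have h9 : coeff v (Yp p α β') ≠ 0 := fun h0 => hj (by rw [← h7, h0, mul_zero])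
    refine mul_ne_zero (pow_ne_zero _ hk) h9 (h8.trans ?_)
    rw [coeff_mul_monomial', if_neg]
    intro hle
    have a1 := hle j
    have a2 := DFunLike.congr_fun hv j
    simp [Finsupp.single_apply, Ne.symm hne, bj] at a1 a2
    omega
  · intro l _ hl
    rw [coeff_smul, coeff_X, if_neg (fun e => hl (single_left_injective one_ne_zero e)), smul_zero]
  · simp

end PM

theorem exists_step (m : ZMod n →₀ ℕ) {c : ℕ} (h0 : m ≠ 0) (h1 : ∃ i, m i ≠ c)
    (h2 : ∀ i, m i = 0 ∨ m i = c) : ∃ i, m i = c ∧ m (i + 1) = 0 := by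
  by_contra h3
  push Not at h3
  obtain ⟨i, hi⟩ : ∃ i, m i ≠ 0 := by
    by_contra h; push Not at h; exact h0 (Finsupp.ext h)
  obtain ⟨j, hj⟩ := h1
  have h4 : ∀ k : ℕ, m (i + k) = c := fun k => by
    induction k with
    | zero => simpa using (h2 i).resolve_left hi
    | succ k ih =>
      rw [Nat.cast_succ, ← add_assoc]
      exact (h2 _).resolve_left (h3 _ ih)
  exact hj (by simpa using h4 (j - i).val)

theorem PM.unique {cl : ZMod n →+* ZMod f} {α : ZMod n → K} {P : MvPolynomial (ZMod n) K}
    (h : PM p r cl α P) [Fintype K] [CharP K p] (hK : Fintype.card K = p ^ n)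
    (hinv : ∀ x : K, x ≠ 0 → ev p n x (bind₁ (YY p α) P - P) = 0) (P0 : P ≠ 0) {a b : ZMod n}
    (ha : α a ≠ 0) (hb : α b ≠ 0) : a = b := by
  obtain ⟨β, b1, b2⟩ := Finset.exists_max_image P.support (fun m => degree m)
    (MvPolynomial.support_nonempty.2 P0)
  simp only [MvPolynomial.mem_support_iff] at b1 b2
  have e : ∀ i c, α c ≠ 0 → bb p α i (c + i) ≠ 0 := fun i c hc => by
    rw [bb, add_sub_cancel_right]; exact pow_ne_zero _ hc
  by_cases dig : ∀ m, coeff m P ≠ 0 → degree β ≤ degree m → ∀ i, m i = 0 ∨ m i = p - 1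
  · obtain ⟨i, h1, h2⟩ := exists_step β (h.ne β b1) (h.ntop β b1) (dig β b1 le_rfl)
    exact add_right_cancel (h.case_two hK hinv b1 b2 dig h1 h2 (e i a ha) (e i b hb))
  · push Not at dig
    obtain ⟨m, m1, m2, i, m3, m4⟩ := dig
    exact add_right_cancel (h.case_one hK hinv m1 (fun m' hm' => (b2 m' hm').trans m2) m3 m4
      (e i a ha) (e i b hb))

end Cfsg.Lib.CKS
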