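import Cfsg.Agent.Lib.CK.SB

/-! A linear map of a finite field extension of degree at least 5 that preserves a non-constant
function of the norm is semilinear of dimension one. -/

set_option autoImplicit false

namespace Cfsg.Lib.CKS

open Finsupp MvPolynomial Finset Module

section
variable {n : ℕ} [NeZero n] {p : ℕ} {K : Type*} [Field K]

theorem wt_top (hp : 0 < p) :
    wt p (Finsupp.equivFunOnFinite.symm fun _ : ZMod n => p - 1) = p ^ n - 1 := by
  obtain ⟨k, rfl⟩ : ∃ k, n = k + 1 := ⟨n - 1, by have := NeZero.pos n; omega⟩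
  have h : ∀ m, ∑ i ∈ range m, (p - 1) * p ^ i + 1 = p ^ m := fun m => by
    induction m with
    | zero => simp
    | succ m ih =>
      rw [Finset.sum_range_succ, add_right_comm, ih, pow_succ]
      obtain ⟨p, rfl⟩ : ∃ p', p = p' + 1 := ⟨p - 1, by omega⟩
      simp only [Nat.add_sub_cancel]; ring
  rw [← h, Nat.add_sub_cancel, ← Fin.sum_univ_eq_sum_range (fun i => (p - 1) * p ^ i)]
  rfl

theorem shift_eq (hp : 0 < p) {m : ZMod n →₀ ℕ} (hm : Red p m) (m0 : m ≠ 0) {f : ℕ}
    (h : p ^ f * wt p m ≡ wt p m [MOD p ^ n - 1]) (i : ZMod n) : m (i + f) = m i := by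
  have h1 : equivMapDomain (Equiv.addRight (f : ZMod n)) m = m := by
    refine red_unique hp (fun i => hm _) hm (fun h0 => m0 ?_) m0 (Nat.ModEq.trans ?_ h)
    · ext j
      simpa using DFunLike.congr_fun h0 (j + f)
    · rw [wt, wt, ← Equiv.sum_comp (Equiv.addRight (f : ZMod n)), Finset.mul_sum]
      refine Nat.ModEq.sum fun j _ => ?_
      rw [equivMapDomain_apply, Equiv.symm_apply_apply, Equiv.coe_addRight,
        mul_left_comm, mul_comm (p ^ f)]
      refine Nat.ModEq.mul_left _ ((pow_val_add hp j f).trans (Nat.ModEq.mul_left _ ?_))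
      rw [ZMod.val_natCast]
      exact (pow_modEq hp f).symm
  simpa using (DFunLike.congr_fun h1 (i + f)).symm

theorem ev_YY [Fintype K] [Fact p.Prime] [CharP K p] (hK : Fintype.card K = p ^ n)
    (α : ZMod n → K) {x : K} (hx : x ≠ 0) (i : ZMod n) :
    ev p n x (YY p α i) = (∑ l, α l * x ^ p ^ l.val) ^ p ^ i.val := by
  rw [YY, map_sum, sum_pow_char_pow, ← Equiv.sum_comp (Equiv.addRight i)]
  refine Finset.sum_congr rfl fun l _ => ?_
  have h5 : x ^ (p ^ n - 1) = 1 := by rw [← hK]; exact FiniteField.pow_card_sub_one_eq_one x hx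
  rw [map_smul, ev, aeval_X, smul_eq_mul, mul_pow, ← pow_mul, bb, Equiv.coe_addRight,
    add_sub_cancel_right, pow_eq_pow_mod _ h5, pow_val_add (Fact.out : p.Prime).pos,
    ← pow_eq_pow_mod _ h5]

theorem ev_bind [Fintype K] [Fact p.Prime] [CharP K p] (hK : Fintype.card K = p ^ n)
    (α : ZMod n → K) {x : K} (hx : x ≠ 0) (P : MvPolynomial (ZMod n) K) :
    ev p n x (bind₁ (YY p α) P) = ev p n (∑ l, α l * x ^ p ^ l.val) P := by
  rw [ev, aeval_bind₁, ev]
  congr 2
  funext i
  exact ev_YY hK α hx i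

end

theorem card_fib {f r : ℕ} [NeZero f] [NeZero (f * r)] (s : ZMod f) :
    #{i | ZMod.castHom (dvd_mul_right f r) (ZMod f) i = s} = r := by
  set cl := ZMod.castHom (dvd_mul_right f r) (ZMod f)
  have hs : Function.Surjective cl := ZMod.ringHom_surjective cl
  have h1 : ∀ t, #{i | cl i = t} = #{i | cl i = s} := fun t =>
    AddMonoidHom.card_fiber_eq_of_mem_range cl.toAddMonoidHom (hs t) (hs s)
  have h2 := Finset.card_eq_sum_card_fiberwise (f := cl) (s := univ) (t := univ)
    fun _ _ => mem_univ _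
  simp only [h1, sum_const, card_univ, ZMod.card, smul_eq_mul] at h2
  exact (Nat.eq_of_mul_eq_mul_left (NeZero.pos f) h2).symm

variable {F K : Type*} [Field F] [Fintype F] [Field K] [Finite K] [Algebra F K]

/-- every linear endomorphism is a linearised polynomial -/
theorem exists_linearised (g : K →ₗ[F] K) :
    ∃ a : Fin (finrank F K) → K, ∀ x, g x = ∑ j, a j * x ^ Fintype.card F ^ j.1 := by
  have h1 := (linearIndependent_toLinearMap F K K).comp _
    (FiniteField.bijective_frobeniusAlgHom_pow F K).1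
  haveI : Nonempty (Fin (finrank F K)) := ⟨⟨0, finrank_pos⟩⟩
  let b := basisOfLinearIndependentOfCardEqFinrank h1 (by simp [finrank_linearMap_self])
  refine ⟨fun j => b.repr g j, fun x => ?_⟩
  conv_lhs => rw [← b.sum_repr g]
  simp [b, LinearMap.sum_apply, AlgHom.coe_pow, FiniteField.coe_frobeniusAlgHom, pow_iterate]

/-- the polynomial method -/
theorem pm (h5 : 5 ≤ finrank F K) (g : K →ₗ[F] K) (hg : ∀ x, x ≠ 0 → g x ≠ 0) (ψ : K → K)
    (h1 : ∀ z x : K, z ≠ 0 → x ≠ 0 → ψ (z ^ Fintype.card F * x) = ψ (z * x))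
    (h2 : ∀ x, x ≠ 0 → ψ (g x) = ψ x) {x₁ x₂ : K} (n1 : x₁ ≠ 0) (n2 : x₂ ≠ 0)
    (nc : ψ x₁ ≠ ψ x₂) :
    ∃ (a : K) (j : ℕ), ∀ x, g x = a * x ^ Fintype.card F ^ j := by
  classical
  obtain ⟨p, hp⟩ := CharP.exists F
  obtain ⟨⟨f, f0⟩, hpp, hf⟩ := FiniteField.card F p
  simp only [PNat.mk_coe] at hf
  haveI := Fact.mk hpp
  haveI : CharP K p := charP_of_injective_algebraMap (algebraMap F K).injective p
  haveI := Fintype.ofFinite K
  obtain ⟨a, ha⟩ := exists_linearised g
  generalize hr : finrank F K = r at *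
  haveI : NeZero f := ⟨f0.ne'⟩
  haveI : NeZero (f * r) := ⟨Nat.mul_ne_zero f0.ne' (by omega)⟩
  have hK : Fintype.card K = p ^ (f * r) := by
    rw [Module.card_eq_pow_finrank (K := F), hr, hf, pow_mul]
  have hv : ∀ j : Fin r, ((f * j.1 : ℕ) : ZMod (f * r)).val = f * j.1 := fun j => by
    rw [ZMod.val_natCast, Nat.mod_eq_of_lt (Nat.mul_lt_mul_of_pos_left j.2 f0)]
  have hi : ∀ j k : Fin r, ((f * j.1 : ℕ) : ZMod (f * r)) = (f * k.1 : ℕ) → j = k :=
    fun j k e => by
      have := congrArg ZMod.val e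
      rw [hv, hv] at this
      exact Fin.ext (Nat.eq_of_mul_eq_mul_left f0 this)
  let α : ZMod (f * r) → K := fun l => ∑ j : Fin r, if ((f * j.1 : ℕ) : ZMod (f * r)) = l then
    a j else 0
  have hα : ∀ j : Fin r, α (f * j.1 : ℕ) = a j := fun j => by
    simp only [α]
    rw [Finset.sum_eq_single j, if_pos rfl]
    · exact fun k _ hk => if_neg fun e => hk (hi _ _ e)
    · simp
  have hg' : ∀ x, ∑ l, α l * x ^ p ^ l.val = g x := fun x => by
    simp only [α, Finset.sum_mul, ite_mul, zero_mul]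
    rw [Finset.sum_comm, ha]
    refine Finset.sum_congr rfl fun j _ => ?_
    rw [Finset.sum_ite_eq, if_pos (mem_univ _), hv, hf, pow_mul]
  obtain ⟨P, p1, p2⟩ := exists_reduced hpp.two_le hK ψ
  set tp : ZMod (f * r) →₀ ℕ := Finsupp.equivFunOnFinite.symm fun _ => p - 1 with htp
  have p3 : ∀ x : K, x ≠ 0 → ev p (f * r) x (P - monomial tp (coeff tp P)) = ψ x - coeff tp P :=
    fun x hx => by
      rw [map_sub, p2 x hx, ev_monomial, htp, wt_top hpp.pos, ← hK,
        FiniteField.pow_card_sub_one_eq_one x hx, mul_one]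
  have p4 : ∀ m, coeff m (P - monomial tp (coeff tp P)) ≠ 0 → coeff m P ≠ 0 ∧ m ≠ tp :=
    fun m hm => by
      rw [coeff_sub, coeff_monomial] at hm
      by_cases e : tp = m
      · subst e; simp at hm
      · rw [if_neg e, sub_zero] at hm; exact ⟨hm, Ne.symm e⟩
  have hPM : PM p r (ZMod.castHom (dvd_mul_right f r) (ZMod f)) α
      (P - monomial tp (coeff tp P)) := by
    refine ⟨hpp, h5, card_fib, fun l hl => ?_, fun m hm => (p1 m (p4 m hm).1).1,
      fun m hm => (p1 m (p4 m hm).1).2, fun m hm => ?_, fun m hm => ?_⟩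
    · obtain ⟨j, -, hj⟩ := Finset.exists_ne_zero_of_sum_ne_zero hl
      have : ((f * j.1 : ℕ) : ZMod (f * r)) = l := by by_contra h; exact hj (if_neg h)
      rw [← this, map_natCast]
      simp
    · by_contra h
      push Not at h
      exact (p4 m hm).2 (Finsupp.ext h)
    · have hm' := (p4 m hm).1
      have s1 : ∀ z : Kˣ, (z : K) ^ (p ^ f * wt p m) = z ^ wt p m := fun z => by
        have e1 := extract hK P.support
          (fun u => coeff u P * ((z : K) ^ (p ^ f * wt p u) - z ^ wt p u)) (fun x hx => by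
            have := h1 z x z.ne_zero hx
            rw [← p2 _ (mul_ne_zero (pow_ne_zero _ z.ne_zero) hx),
              ← p2 _ (mul_ne_zero z.ne_zero hx), ev_eq, ev_eq, ← sub_eq_zero,
              ← Finset.sum_sub_distrib] at this
            rw [← this]
            refine Finset.sum_congr rfl fun u _ => ?_
            rw [hf, mul_pow, mul_pow, ← pow_mul]; ring) (wt p m)
        rw [Finset.sum_eq_single m] at e1
        · exact sub_eq_zero.1 ((mul_eq_zero.1 e1).resolve_left hm')
        · intro u hu hne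
          rw [Finset.mem_filter, MvPolynomial.mem_support_iff] at hu
          exact absurd (red_unique hpp.pos (p1 u hu.1).1 (p1 m hm').1 (p1 u hu.1).2 (p1 m hm').2
            hu.2) hne
        · intro hu
          exact absurd (Finset.mem_filter.2 ⟨MvPolynomial.mem_support_iff.2 hm',
            Nat.ModEq.refl _⟩) hu
      have s2 : p ^ f * wt p m ≡ wt p m [MOD p ^ (f * r) - 1] := by
        obtain ⟨z, hz⟩ := IsCyclic.exists_ofOrder_eq_natCard (α := Kˣ)
        rw [← hK, ← Fintype.card_units, ← Nat.card_eq_fintype_card, ← hz, ← pow_eq_pow_iff_modEq]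
        exact Units.ext (by simpa using s1 z)
      have s3 := shift_eq hpp.pos (p1 m hm').1 (p1 m hm').2 s2
      have s4 : ∀ (k : ℕ) i, m (i + (f * k : ℕ)) = m i := fun k i => by
        induction k with
        | zero => simp
        | succ k ih => rw [mul_add, mul_one, Nat.cast_add, ← add_assoc, s3, ih]
      intro i j e
      have s5 : f ∣ (i - j).val := by
        rw [← ZMod.natCast_eq_zero_iff, ← map_natCast (ZMod.castHom (dvd_mul_right f r) (ZMod f)),
          ZMod.natCast_zmod_val, map_sub, e, sub_self]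
      obtain ⟨k, hk⟩ := s5
      rw [← s4 k j, ← hk, ZMod.natCast_zmod_val, add_sub_cancel]
  have hu : ∀ j k, a j ≠ 0 → a k ≠ 0 → j = k := fun j k hj hk =>
    hi _ _ (hPM.unique hK (fun x hx => by
      rw [map_sub, ev_bind hK α hx, hg', p3 _ hx, p3 _ (hg x hx), h2 x hx, sub_self])
      (fun h0 => nc (by
        have a1 := p3 _ n1
        have a2 := p3 _ n2
        rw [h0, map_zero] at a1 a2
        linear_combination a2 - a1)) (by rwa [hα]) (by rwa [hα]))
  by_cases h0 : ∃ j, a j ≠ 0
  · obtain ⟨j, hj⟩ := h0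
    refine ⟨a j, j, fun x => ?_⟩
    rw [ha, Finset.sum_eq_single j]
    · intro k _ hk
      rw [show a k = 0 by by_contra h; exact hk (hu _ _ h hj), zero_mul]
    · simp
  · push Not at h0
    exact ⟨0, 0, fun x => by simp [ha, h0]⟩

end Cfsg.Lib.CKS
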