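import Cfsg.Agent.Lib.Char.Central

/-! General tools: the trivial intersection inequality, a Bessel type bound for orbital counting
functions, and integer vectors of small variance. -/

set_option autoImplicit false

namespace Cfsg.Lib.CKS

open Cfsg Cfsg.Lib.Char Finset MulAction
open scoped ComplexConjugate

variable {G : Type*} [Group G] [Fintype G]

/-- the trivial intersection inequality -/
theorem ti_le (S : Finset G) (N : Subgroup G) (hS : ∀ g, ∀ y ∈ S, g * y * g⁻¹ ∈ S → g ∈ N)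
    (f : G → ℝ) (f0 : ∀ g, 0 ≤ f g) (hf : ∀ g h, f (h * g * h⁻¹) = f g) :
    (Nat.card G : ℝ) * ∑ y ∈ S, f y ≤ Nat.card N * ∑ g, f g := by
  classical
  have h1 : ∑ t ∈ univ ×ˢ S, f (t.1 * t.2 * t.1⁻¹) = (Nat.card G : ℝ) * ∑ y ∈ S, f y := by
    rw [Finset.sum_product]
    simp [hf, Nat.card_eq_fintype_card]
  rw [← h1, Finset.sum_comp f (fun t : G × G => t.1 * t.2 * t.1⁻¹), Finset.mul_sum]
  refine le_trans (Finset.sum_le_sum fun u _ => ?_) (Finset.sum_le_sum_of_subset_of_nonneg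
    (subset_univ _) fun u _ _ => mul_nonneg (Nat.cast_nonneg _) (f0 u))
  rw [nsmul_eq_mul]
  refine mul_le_mul_of_nonneg_right (Nat.cast_le.2 ?_) (f0 u)
  rcases Finset.eq_empty_or_nonempty {t ∈ univ ×ˢ S | t.1 * t.2 * t.1⁻¹ = u} with h | ⟨t₀, h₀⟩
  · rw [h]; simp
  · simp only [mem_filter, mem_product, mem_univ, true_and] at h₀
    rw [Nat.card_eq_fintype_card, ← Finset.card_univ]
    have hm : ∀ t ∈ {t ∈ (univ : Finset G) ×ˢ S | t.1 * t.2 * t.1⁻¹ = u}, t.1⁻¹ * t₀.1 ∈ N := fun t ht => by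
      simp only [mem_filter, mem_product, mem_univ, true_and] at ht
      refine hS _ _ h₀.1 ?_
      have : t.1⁻¹ * t₀.1 * t₀.2 * (t.1⁻¹ * t₀.1)⁻¹ = t.2 := by
        rw [show t.1⁻¹ * t₀.1 * t₀.2 * (t.1⁻¹ * t₀.1)⁻¹ = t.1⁻¹ * (t₀.1 * t₀.2 * t₀.1⁻¹) * t.1 by
          group, h₀.2, ← ht.2]; group
      rw [this]; exact ht.1
    refine Finset.card_le_card_of_injOn
      (fun t => if h : t.1⁻¹ * t₀.1 ∈ N then (⟨_, h⟩ : N) else 1) (fun _ _ => mem_univ _) ?_
    intro t ht t' ht' e
    simp only [dif_pos (hm t ht), dif_pos (hm t' ht'), Subtype.mk.injEq, mul_left_inj,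
      inv_inj] at e
    simp only [coe_filter, mem_product, mem_univ, true_and, Set.mem_setOf_eq] at ht ht'
    refine Prod.ext e ?_
    have := ht.2.trans ht'.2.symm
    rw [e] at this
    simpa using this

variable {Ω : Type*} [MulAction G Ω] [Fintype Ω]

/-- the permutation character -/
noncomputable def pc (G Ω : Type*) [Group G] [MulAction G Ω] (g : G) : ℂ :=
  Nat.card (fixedBy Ω g)

omit [Fintype G] in
theorem pc_char : IsCharacter G (pc G Ω) := isCharacter_card_fixedBy Ω

omit [Fintype G] in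
open Classical in
theorem pc_eq (g : G) : pc G Ω g = ∑ v : Ω, if g • v = v then 1 else 0 := by
  rw [pc, Finset.sum_boole, Nat.card_eq_fintype_card, Fintype.card_subtype]
  rfl

/-- the Bessel type bound -/
theorem bessel (B : Ω → Ω → ℂ) (J : Finset (IrrCharacter G)) (κ : ℝ) (κ0 : 0 ≤ κ)
    (hκ : ∀ χ ∈ J, ‖classInner (pc G Ω) χ.1‖ ≤ κ * ‖χ.1 1‖) :
    ∑ χ ∈ J, ‖classInner (fun g : G => ∑ v, B v (g • v)) χ.1‖ ^ 2 ≤
      κ * ∑ v, ∑ w, ‖B v w‖ ^ 2 := by
  classical
  set F : G → ℂ := fun g => ∑ v, B v (g • v) with hF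
  set T := ∑ χ ∈ J, ‖classInner F χ.1‖ ^ 2 with hT
  set φ : G → ℂ := ∑ χ ∈ J, classInner F χ.1 • χ.1 with hφ
  have hc : IsClassFunction G φ :=
    isClassFunction_sum _ _ fun χ _ => χ.2.isClassFunction.smul _
  let E : Ω → Ω → ℂ := fun v w => ∑ g, if g • v = w then φ g else 0
  have hG : (0 : ℝ) < Nat.card G := Nat.cast_pos.2 Nat.card_pos
  have h1 : classInner F φ = T := by
    rw [hφ, classInner_sum_right, hT]
    push_cast
    exact Finset.sum_congr rfl fun χ _ => by
      rw [classInner_smul_right, mul_comm, Complex.mul_conj, Complex.normSq_eq_norm_sq]; simp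
  have h2 : (Nat.card G : ℂ) * T = ∑ t : Ω × Ω, B t.1 t.2 * conj (E t.1 t.2) := by
    rw [← h1, card_mul_classInner, Fintype.sum_prod_type]
    simp only [hF, E, Finset.sum_mul, map_sum, Finset.mul_sum]
    rw [Finset.sum_comm]
    refine Finset.sum_congr rfl fun v _ => ?_
    rw [Finset.sum_comm]
    refine Finset.sum_congr rfl fun g _ => ?_
    simp [apply_ite conj]
  have h3 : ∀ χ ∈ J, classInner χ.1 φ = conj (classInner F χ.1) := fun χ hχ => by
    rw [hφ, classInner_sum_right, Finset.sum_eq_single χ, classInner_smul_right, χ.2.inner_self,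
      mul_one]
    · intro ψ _ hne
      rw [classInner_smul_right, irr_inner_eq_ite, if_neg hne.symm, mul_zero]
    · exact fun h => absurd hχ h
  have h4 : ∑ t : Ω × Ω, conj (E t.1 t.2) * E t.1 t.2 = (Nat.card G : ℂ) ^ 2 *
      ∑ χ ∈ J, (‖classInner F χ.1‖ ^ 2 : ℝ) * (classInner χ.1 (pc G Ω) / χ.1 1) := by
    have a1 : ∑ t : Ω × Ω, conj (E t.1 t.2) * E t.1 t.2 =
        ∑ u, pc G Ω u * ∑ h, conj (φ h) * φ (h * u) := by
      rw [Fintype.sum_prod_type]
      have : ∀ v, ∑ w, conj (E v w) * E v w =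
          ∑ u, (if u • v = v then 1 else 0) * ∑ h, conj (φ h) * φ (h * u) := fun v => by
        calc _ = ∑ w, ∑ h, if h • v = w then conj (φ h) * E v w else 0 := by
              refine Finset.sum_congr rfl fun w _ => ?_
              conv_lhs => enter [1]; simp only [E]
              simp only [map_sum, Finset.sum_mul, apply_ite conj, map_zero, ite_mul, zero_mul]
          _ = ∑ h, conj (φ h) * E v (h • v) := by rw [Finset.sum_comm]; simp
          _ = ∑ h, ∑ u : G, (if u • v = v then 1 else 0) * (conj (φ h) * φ (h * u)) := by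
              refine Finset.sum_congr rfl fun h _ => ?_
              simp only [E]
              rw [← Equiv.sum_comp (Equiv.mulLeft h), Finset.mul_sum]
              exact Finset.sum_congr rfl fun u _ => by simp [mul_smul]
          _ = _ := by rw [Finset.sum_comm]; simp only [Finset.mul_sum]
      simp_rw [this, pc_eq, Finset.sum_mul]
      rw [Finset.sum_comm]
    have a2 : ∀ u, ∑ h, conj (φ h) * φ (h * u) = ∑ χ ∈ J, classInner F χ.1 *
        (Nat.card G * conj (classInner F χ.1) * χ.1 u / χ.1 1) := fun u => by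
      conv_lhs => enter [2, h, 2]; rw [hφ, Finset.sum_apply]
      simp_rw [Finset.mul_sum]
      rw [Finset.sum_comm]
      refine Finset.sum_congr rfl fun χ hχ => ?_
      rw [← h3 χ hχ, ← χ.2.sum_conj_mul_apply_mul hc, Finset.mul_sum]
      exact Finset.sum_congr rfl fun h _ => by simp only [Pi.smul_apply, smul_eq_mul]; ring
    rw [a1]
    simp_rw [a2, Finset.mul_sum]
    rw [Finset.sum_comm]
    refine Finset.sum_congr rfl fun χ _ => ?_
    have a3 : ∑ u, χ.1 u * pc G Ω u = Nat.card G * classInner χ.1 (pc G Ω) := by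
      rw [card_mul_classInner]; simp [pc]
    have a4 : classInner F χ.1 * conj (classInner F χ.1) = (‖classInner F χ.1‖ ^ 2 : ℝ) := by
      rw [Complex.mul_conj, Complex.normSq_eq_norm_sq]
    rw [← a4]
    calc _ = ∑ u, (classInner F χ.1 * conj (classInner F χ.1) * Nat.card G / χ.1 1) *
          (χ.1 u * pc G Ω u) := Finset.sum_congr rfl fun u _ => by ring
      _ = _ := by rw [← Finset.mul_sum, a3]; ring
  have h5 : ∑ t : Ω × Ω, ‖E t.1 t.2‖ ^ 2 ≤ (Nat.card G : ℝ) ^ 2 * (κ * T) := by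
    have a1 : ((∑ t : Ω × Ω, ‖E t.1 t.2‖ ^ 2 : ℝ) : ℂ) =
        ∑ t : Ω × Ω, conj (E t.1 t.2) * E t.1 t.2 := by
      push_cast
      exact Finset.sum_congr rfl fun t _ => by
        rw [mul_comm, Complex.mul_conj, Complex.normSq_eq_norm_sq]; simp
    have a2 := congrArg norm (a1.trans h4)
    rw [Complex.norm_real, Real.norm_of_nonneg (by positivity), norm_mul, norm_pow,
      Complex.norm_natCast] at a2
    rw [a2, hT, Finset.mul_sum]
    refine mul_le_mul_of_nonneg_left ((norm_sum_le _ _).trans (Finset.sum_le_sum fun χ hχ => ?_))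
      (by positivity)
    rw [norm_mul, Complex.norm_real, Real.norm_of_nonneg (by positivity), mul_comm, norm_div,
      ← conj_classInner, Complex.norm_conj]
    refine mul_le_mul_of_nonneg_right ?_ (by positivity)
    rw [div_le_iff₀ (norm_pos_iff.2 χ.2.apply_one_ne_zero)]
    exact hκ χ hχ
  have T0 : 0 ≤ T := by positivity
  have h6 : (Nat.card G : ℝ) * T ≤ ∑ t : Ω × Ω, ‖B t.1 t.2‖ * ‖E t.1 t.2‖ := by
    have := congrArg norm h2
    rw [norm_mul, Complex.norm_natCast, Complex.norm_real, Real.norm_of_nonneg T0] at this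
    rw [this]
    exact (norm_sum_le _ _).trans (le_of_eq (by simp))
  have h7 := Finset.sum_mul_sq_le_sq_mul_sq univ (fun t : Ω × Ω => ‖B t.1 t.2‖)
    (fun t : Ω × Ω => ‖E t.1 t.2‖)
  rw [← Fintype.sum_prod_type' (fun v w => ‖B v w‖ ^ 2)]
  set b := ∑ t : Ω × Ω, ‖B t.1 t.2‖ ^ 2
  have b0 : 0 ≤ b := by positivity
  have h8 : ((Nat.card G : ℝ) * T) ^ 2 ≤ b * ((Nat.card G : ℝ) ^ 2 * (κ * T)) :=
    (pow_le_pow_left₀ (by positivity) h6 2).trans (h7.trans (mul_le_mul_of_nonneg_left h5 b0))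
  rcases T0.eq_or_lt with h | h
  · rw [← h]; positivity
  · have : (Nat.card G : ℝ) ^ 2 * T * T ≤ (Nat.card G : ℝ) ^ 2 * T * (κ * b) := by nlinarith
    exact le_of_mul_le_mul_left this (by positivity)

section Var
variable {I : Type*} [Fintype I]

/-- the variance of an integer vector -/
def var (c : I → ℤ) : ℤ := Fintype.card I * ∑ i, c i ^ 2 - (∑ i, c i) ^ 2

theorem two_var (c : I → ℤ) : 2 * var c = ∑ i, ∑ j, (c i - c j) ^ 2 := by
  simp only [var, sub_sq, sum_add_distrib, sum_sub_distrib, sum_const, card_univ, nsmul_eq_mul,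
    ← Finset.mul_sum, ← Finset.sum_mul]
  ring

theorem var_sub (c : I → ℤ) (k : ℤ) : var (fun i => c i - k) = var c := by
  have h := two_var (fun i => c i - k)
  simp only [sub_sub_sub_cancel_right, ← two_var] at h
  omega

theorem var_indicator [DecidableEq I] (U : Finset I) (e : ℤ) :
    var (fun i => if i ∈ U then e else 0) = (Fintype.card I - #U) * #U * e ^ 2 := by
  simp only [var, ite_pow, ne_eq, OfNat.ofNat_ne_zero, not_false_eq_true, zero_pow,
    sum_ite_mem, univ_inter, sum_const, nsmul_eq_mul]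
  ring

theorem exists_mode {r : ℕ} (ha : (r + 1) ^ 2 < Fintype.card I) (c : I → ℤ)
    (h : var c ≤ r * Fintype.card I) : ∃ k, #{i | c i ≠ k} ≤ r := by
  classical
  haveI : Nonempty I := Fintype.card_pos_iff.1 (by omega)
  obtain ⟨i₀, -, h₀⟩ := Finset.exists_min_image univ (fun i => #{j | c j ≠ c i}) univ_nonempty
  refine ⟨c i₀, ?_⟩
  set U : Finset I := {j | c j ≠ c i₀} with hU
  have h1 : ∀ i, (#{j | c j ≠ c i} : ℤ) ≤ ∑ j, (c i - c j) ^ 2 := fun i => by
    rw [Finset.card_filter]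
    push_cast
    refine Finset.sum_le_sum fun j _ => ?_
    split_ifs with e
    · have : c i - c j ≠ 0 := fun h => e (by omega)
      have := sq_pos_of_ne_zero this
      omega
    · positivity
  have h2 : ∑ i, (#{j | c j ≠ c i} : ℤ) ≤ 2 * (r * Fintype.card I) := by
    refine (Finset.sum_le_sum fun i _ => h1 i).trans ?_
    rw [← two_var]; omega
  have h3 : (Fintype.card I : ℤ) * #U ≤ ∑ i, (#{j | c j ≠ c i} : ℤ) := by
    rw [← nsmul_eq_mul, ← card_univ, ← Finset.sum_const]
    exact Finset.sum_le_sum fun i _ => Nat.cast_le.2 (h₀ i (mem_univ i))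
  have h4 : (#Uᶜ : ℤ) = Fintype.card I - #U := by
    rw [Finset.card_compl, Nat.cast_sub (card_le_univ U)]
  have h5 : (#U : ℤ) * #Uᶜ + #Uᶜ * #U ≤ ∑ i, (#{j | c j ≠ c i} : ℤ) := by
    rw [← Finset.sum_add_sum_compl U, ← nsmul_eq_mul, ← nsmul_eq_mul, ← Finset.sum_const,
      ← Finset.sum_const]
    refine add_le_add (Finset.sum_le_sum fun i hi => Nat.cast_le.2 (Finset.card_le_card
      fun j hj => ?_)) (Finset.sum_le_sum fun i hi => Nat.cast_le.2 (h₀ i (mem_univ i)))
    simp only [hU, mem_compl, mem_filter, mem_univ, true_and, not_not] at hi hj ⊢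
    rw [hj]; exact Ne.symm hi
  by_contra h6
  have h7 : (r : ℤ) + 1 ≤ #U := by push Not at h6; exact_mod_cast h6
  have h8 : ((r : ℤ) + 1) ^ 2 < Fintype.card I := by exact_mod_cast ha
  rw [h4] at h5
  generalize (#U : ℤ) = u at *
  generalize (Fintype.card I : ℤ) = a at *
  have r0 : (0 : ℤ) ≤ r := Nat.cast_nonneg _
  generalize (r : ℤ) = r at *
  have a0 : 0 < a := by nlinarith
  have h9 : u ≤ 2 * r := by nlinarith
  obtain ⟨s, rfl⟩ : ∃ s, u = r + 1 + s := ⟨u - r - 1, by ring⟩
  have : 0 ≤ s := by omega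
  have : s * (s + 1) ≤ s * r ^ 2 := mul_le_mul_of_nonneg_left (by nlinarith) this
  nlinarith

end Var

end Cfsg.Lib.CKS
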