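import Cfsg.Agent.Lib.CK.SD
import Cfsg.Agent.Lib.Char.Product
import Cfsg.Agent.Lib.Char.Burnside

/-! Exceptional characters for an abelian trivial intersection set with a normaliser quotient of
prime order: restrictions of the irreducible characters. -/

set_option autoImplicit false

namespace Cfsg.Lib.CKS

open Cfsg Cfsg.Lib.Char Finset MulAction
open scoped ComplexConjugate

variable {G : Type*} [Group G] [Fintype G]

/-- the hypotheses on the trivial intersection set `Z * (A - 1)` -/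
structure TS (A Z N : Subgroup G) (φ : G) (τ : A ≃* A) (r : ℕ) : Prop where
  comm : IsMulCommutative A
  cen : Z ≤ Subgroup.center G
  disj : ∀ x ∈ A, x ∈ Z → x = 1
  cj : ∀ x : A, (τ x : G) = φ * x * φ⁻¹
  pow : ∀ x, τ^[r] x = x
  fix : ∀ x, τ x = x → x = 1
  prime : r.Prime
  ti : ∀ g, ∀ x ∈ A, ∀ z ∈ Z, ∀ x' ∈ A, ∀ z' ∈ Z, x ≠ 1 → g * (z * x) * g⁻¹ = z' * x' → g ∈ N
  cardN : Nat.card N ≤ r * Nat.card A * Nat.card Z
  alpha : ∀ X : Subgroup G, X.Normal → A ≤ X → Z ≤ X → X = ⊤
  big : (r + 1) ^ 2 < Nat.card A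

/-- multiplicity of an irreducible character of `A` in a restriction -/
noncomputable def cn (A : Subgroup G) [Fintype A] (χ : IrrCharacter G) (l : IrrCharacter A) : ℕ :=
  ((χ.2.isCharacter.restrict A).exists_inner_eq_nat l.2.isCharacter).choose

theorem cn_eq (A : Subgroup G) [Fintype A] (χ : IrrCharacter G) (l : IrrCharacter A) :
    classInner (fun x : A => χ.1 x) l.1 = cn A χ l :=
  ((χ.2.isCharacter.restrict A).exists_inner_eq_nat l.2.isCharacter).choose_spec

theorem irr_central (χ : IrrCharacter G) {z : G} (hz : z ∈ Subgroup.center G) (g : G) :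
    χ.1 (z * g) = χ.1 z / χ.1 1 * χ.1 g :=
  Cfsg.Lib.Char.Cfsg.IsCharacter.apply_mul_of_mem_charCenter χ.2.apply_one_ne_zero (χ.2.center_le_charCenter hz) g

theorem irr_central_norm (χ : IrrCharacter G) {z : G} (hz : z ∈ Subgroup.center G) :
    ‖χ.1 z‖ = ‖χ.1 1‖ :=
  χ.2.isCharacter.mem_charCenter_iff.1 (χ.2.center_le_charCenter hz)

/-- the action on the characters of `A` -/
def sg {A : Type*} [Group A] (τ : A ≃* A) (l : IrrCharacter A) : IrrCharacter A :=
  ⟨fun x => l.1 (τ x), l.2.comp_equiv τ⟩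

open Classical in
/-- the orbit of a character of `A` -/
noncomputable def orb {A : Type*} [Group A] [Finite A] (τ : A ≃* A) (l : IrrCharacter A) :
    Finset (IrrCharacter A) := {m | ∃ i, (sg τ)^[i] l = m}

theorem mem_orb {A : Type*} [Group A] [Finite A] {τ : A ≃* A} {l m : IrrCharacter A} :
    m ∈ orb τ l ↔ ∃ i, (sg τ)^[i] l = m := by simp [orb]

theorem sg_iter {A : Type*} [Group A] (τ : A ≃* A) (i : ℕ) (l : IrrCharacter A) (x : A) :
    ((sg τ)^[i] l).1 x = l.1 (τ^[i] x) := by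
  induction i generalizing x with
  | zero => rfl
  | succ i ih => rw [Function.iterate_succ_apply', Function.iterate_succ_apply, ← ih]; rfl

namespace TS

variable {A Z N : Subgroup G} {φ : G} {τ : A ≃* A} {r : ℕ} (h : TS A Z N φ τ r)
  [Fintype A] [Fintype Z]
include h

omit [Fintype Z] in
theorem lin (l : IrrCharacter A) : l.1 1 = 1 := by
  have := h.comm
  exact l.2.apply_one_of_comm

omit [Fintype Z] in
theorem card_irr : Fintype.card (IrrCharacter A) = Nat.card A := by
  have := sum_irr_apply_one_sq A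
  simp only [h.lin, one_pow, sum_const, card_univ, nsmul_eq_mul, mul_one] at this
  exact_mod_cast this

open Classical in
theorem ti_sum (f : G → ℝ) (f0 : ∀ g, 0 ≤ f g) (hf : ∀ g k, f (k * g * k⁻¹) = f g) :
    (Nat.card G : ℝ) * ∑ x ∈ (univ : Finset A).erase 1, ∑ z : Z, f (z * x) ≤
      (r * Nat.card A * Nat.card Z : ℕ) * ∑ g, f g := by
  have inj : Function.Injective fun t : A × Z => (t.2 * t.1 : G) := by
    rintro ⟨x, z⟩ ⟨x', z'⟩ e
    have e1 : (x : G) * (x' : G)⁻¹ = (z : G)⁻¹ * z' := by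
      rw [mul_inv_eq_iff_eq_mul, mul_assoc, eq_inv_mul_iff_mul_eq]; exact e
    have e2 := h.disj _ (A.mul_mem x.2 (A.inv_mem x'.2)) (e1 ▸ Z.mul_mem (Z.inv_mem z.2) z'.2)
    rw [e2, eq_comm, inv_mul_eq_one] at e1
    exact Prod.ext (Subtype.ext (mul_inv_eq_one.1 e2)) (Subtype.ext e1)
  have := ti_le (((univ.erase 1) ×ˢ univ).image fun t : A × Z => (t.2 * t.1 : G)) N ?_ f f0 hf
  · rw [Finset.sum_image fun a _ b _ e => inj e, Finset.sum_product] at this
    exact this.trans (mul_le_mul_of_nonneg_right (Nat.cast_le.2 h.cardN)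
      (Finset.sum_nonneg fun g _ => f0 g))
  · simp only [mem_image, mem_product, mem_erase, mem_univ, and_true]
    rintro g _ ⟨⟨x, z⟩, hx, rfl⟩ ⟨⟨x', z'⟩, -, e⟩
    exact h.ti g x x.2 z z.2 x' x'.2 z' z'.2 (fun e => hx (Subtype.ext e)) e.symm

omit [Fintype Z] in
theorem apply_eq {θ : G → ℂ} (hθ : IsClassFunction G θ) {c : IrrCharacter A → ℤ}
    (hc : ∀ l, classInner (fun x : A => θ x) l.1 = c l) : θ 1 = ((∑ l, c l : ℤ) : ℂ) := by
  have := (hθ.restrict A).apply_eq_sum_irr 1
  simpa [hc, h.lin] using this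

omit h [Fintype Z] in
theorem inner_res {θ : G → ℂ} (hθ : IsClassFunction G θ) {c : IrrCharacter A → ℤ}
    (hc : ∀ l, classInner (fun x : A => θ x) l.1 = c l) :
    classInner (fun x : A => θ x) (fun x : A => θ x) = ((∑ l, c l ^ 2 : ℤ) : ℂ) := by
  rw [(hθ.restrict A).inner_eq_sum_irr]
  simp [hc, sq]

theorem var_le {θ : G → ℂ} (hθ : IsClassFunction G θ) {c : IrrCharacter A → ℤ}
    (hc : ∀ l, classInner (fun x : A => θ x) l.1 = c l)
    (hz : ∀ z ∈ Z, ∀ g, ‖θ (z * g)‖ = ‖θ g‖) {t : ℕ} (ht : classInner θ θ = t) :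
    var c ≤ r * Fintype.card (IrrCharacter A) * t := by
  classical
  have h1 := h.ti_sum (fun g => ‖θ g‖ ^ 2) (fun _ => by positivity) fun g k => by rw [hθ.conj_apply]
  have hG : (0 : ℝ) < Nat.card G := Nat.cast_pos.2 Nat.card_pos
  have hA : (0 : ℝ) < Nat.card A := Nat.cast_pos.2 Nat.card_pos
  have hZ : (0 : ℝ) < Nat.card Z := Nat.cast_pos.2 Nat.card_pos
  have h2 : ∑ g, ‖θ g‖ ^ 2 = Nat.card G * t := by
    have := congrArg Complex.re ht
    rw [classInner_self_re, Complex.natCast_re] at this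
    rw [← this]; field_simp
  have h3 : ∑ x : A, ‖θ x‖ ^ 2 = Nat.card A * ((∑ l, c l ^ 2 : ℤ) : ℝ) := by
    have := congrArg Complex.re (inner_res hθ hc)
    rw [classInner_self_re, Complex.intCast_re] at this
    rw [← this]; field_simp
  have h4 : ∑ x ∈ (univ : Finset A).erase 1, ∑ z : Z, ‖θ (z * x)‖ ^ 2 =
      Nat.card Z * (var c : ℝ) := by
    simp only [fun (z : Z) g => hz z z.2 g, sum_const, card_univ, nsmul_eq_mul, ← Finset.mul_sum,
      Nat.card_eq_fintype_card]
    congr 1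
    rw [Finset.sum_erase_eq_sub (mem_univ _), h3, OneMemClass.coe_one, h.apply_eq hθ hc,
      Complex.norm_intCast, sq_abs, var, h.card_irr]
    push_cast; ring
  rw [h2, h4] at h1
  rw [h.card_irr]
  have : (Nat.card G * Nat.card Z : ℝ) * var c ≤
      (Nat.card G * Nat.card Z : ℝ) * (r * Nat.card A * t) := by push_cast at h1; linarith
  exact_mod_cast le_of_mul_le_mul_left this (by positivity)

omit [Fintype Z] in
theorem cn_sg (χ : IrrCharacter G) (l : IrrCharacter A) : cn A χ (sg τ l) = cn A χ l := by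
  have := classInner_comp_equiv τ (fun x : A => χ.1 x) l.1
  simp only [h.cj, χ.2.isClassFunction.conj_apply, cn_eq] at this
  exact_mod_cast (cn_eq A χ (sg τ l)).symm.trans this

omit [Fintype Z] in
theorem cn_orb (χ : IrrCharacter G) {l m : IrrCharacter A} (hm : m ∈ orb τ l) :
    cn A χ m = cn A χ l := by
  obtain ⟨i, rfl⟩ := mem_orb.1 hm
  induction i with
  | zero => rfl
  | succ i ih => rw [Function.iterate_succ_apply', h.cn_sg, ih (mem_orb.2 ⟨i, rfl⟩)]

omit [Fintype Z] in
theorem sg_ne {l : IrrCharacter A} (hl : l ≠ irrOne A) : sg τ l ≠ l := fun e => hl <| by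
  have := h.comm
  have inj : Function.Injective fun x : A => x⁻¹ * τ x := fun x y e => by
    have : τ (x * y⁻¹) = x * y⁻¹ := by
      rw [map_mul, map_inv, mul_inv_eq_iff_eq_mul, mul_assoc, ← inv_mul_eq_iff_eq_mul]
      exact e
    exact mul_inv_eq_one.1 (h.fix _ this)
  refine Subtype.ext (funext fun y => ?_)
  obtain ⟨x, rfl⟩ := Finite.injective_iff_surjective.1 inj y
  have e1 : l.1 (τ x) = l.1 x := congrFun (congrArg Subtype.val e) x
  have m := l.2.isCharacter.map_mul_of_apply_one (h.lin l)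
  rw [m, e1, ← m, inv_mul_cancel, h.lin, irrOne_apply]

omit [Fintype Z] in
theorem sg_per (l : IrrCharacter A) : Function.IsPeriodicPt (sg τ) r l :=
  Subtype.ext (funext fun x => by rw [sg_iter, h.pow])

omit [Fintype Z] in
theorem card_orb {l : IrrCharacter A} (hl : l ≠ irrOne A) : #(orb τ l) = r := by
  classical
  have := Fact.mk h.prime
  have h1 := Function.minimalPeriod_eq_prime (h.sg_per l) (h.sg_ne hl)
  have h2 : orb τ l = (range r).image fun i => (sg τ)^[i] l := by
    ext m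
    simp only [mem_orb, mem_image, mem_range]
    refine ⟨?_, fun ⟨i, _, e⟩ => ⟨i, e⟩⟩
    rintro ⟨i, rfl⟩
    exact ⟨i % r, Nat.mod_lt _ h.prime.pos, (h.sg_per l).iterate_mod_apply i⟩
  rw [h2, card_image_of_injOn, card_range]
  have := Function.iterate_injOn_Iio_minimalPeriod (f := sg τ) (x := l)
  rw [h1] at this
  simpa using this

omit [Fintype Z] in
theorem one_notMem_orb {l : IrrCharacter A} (hl : l ≠ irrOne A) : irrOne A ∉ orb τ l := by
  intro hm
  obtain ⟨i, e⟩ := mem_orb.1 hm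
  refine hl (Subtype.ext (funext fun y => ?_))
  obtain ⟨x, rfl⟩ := τ.surjective.iterate i y
  rw [← sg_iter, e, irrOne_apply, irrOne_apply]

omit [Fintype Z] in
theorem orb_eq {l m : IrrCharacter A} (hl : l ≠ irrOne A) (hm : m ∈ orb τ l) :
    orb τ m = orb τ l := by
  refine eq_of_subset_of_card_le (fun n hn => ?_) ?_
  · obtain ⟨i, rfl⟩ := mem_orb.1 hm
    obtain ⟨j, rfl⟩ := mem_orb.1 hn
    exact mem_orb.2 ⟨j + i, Function.iterate_add_apply _ _ _ _⟩
  · rw [h.card_orb hl, h.card_orb fun e => h.one_notMem_orb hl (e ▸ hm)]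

end TS

/-- non-exceptional characters -/
def Nor (A : Subgroup G) [Fintype A] (χ : IrrCharacter G) (k : ℕ) : Prop :=
  ∀ l, l ≠ irrOne A → cn A χ l = k

open Classical in
/-- exceptional characters -/
def Exc {A : Subgroup G} [Fintype A] (τ : A ≃* A) (χ : IrrCharacter G) (l : IrrCharacter A)
    (k : ℕ) (e : ℤ) : Prop :=
  l ≠ irrOne A ∧ e ^ 2 = 1 ∧ ∀ m, (cn A χ m : ℤ) = k + if m ∈ orb τ l then e else 0

namespace TS

variable {A Z N : Subgroup G} {φ : G} {τ : A ≃* A} {r : ℕ} (h : TS A Z N φ τ r)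
  [Fintype A] [Fintype Z]
include h

theorem cls (χ : IrrCharacter G) : ∃ k, Nor A χ k ∨ ∃ l e, Exc τ χ l k e := by
  classical
  have hv : var (fun l => (cn A χ l : ℤ)) ≤ r * Fintype.card (IrrCharacter A) * (1 : ℕ) :=
    h.var_le χ.2.isClassFunction (fun l => by simp [cn_eq]) (fun z hz g => by
      rw [irr_central χ (h.cen hz), norm_mul, norm_div, irr_central_norm χ (h.cen hz),
        div_self (norm_ne_zero_iff.2 χ.2.apply_one_ne_zero), one_mul]) (by simp [χ.2.inner_self])
  rw [Nat.cast_one, mul_one] at hv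
  have big := h.big
  rw [← h.card_irr] at big
  obtain ⟨k, hk⟩ := exists_mode big _ hv
  have hex : ∃ l, (cn A χ l : ℤ) = k := by
    by_contra hc
    push Not at hc
    rw [filter_true_of_mem fun l _ => hc l, card_univ] at hk
    nlinarith
  obtain ⟨l₀, rfl⟩ := hex
  refine ⟨cn A χ l₀, ?_⟩
  by_cases hn : Nor A χ (cn A χ l₀)
  · exact Or.inl hn
  simp only [Nor, not_forall] at hn
  obtain ⟨l, hl, hne⟩ := hn
  have hU : orb τ l = univ.filter fun i => (cn A χ i : ℤ) ≠ cn A χ l₀ :=
    eq_of_subset_of_card_le (fun m hm => by simpa [h.cn_orb χ hm] using hne)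
      (by rwa [h.card_orb hl])
  have hc : ∀ m, (cn A χ m : ℤ) - cn A χ l₀ =
      if m ∈ orb τ l then (cn A χ l : ℤ) - cn A χ l₀ else 0 := fun m => by
    split_ifs with hm
    · rw [h.cn_orb χ hm]
    · simpa [hU, sub_eq_zero] using hm
  refine Or.inr ⟨l, cn A χ l - cn A χ l₀, hl, ?_, fun m => by rw [← hc]; ring⟩
  rw [← var_sub _ (cn A χ l₀), funext hc, var_indicator, h.card_orb hl] at hv
  have e0 : (cn A χ l : ℤ) - cn A χ l₀ ≠ 0 := fun e => hne (by omega)
  generalize (cn A χ l : ℤ) - cn A χ l₀ = e at *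
  by_contra e1
  have : 2 ≤ e ^ 2 := by have := sq_pos_of_ne_zero e0; omega
  have r0 : (0 : ℤ) < r := Nat.cast_pos.2 h.prime.pos
  have b : ((r : ℤ) + 1) ^ 2 < Fintype.card (IrrCharacter A) := by exact_mod_cast big
  generalize (Fintype.card (IrrCharacter A) : ℤ) = a at *
  have : (a - r) * r * 2 ≤ (a - r) * r * e ^ 2 :=
    mul_le_mul_of_nonneg_left this (mul_nonneg (by nlinarith) r0.le)
  have : 0 < r * (a - 2 * r) := mul_pos r0 (by nlinarith)
  nlinarith

omit [Fintype Z] in
theorem deg (χ : IrrCharacter G) : χ.1 1 = ((∑ l, cn A χ l : ℕ) : ℂ) := by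
  have := h.apply_eq χ.2.isClassFunction (c := fun l => cn A χ l) fun l => by simp [cn_eq]
  exact_mod_cast this

omit [Fintype Z] in
theorem le_deg {χ : IrrCharacter G} (U : Finset (IrrCharacter A))
    (hU : ∀ l, l ∉ U → 1 ≤ cn A χ l) : Nat.card A ≤ ∑ l, cn A χ l + #U := by
  classical
  rw [← h.card_irr, ← card_compl_add_card U]
  refine Nat.add_le_add_right (le_trans ?_ (sum_le_sum_of_subset (subset_univ Uᶜ))) _
  rw [card_eq_sum_ones]
  exact sum_le_sum fun l hl => hU l (mem_compl.1 hl)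

omit [Fintype Z] in
theorem nor_deg {χ : IrrCharacter G} {k : ℕ} (hn : Nor A χ k) (hk : k ≠ 0) :
    Nat.card A ≤ ∑ l, cn A χ l + 1 := by
  have := h.le_deg (χ := χ) {irrOne A} fun l hl => by
    rw [hn l (by simpa using hl)]; omega
  simpa using this

omit [Fintype Z] in
theorem exc_deg' {χ : IrrCharacter G} {l : IrrCharacter A} {k : ℕ} {e : ℤ} (he : Exc τ χ l k e)
    (hk : k ≠ 0) : Nat.card A ≤ ∑ l, cn A χ l + r := by
  rw [← h.card_orb he.1]
  refine h.le_deg _ fun m hm => ?_
  have := he.2.2 m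
  rw [if_neg hm] at this
  omega

omit [Fintype Z] in
theorem nor_ker {χ : IrrCharacter G} (hn : Nor A χ 0) : A ≤ charKer χ.1 := fun x hx => by
  have : ∀ y : A, χ.1 y = cn A χ (irrOne A) := fun y => by
    rw [(χ.2.isClassFunction.restrict A).apply_eq_sum_irr y, Finset.sum_eq_single (irrOne A)]
    · simp [cn_eq]
    · intro l _ hl; simp [cn_eq, hn l hl]
    · simp
  exact χ.2.isCharacter.mem_charKer_iff.2 ((this ⟨x, hx⟩).trans (this 1).symm)

theorem exc_deg {χ : IrrCharacter G} {l : IrrCharacter A} {k : ℕ} {e : ℤ} (he : Exc τ χ l k e) :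
    Nat.card A ≤ ∑ l, cn A χ l + r := by
  classical
  rcases ne_or_eq k 0 with hk | rfl
  · exact h.exc_deg' he hk
  exfalso
  have hl : l ∈ orb τ l := mem_orb.2 ⟨0, rfl⟩
  have e1 : e = 1 := by
    have := he.2.2 l
    rw [if_pos hl] at this
    rcases sq_eq_one_iff.1 he.2.1 with h1 | h1 <;> omega
  subst e1
  have hc : ∀ m, (cn A χ m : ℤ) = if m ∈ orb τ l then 1 else 0 := fun m => by simpa using he.2.2 m
  have d1 : χ.1 1 = r := by
    rw [h.apply_eq χ.2.isClassFunction (c := fun l => cn A χ l) fun l => by simp [cn_eq]]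
    simp [hc, h.card_orb he.1]
  set ψ : G → ℂ := χ.1 * fun g => conj (χ.1 g) with hψ
  have cψ : IsCharacter G ψ := χ.2.isCharacter.mul χ.2.isCharacter.conj
  have d2 : ψ 1 = (r ^ 2 : ℕ) := by simp [hψ, d1, sq]
  have i1 : classInner (fun x : A => ψ x) (irrOne A).1 = r := by
    rw [coe_irrOne]
    refine (classInner_eq_inner_one (fun x : A => χ.1 x) (fun x : A => χ.1 x)).symm.trans ?_
    rw [inner_res χ.2.isClassFunction (c := fun l => cn A χ l) fun l => by simp [cn_eq]]
    simp [hc, h.card_orb he.1]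
  have i2 : classInner (fun x : A => ψ x) (irrOne A).1 =
      ∑ η : IrrCharacter G, classInner ψ η.1 * cn A η (irrOne A) := by
    have : (fun x : A => ψ x) = ∑ η : IrrCharacter G, classInner ψ η.1 • fun x : A => η.1 x := by
      ext x; rw [cψ.isClassFunction.apply_eq_sum_irr]; simp
    rw [this, classInner_sum_left]
    simp only [classInner_smul_left, cn_eq]
  rw [i2, Finset.sum_eq_single (irrOne G)] at i1
  · have a1 : classInner ψ (irrOne G).1 = 1 :=
      (classInner_eq_inner_one χ.1 χ.1).symm.trans χ.2.inner_self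
    have a2 : (cn A (irrOne G) (irrOne A) : ℂ) = 1 :=
      (cn_eq _ _ _).symm.trans (irrOne A).2.inner_self
    rw [a1, a2, one_mul] at i1
    exact h.prime.one_lt.ne (by exact_mod_cast i1)
  · intro η _ hη
    by_contra h0
    rw [mul_eq_zero, not_or] at h0
    have dη := cψ.degree_le_of_constituent η.2 h0.1 (h.deg η) d2
    have big := h.big
    have r0 := h.prime.pos
    obtain ⟨k, hn | ⟨m, e, hx⟩⟩ := h.cls η <;> rcases ne_or_eq k 0 with hk | rfl
    · have := h.nor_deg hn hk; nlinarith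
    · refine η.2.charKer_ne_top (fun e => hη (Subtype.ext e)) (h.alpha _
        η.2.isCharacter.charKer_normal (h.nor_ker hn) fun z hz => ?_)
      refine η.2.isCharacter.mem_charKer_iff.2 (cψ.apply_eq_of_constituent η.2 h0.1 ?_)
      simp only [hψ, Pi.mul_apply, Complex.mul_conj, Complex.normSq_eq_norm_sq,
        irr_central_norm χ (h.cen hz)]
    · have := h.exc_deg' hx hk; nlinarith
    · have := hx.2.2 (irrOne A)
      rw [if_neg (h.one_notMem_orb hx.1)] at this
      exact h0.2 (by exact_mod_cast this)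
  · simp

theorem exc_uniq {χ χ' : IrrCharacter G} {l l' m : IrrCharacter A} {k k' : ℕ} {e e' : ℤ}
    (he : Exc τ χ l k e) (he' : Exc τ χ' l' k' e') (hm : m ∈ orb τ l) (hm' : m ∈ orb τ l')
    (hω : ∀ z ∈ Z, χ.1 z / χ.1 1 = χ'.1 z / χ'.1 1) : χ = χ' := by
  classical
  by_contra hne
  have ho : orb τ l' = orb τ l := (h.orb_eq he'.1 hm').symm.trans (h.orb_eq he.1 hm)
  have s2 : ((e * e' : ℤ) : ℂ) * (e * e' : ℤ) = 1 := by
    have : (e * e') * (e * e') = 1 := by rw [mul_mul_mul_comm, ← sq, ← sq, he.2.1, he'.2.1, one_mul]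
    exact_mod_cast this
  have hv := h.var_le (θ := χ.1 + (e * e') • χ'.1)
    (χ.2.isClassFunction.add (χ'.2.isClassFunction.smul _))
    (c := fun m => cn A χ m + e * e' * cn A χ' m) (fun m => ?_) (fun z hz g => ?_) (t := 2) ?_
  · have hc : (fun m => ((cn A χ m : ℤ) + e * e' * cn A χ' m) - (k + e * e' * k')) =
        fun m => if m ∈ orb τ l then 2 * e else 0 := funext fun m => by
      rw [he.2.2, he'.2.2, ho]
      split_ifs
      · linear_combination e * he'.2.1
      · ring
    rw [← var_sub _ (k + e * e' * k'), hc, var_indicator, h.card_orb he.1, h.card_irr, mul_pow,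
      he.2.1] at hv
    have r0 : (0 : ℤ) < r := Nat.cast_pos.2 h.prime.pos
    have b : ((r : ℤ) + 1) ^ 2 < Nat.card A := by exact_mod_cast h.big
    generalize (Nat.card A : ℤ) = a at *
    have : 0 < r * (a - 2 * r) := mul_pos r0 (by nlinarith)
    push_cast at hv
    nlinarith
  · have : (fun x : A => (χ.1 + (e * e') • χ'.1) x) =
        (fun x : A => χ.1 x) + (e * e') • fun x : A => χ'.1 x := rfl
    rw [this, classInner_add_left, classInner_zsmul_left, cn_eq, cn_eq]
    push_cast; rfl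
  · have : (χ.1 + (e * e') • χ'.1) (z * g) = χ.1 z / χ.1 1 * (χ.1 + (e * e') • χ'.1) g := by
      simp only [Pi.add_apply, Pi.smul_apply, irr_central _ (h.cen hz), hω z hz]
      simp only [zsmul_eq_mul]
      ring
    rw [this, norm_mul, norm_div, irr_central_norm χ (h.cen hz),
      div_self (norm_ne_zero_iff.2 χ.2.apply_one_ne_zero), one_mul]
  · simp only [classInner_add_left, classInner_add_right, classInner_zsmul_left,
      classInner_zsmul_right, irr_inner_eq_ite, if_neg hne, if_neg (Ne.symm hne), if_true]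
    linear_combination s2

end TS

end Cfsg.Lib.CKS
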