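import Cfsg.Agent.Lib.CK.SE

/-! No exceptional character is a constituent of the permutation character, and the resulting
estimate for orbital counting functions. -/

set_option autoImplicit false

namespace Cfsg.Lib.CKS

open Cfsg Cfsg.Lib.Char Finset MulAction
open scoped ComplexConjugate

variable {G : Type*} [Group G] [Fintype G] {Ω : Type*} [MulAction G Ω] [Fintype Ω]

/-- the hypotheses on the action -/
structure TA (Ω : Type*) [MulAction G Ω] (A Z : Subgroup G) (r d : ℕ) : Prop where
  semi : ∀ x ∈ A, ∀ z ∈ Z, ∀ v : Ω, (z * x) • v = v → z * x = 1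
  card : Nat.card Ω = d * Nat.card A * Nat.card Z
  pos : 0 < d
  trans : IsPretransitive G Ω
  beta : ∀ μ : G →* ℂˣ, (∀ x ∈ A, μ x = 1) → (∀ g, ∀ v : Ω, g • v = v → μ g = 1) → μ = 1
  num : r * d * Nat.card A < (Nat.card A - 1) * (Nat.card A - r)

variable (Ω) in
/-- multiplicity in the permutation character -/
noncomputable def mn (χ : IrrCharacter G) : ℕ :=
  ((pc_char (G := G) (Ω := Ω)).exists_inner_eq_nat χ.2.isCharacter).choose

theorem mn_eq (χ : IrrCharacter G) : classInner (pc G Ω) χ.1 = mn Ω χ :=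
  ((pc_char (G := G) (Ω := Ω)).exists_inner_eq_nat χ.2.isCharacter).choose_spec

/-- the central character -/
noncomputable def om {Z : Subgroup G} (hZ : Z ≤ Subgroup.center G) (χ : IrrCharacter G) :
    IrrCharacter Z :=
  ⟨fun z => χ.1 z / χ.1 1, isIrrCharacter_of_map_mul (div_self χ.2.apply_one_ne_zero)
    fun a b => by rw [Subgroup.coe_mul, irr_central χ (hZ a.2), mul_div_assoc]⟩

theorem mn_hom [IsPretransitive G Ω] {χ : IrrCharacter G} {μ : G →* ℂˣ}
    (e : χ.1 = fun g => (μ g : ℂ)) (hm : mn Ω χ ≠ 0) (g : G) (v : Ω) (hg : g • v = v) :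
    μ g = 1 := by
  classical
  by_contra h1
  refine hm ?_
  have : (Nat.card G : ℂ) * mn Ω χ = 0 := by
    rw [← mn_eq, card_mul_classInner]
    simp only [pc_eq, Finset.sum_mul]
    rw [Finset.sum_comm]
    refine Finset.sum_eq_zero fun w _ => ?_
    obtain ⟨k, rfl⟩ := exists_smul_eq G v w
    have a1 := Equiv.sum_comp (Equiv.mulRight (k * g * k⁻¹))
      fun u => (if u • k • v = k • v then (1 : ℂ) else 0) * conj (χ.1 u)
    have a2 : ∀ u, (u * (k * g * k⁻¹)) • k • v = u • k • v := fun u => by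
      simp [mul_smul, hg]
    have a3 : ∀ u, conj (χ.1 (u * (k * g * k⁻¹))) = conj (χ.1 u) * conj (μ g : ℂ) := fun u => by
      simp [e]
    simp only [Equiv.coe_mulRight, a2, a3] at a1
    simp only [← mul_assoc, ← Finset.sum_mul] at a1
    by_contra h0
    have : conj (μ g : ℂ) = 1 := mul_left_cancel₀ h0 (a1.trans (mul_one _).symm)
    exact h1 (Units.ext (by simpa using congrArg conj this))
  exact_mod_cast (mul_eq_zero.1 this).resolve_left (card_ne_zero_complex G)

namespace TS

variable {A Z N : Subgroup G} {φ : G} {τ : A ≃* A} {r d : ℕ} (h : TS A Z N φ τ r)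
  (hA : TA Ω A Z r d) [Fintype A] [Fintype Z]
include h hA

open Classical in
theorem key (ω : IrrCharacter Z) (l : IrrCharacter A) :
    ∑ χ with om h.cen χ = ω, mn Ω χ * cn A χ l = d := by
  have h1 : ∑ x : A, ∑ z : Z, pc G Ω (z * x) * conj (l.1 x) * conj (ω.1 z) =
      (d * Nat.card A * Nat.card Z : ℕ) := by
    have hZ : IsMulCommutative Z := ⟨⟨fun a b => Subtype.ext
      (Subgroup.mem_center_iff.1 (h.cen b.2) a)⟩⟩
    have a1 : ∀ (x : A) (z : Z), (z * x : G) ≠ 1 → pc G Ω (z * x) = 0 := fun x z e => by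
      rw [pc_eq]
      exact Finset.sum_eq_zero fun v _ => if_neg fun hv => e (hA.semi x x.2 z z.2 v hv)
    rw [Finset.sum_eq_single 1, Finset.sum_eq_single 1]
    · rw [← hA.card]; simp [h.lin, ω.2.apply_one_of_comm, pc]
    · intro z _ hz
      rw [a1, zero_mul, zero_mul]
      simpa using hz
    · simp
    · intro x _ hx
      refine Finset.sum_eq_zero fun z _ => ?_
      rw [a1, zero_mul, zero_mul]
      exact fun e => hx (Subtype.ext (h.disj x x.2
        (eq_inv_of_mul_eq_one_right e ▸ Z.inv_mem z.2)))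
    · simp
  have h2 : ∑ x : A, ∑ z : Z, pc G Ω (z * x) * conj (l.1 x) * conj (ω.1 z) =
      ∑ χ : IrrCharacter G, mn Ω χ * (∑ x : A, χ.1 x * conj (l.1 x)) *
        ∑ z : Z, (om h.cen χ).1 z * conj (ω.1 z) := by
    simp only [fun g => (pc_char (G := G) (Ω := Ω)).isClassFunction.apply_eq_sum_irr g, mn_eq,
      fun (z : Z) χ => irr_central χ (h.cen z.2), Finset.sum_mul, Finset.mul_sum]
    rw [Finset.sum_comm_cycle]
    refine Finset.sum_congr rfl fun χ _ => ?_
    rw [Finset.sum_comm]
    exact Finset.sum_congr rfl fun z _ => Finset.sum_congr rfl fun x _ => by simp only [om]; ring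
  rw [h2] at h1
  simp only [← card_mul_classInner, cn_eq, irr_inner_eq_ite] at h1
  have h3 : ((∑ χ with om h.cen χ = ω, mn Ω χ * cn A χ l : ℕ) : ℂ) * (Nat.card A * Nat.card Z) =
      d * (Nat.card A * Nat.card Z) := by
    push_cast at h1 ⊢
    rw [← mul_assoc, ← mul_assoc, ← h1, Finset.sum_filter, Finset.sum_mul, Finset.sum_mul]
    exact Finset.sum_congr rfl fun χ _ => by split_ifs <;> ring
  exact_mod_cast mul_right_cancel₀ (mul_ne_zero (card_ne_zero_complex A) (card_ne_zero_complex Z)) h3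

theorem mn_le (χ : IrrCharacter G) : mn Ω χ ≤ d := by
  classical
  have : ∃ l, cn A χ l ≠ 0 := by
    by_contra hc
    push Not at hc
    exact χ.2.apply_one_ne_zero (by simp [h.deg, hc])
  obtain ⟨l, hl⟩ := this
  rw [← h.key hA (om h.cen χ) l]
  refine le_trans (Nat.le_mul_of_pos_right _ (Nat.pos_of_ne_zero hl)) ?_
  exact Finset.single_le_sum (f := fun χ => mn Ω χ * cn A χ l) (fun _ _ => Nat.zero_le _) (by simp)

theorem no_exc {χ : IrrCharacter G} {l : IrrCharacter A} {k : ℕ} {e : ℤ} (he : Exc τ χ l k e) :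
    mn Ω χ = 0 := by
  classical
  by_contra hm
  set E : Finset (IrrCharacter G) :=
    {η | om h.cen η = om h.cen χ ∧ mn Ω η ≠ 0 ∧ ∃ l k e, Exc τ η l k e} with hE
  let U : IrrCharacter G → Finset (IrrCharacter A) := fun η => {m | cn A η m ≠ cn A η (irrOne A)}
  have hU : ∀ {η l k e}, Exc τ η l k e → U η = orb τ l := fun {η l k e} hx => by
    ext m
    have a1 := hx.2.2 m
    have a2 := hx.2.2 (irrOne A)
    have a3 : e ≠ 0 := fun h0 => by simpa [h0] using hx.2.1
    rw [if_neg (h.one_notMem_orb hx.1)] at a2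
    simp only [U, mem_filter, mem_univ, true_and]
    split_ifs at a1 with hm <;> simp only [hm, iff_true, iff_false] <;> omega
  have hl : l ∈ orb τ l := mem_orb.2 ⟨0, rfl⟩
  have cov : univ.erase (irrOne A) ⊆ E.biUnion U := fun m hm1 => by
    by_contra hc
    simp only [mem_biUnion, not_exists, not_and, hE, mem_filter, mem_univ, true_and] at hc
    have a1 : ∑ η with om h.cen η = om h.cen χ, (mn Ω η : ℤ) * (cn A η l - cn A η m) = 0 := by
      have := (h.key hA (om h.cen χ) l).trans (h.key hA (om h.cen χ) m).symm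
      simp only [mul_sub, sum_sub_distrib, sub_eq_zero]
      exact_mod_cast this
    rw [Finset.sum_eq_single χ] at a1
    · have := hc χ ⟨rfl, hm, _, _, _, he⟩
      rw [hU he] at this
      rw [he.2.2, he.2.2, if_pos hl, if_neg this] at a1
      have a3 : e ≠ 0 := fun h0 => by simpa [h0] using he.2.1
      simp [hm, a3] at a1
    · intro η hη hne
      rw [mem_filter] at hη
      rcases eq_or_ne (mn Ω η) 0 with h0 | h0
      · simp [h0]
      obtain ⟨k', hn | ⟨l', e', hx⟩⟩ := h.cls η
      · simp [hn l he.1, hn m (mem_erase.1 hm1).1]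
      have := hc η ⟨hη.2, h0, _, _, _, hx⟩
      rw [hU hx] at this
      rw [hx.2.2, hx.2.2, if_neg this, if_neg, sub_self, mul_zero]
      exact fun hl' => hne (h.exc_uniq hx he hl' hl fun z hz =>
        congrFun (congrArg Subtype.val hη.2) ⟨z, hz⟩)
    · simp
  have c1 : Nat.card A - 1 ≤ #E * r := by
    have := (card_le_card cov).trans (card_biUnion_le_card_mul E U r fun η hη => by
      obtain ⟨-, -, l, k, e, hx⟩ := (mem_filter.1 hη).2
      rw [hU hx, h.card_orb hx.1])
    rwa [card_erase_of_mem (mem_univ _), card_univ, h.card_irr] at this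
  have c2 : #E * (Nat.card A - r) ≤ d * Nat.card A := by
    calc _ ≤ ∑ η ∈ E, mn Ω η * ∑ l, cn A η l := by
          rw [← smul_eq_mul]
          refine card_nsmul_le_sum _ _ _ fun η hη => ?_
          obtain ⟨-, h0, l, k, e, hx⟩ := (mem_filter.1 hη).2
          have := h.exc_deg hx
          exact le_trans (by omega) (Nat.le_mul_of_pos_left _ (Nat.pos_of_ne_zero h0))
      _ ≤ ∑ η with om h.cen η = om h.cen χ, mn Ω η * ∑ l, cn A η l :=
          sum_le_sum_of_subset fun η hη => mem_filter.2 ⟨mem_univ _, (mem_filter.1 hη).2.1⟩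
      _ = _ := by
          simp only [Finset.mul_sum]
          rw [Finset.sum_comm]
          simp only [h.key hA, sum_const, card_univ, h.card_irr, smul_eq_mul]
          exact mul_comm _ _
  have := hA.num
  nlinarith [Nat.mul_le_mul_right (Nat.card A - r) c1, Nat.mul_le_mul_left r c2]

omit [Fintype Z] in
theorem nor_pos {χ : IrrCharacter G} (h1 : χ ≠ irrOne G) (hm : mn Ω χ ≠ 0) : ¬ Nor A χ 0 := by
  intro hn
  have := hA.trans
  have a1 := h.alpha _ χ.2.isClassFunction.charCenter_normal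
    ((h.nor_ker hn).trans charKer_le_charCenter) (h.cen.trans χ.2.center_le_charCenter)
  have a2 := χ.2.sum_norm_sq
  have a3 : ∀ g, ‖χ.1 g‖ = charDegree χ.1 := fun g => by
    rw [← χ.2.isCharacter.norm_apply_one, ← χ.2.isCharacter.mem_charCenter_iff, a1]; trivial
  simp only [a3, sum_const, card_univ, nsmul_eq_mul, Nat.card_eq_fintype_card] at a2
  have a4 : charDegree χ.1 ^ 2 = 1 := by
    exact_mod_cast mul_left_cancel₀ (Nat.cast_pos.2 Fintype.card_pos).ne' (a2.trans (mul_one _).symm)
  have a5 := χ.2.isCharacter.charDegree_eq_one_iff.1 (by simpa using a4)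
  obtain ⟨μ, e⟩ := χ.2.isCharacter.exists_hom_of_apply_one a5
  have := hA.beta μ (fun x hx => Units.ext ?_) (mn_hom e hm)
  · exact h1 (Subtype.ext (by simp [e, this, coe_irrOne]))
  · have := χ.2.isCharacter.mem_charKer_iff.1 (h.nor_ker hn hx)
    simpa [e] using this

omit hA [Fintype Z] in
theorem nor_apply {χ : IrrCharacter G} {k : ℕ} (hn : Nor A χ k) {x : A} (hx : x ≠ 1) :
    χ.1 x = cn A χ (irrOne A) - k := by
  classical
  have := sum_irr_apply_one_mul_apply_of_ne_one hx
  simp only [h.lin, one_mul] at this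
  rw [(χ.2.isClassFunction.restrict A).apply_eq_sum_irr x, ← add_sum_erase _ _ (mem_univ (irrOne A)),
    sum_congr rfl fun l hl => by rw [cn_eq, hn l (mem_erase.1 hl).1], ← Finset.mul_sum,
    sum_erase_eq_sub (mem_univ _), this]
  simp [cn_eq, sub_eq_add_neg]

end TS

section Main

variable (B : Ω → Ω → Prop) [∀ v w, Decidable (B v w)]

/-- the counting function of a relation -/
def cnt (g : G) : ℕ := #{v | B v (g • v)}

omit [Fintype G] in
theorem cnt_eq (g : G) : ∑ v, (if B v (g • v) then (1 : ℂ) else 0) = cnt B g := by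
  simp [cnt]

variable (hB : ∀ (g : G) v w, B (g • v) (g • w) ↔ B v w) {n : ℕ} (hn : ∀ v, #{w | B v w} = n)
include hB

omit [Fintype G] in
theorem cnt_conj (g k : G) : cnt B (k * g * k⁻¹) = cnt B g := by
  symm
  refine card_equiv (MulAction.toPerm k) fun v => ?_
  simp [mul_smul, hB]

omit hB in
include hn in
theorem cnt_inner [IsPretransitive G Ω] [Nonempty Ω] :
    classInner (fun g : G => (cnt B g : ℂ)) (irrOne G).1 = n := by
  classical
  obtain ⟨o⟩ := ‹Nonempty Ω›
  have a1 : ∀ v w : Ω, #{g : G | g • v = w} = #{g : G | g • o = o} := fun v w => by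
    obtain ⟨a, rfl⟩ := exists_smul_eq G o v
    obtain ⟨b, rfl⟩ := exists_smul_eq G o w
    refine card_equiv ((Equiv.mulRight a).trans (Equiv.mulLeft b⁻¹)) fun g => ?_
    simp [mul_smul, inv_smul_eq_iff]
  have a2 : ∀ (v : Ω) (f : Ω → ℂ), ∑ g : G, f (g • v) = #{g : G | g • o = o} * ∑ w, f w :=
    fun v f => by
      rw [← Finset.sum_fiberwise_of_maps_to (g := fun g : G => g • v) fun _ _ => mem_univ _,
        Finset.mul_sum]
      refine Finset.sum_congr rfl fun w _ => ?_
      rw [Finset.sum_congr rfl fun g hg => by rw [(mem_filter.1 hg).2], sum_const, a1, nsmul_eq_mul]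
  have a3 := a2 o fun _ => 1
  refine mul_left_cancel₀ (card_ne_zero_complex G) ?_
  simp only [card_mul_classInner, irrOne_apply, map_one, mul_one, ← cnt_eq]
  rw [Finset.sum_comm]
  simp only [fun v => a2 v fun w => if B v w then 1 else 0]
  simp only [sum_const, card_univ, nsmul_eq_mul, mul_one] at a3
  simp only [sum_boole, hn, sum_const, card_univ, nsmul_eq_mul, Nat.card_eq_fintype_card, a3]
  ring

variable {A Z N : Subgroup G} {φ : G} {τ : A ≃* A} {r d : ℕ} (h : TS A Z N φ τ r)
  (hA : TA Ω A Z r d) [Fintype Z]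
include h hA hn

/-- the main estimate -/
theorem TS.main {x : G} (hx : x ∈ A) (x1 : x ≠ 1) :
    ((Nat.card A : ℝ) - 1) ^ 2 * ∑ z : Z, ((cnt B (z * x : G) : ℝ) - n) ^ 2 ≤
      r * d ^ 2 * n * (Nat.card A * Nat.card Z) ^ 2 := by
  classical
  have := hA.trans
  have : Nonempty Ω := by
    rw [← Nat.card_pos_iff.trans (and_iff_left inferInstance), hA.card]
    exact Nat.mul_pos (Nat.mul_pos hA.pos Nat.card_pos) Nat.card_pos
  set f : G → ℂ := fun g => cnt B g with hf
  have cf : IsClassFunction G f := fun g k => by simp only [hf, cnt_conj B hB]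
  have hb := fun J κ κ0 hκ => bessel (G := G) (fun v w : Ω => if B v w then (1 : ℂ) else 0) J κ κ0 hκ
  simp only [cnt_eq, ← hf] at hb
  simp only [apply_ite norm, norm_one, norm_zero, ite_pow, one_pow, ne_eq,
    OfNat.ofNat_ne_zero, not_false_eq_true, zero_pow, sum_boole, hn, sum_const, card_univ,
    nsmul_eq_mul, mn_eq, Complex.norm_natCast] at hb
  have z0 : ∀ χ : IrrCharacter G, mn Ω χ = 0 → classInner f χ.1 = 0 := fun χ h0 => by
    simpa using hb {χ} 0 le_rfl (by simp [h0])
  have nor : ∀ χ : IrrCharacter G, mn Ω χ ≠ 0 → ∃ k, Nor A χ k := fun χ h0 => by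
    obtain ⟨k, hk | ⟨l, e, he⟩⟩ := h.cls χ
    · exact ⟨k, hk⟩
    · exact absurd (h.no_exc hA he) h0
  have ind : ∀ z : Z, ∀ y ∈ (univ : Finset A).erase 1, cnt B (z * y : G) = cnt B (z * x : G) :=
    fun z y hy => by
      have : f (z * y) = f (z * x) := by
        rw [cf.apply_eq_sum_irr, cf.apply_eq_sum_irr]
        refine Finset.sum_congr rfl fun χ _ => ?_
        rcases eq_or_ne (mn Ω χ) 0 with h0 | h0
        · simp [z0 χ h0]
        obtain ⟨k, hk⟩ := nor χ h0
        rw [irr_central χ (h.cen z.2), irr_central χ (h.cen z.2), h.nor_apply hk (mem_erase.1 hy).1,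
          ← h.nor_apply hk (x := ⟨x, hx⟩) fun e => x1 (congrArg Subtype.val e)]
      exact Nat.cast_injective (R := ℂ) this
  have a1 : (1 : ℝ) < Nat.card A := by
    have := h.big
    have := h.prime.pos
    exact_mod_cast (by nlinarith)
  have hκ := hb (univ.erase (irrOne G)) (d / (Nat.card A - 1)) (by
    have := sub_pos.2 a1; positivity) fun χ hχ => by
      rcases eq_or_ne (mn Ω χ) 0 with h0 | h0
      · have := sub_pos.2 a1; rw [h0, Nat.cast_zero]; positivity
      obtain ⟨k, hk⟩ := nor χ h0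
      have b1 := h.nor_deg hk fun e => h.nor_pos hA (mem_erase.1 hχ).1 h0 (e ▸ hk)
      rw [h.deg, Complex.norm_natCast, div_mul_eq_mul_div, le_div_iff₀ (sub_pos.2 a1)]
      refine mul_le_mul (Nat.cast_le.2 (h.mn_le hA χ)) ?_ (sub_pos.2 a1).le (Nat.cast_nonneg _)
      rw [sub_le_iff_le_add]; exact_mod_cast b1
  have a2 : ∑ g : G, ((cnt B g : ℝ) - n) ^ 2 =
      Nat.card G * ∑ χ ∈ univ.erase (irrOne G), ‖classInner f χ.1‖ ^ 2 := by
    have c2 : IsClassFunction G (f - (n : ℂ) • (irrOne G).1) :=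
      cf.sub ((irrOne G).2.isClassFunction.smul _)
    have b1 := c2.inner_eq_sum_irr (f - (n : ℂ) • (irrOne G).1)
    rw [← add_sum_erase _ _ (mem_univ (irrOne G)), sum_congr rfl fun χ hχ => by
      rw [classInner_sub_left, classInner_smul_left, irr_inner_eq_ite,
        if_neg (mem_erase.1 hχ).1.symm, mul_zero, sub_zero, Complex.mul_conj,
        Complex.normSq_eq_norm_sq], classInner_sub_left f _ (irrOne G).1, classInner_smul_left,
      (irrOne G).2.inner_self, cnt_inner B hn, mul_one, sub_self, zero_mul, zero_add,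
      classInner_self_eq, ← Complex.ofReal_sum, Complex.ofReal_inj,
      inv_mul_eq_iff_eq_mul₀ (Nat.cast_pos.2 Nat.card_pos).ne'] at b1
    rw [← b1]
    refine Finset.sum_congr rfl fun g _ => ?_
    simp only [hf, Pi.sub_apply, Pi.smul_apply, irrOne_apply, smul_eq_mul, mul_one]
    rw [← Complex.ofReal_natCast, ← Complex.ofReal_natCast, ← Complex.ofReal_sub,
      Complex.norm_real, Real.norm_eq_abs, sq_abs]
  have a3 := h.ti_sum (fun g => ((cnt B g : ℝ) - n) ^ 2) (fun _ => by positivity)
    fun g k => by rw [cnt_conj B hB]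
  rw [Finset.sum_congr rfl fun y hy => by simp only [ind _ y hy]; rfl, sum_const,
    card_erase_of_mem (mem_univ _), card_univ, ← Nat.card_eq_fintype_card, nsmul_eq_mul,
    Nat.cast_sub (by exact_mod_cast a1.le), a2, mul_left_comm _ (Nat.card G : ℝ)] at a3
  have a4 := le_of_mul_le_mul_left a3 (Nat.cast_pos.2 Nat.card_pos)
  rw [← Nat.card_eq_fintype_card, hA.card, div_mul_eq_mul_div, le_div_iff₀ (sub_pos.2 a1)] at hκ
  push_cast at a4 hκ
  have a5 := mul_le_mul_of_nonneg_right a4 (sub_pos.2 a1).le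
  have a6 := mul_le_mul_of_nonneg_left hκ
    (show (0 : ℝ) ≤ r * Nat.card A * Nat.card Z by positivity)
  nlinarith

end Main

end Cfsg.Lib.CKS
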