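import Mathlib

/-! Arithmetic of the Singer cycle of prime degree `r ≥ 5` over the field with `t + 1` elements. -/

set_option autoImplicit false

namespace Cfsg.Lib.CKS

open Finset

/-- `d = gcd (r, t)` and `a d = ((t + 1) ^ r - 1) / t` -/
structure Num (t r d a : ℕ) : Prop where
  prime : r.Prime
  five : 5 ≤ r
  pos : 0 < t
  sum : a * d = ∑ i ∈ range r, (t + 1) ^ i
  dr : d ∣ r
  dt : d ∣ t
  gcd : ∀ e, e ∣ r → e ∣ t → e ∣ d
  ct : a.Coprime t
  cr : a.Coprime r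

theorem geom_modEq (t r : ℕ) : ∑ i ∈ range r, (t + 1) ^ i ≡ r [MOD t] := by
  induction r with
  | zero => rfl
  | succ r ih =>
    rw [sum_range_succ]
    exact ih.add (by simpa using (Nat.add_modEq_left (n := t) (a := 1)).pow r)

theorem exists_num {t r : ℕ} (hr : r.Prime) (h5 : 5 ≤ r) (ht : 0 < t) : ∃ d a, Num t r d a := by
  have m := geom_modEq t r
  have h1 : r.gcd t ∣ ∑ i ∈ range r, (t + 1) ^ i :=
    ((m.of_dvd (Nat.gcd_dvd_right r t)).dvd_iff dvd_rfl).2 (Nat.gcd_dvd_left r t)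
  obtain ⟨a, ha⟩ := h1
  have key : r ∣ t → ¬ r ∣ a := fun hrt hra => by
    rw [Nat.gcd_eq_left hrt] at ha
    obtain ⟨b, rfl⟩ := hrt
    have h2 := odd_sq_dvd_geom_sum₂_sub (R := ℤ) 1 b (hr.odd_of_ne_two (by omega))
    simp only [one_pow, mul_one] at h2
    have h3 : ((r : ℤ)) ^ 2 ∣ ∑ i ∈ range r, (1 + r * b : ℤ) ^ i := by
      have : ((∑ i ∈ range r, (r * b + 1) ^ i : ℕ) : ℤ) = ∑ i ∈ range r, (1 + r * b : ℤ) ^ i := by
        simp [add_comm]
      rw [← this, ha, sq]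
      exact_mod_cast Nat.mul_dvd_mul_left r hra
    have h4 : r ^ 2 ∣ r := by
      have := dvd_sub h3 h2
      rw [sub_sub_cancel] at this
      exact_mod_cast this
    have := Nat.le_of_dvd hr.pos h4
    nlinarith
  have hd : ∀ s, s ∣ a → s ∣ ∑ i ∈ range r, (t + 1) ^ i := fun s hs => ha ▸ hs.mul_left _
  refine ⟨r.gcd t, a, hr, h5, ht, by rw [ha, mul_comm], Nat.gcd_dvd_left _ _, Nat.gcd_dvd_right _ _,
    fun e => Nat.dvd_gcd, Nat.coprime_of_dvd fun s hs h1 h2 => ?_, ?_⟩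
  · have := ((m.of_dvd h2).dvd_iff dvd_rfl).1 (hd s h1)
    obtain rfl := (Nat.prime_dvd_prime_iff_eq hs hr).1 this
    exact key h2 h1
  · refine ((Nat.Prime.coprime_iff_not_dvd hr).2 fun h => key ?_ h).symm
    have := Fact.mk hr
    have h2 := congrArg (Nat.cast (R := ZMod r)) (geom_sum_mul_add t r)
    rw [Nat.cast_add, Nat.cast_mul, (ZMod.natCast_eq_zero_iff _ _).2 (hd r h), Nat.cast_pow,
      ZMod.pow_card] at h2
    exact (ZMod.natCast_eq_zero_iff _ _).1 (by simpa using h2)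

namespace Num

variable {t r d a : ℕ} (h : Num t r d a)
include h

theorem mul : a * d * t + 1 = (t + 1) ^ r := by rw [h.sum, geom_sum_mul_add]

theorem dpos : 0 < d := Nat.pos_of_dvd_of_pos h.dt h.pos

theorem dle : d ≤ t := Nat.le_of_dvd h.pos h.dt

theorem low : (t + 1) ^ (r - 1) + (t + 1) ^ (r - 2) + (t + 1) ^ 2 ≤ a * d := by
  have := h.five
  rw [h.sum]
  refine le_trans (le_of_eq ?_) (sum_le_sum_of_subset (s := {r - 1, r - 2, 2}) ?_)
  · rw [sum_insert (by simp; omega), sum_pair (by omega), add_assoc]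
  · intro i hi
    simp only [mem_insert, mem_singleton, mem_range] at hi ⊢
    omega

theorem e1 : (t + 1) ^ (r - 1) + (t + 1) ^ (r - 2) + d * t < a * t := by
  have := h.low
  have := h.dle
  nlinarith [Nat.mul_le_mul_left a h.dle, Nat.mul_le_mul_right t h.dle]

theorem one_lt : 1 < a := by
  have := h.e1
  by_contra hc
  have : a * t ≤ 1 * t := Nat.mul_le_mul_right _ (by omega)
  have : 1 * t ≤ d * t := Nat.mul_le_mul_right _ h.dpos
  omega

theorem cases (h6 : ¬ (r = 5 ∧ t = 5)) :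
    d = 1 ∨ d = r ∧ r ≤ t ∧ (r = 5 ∧ 10 ≤ t ∨ r = 7 ∨ 8 ≤ r) := by
  refine ((Nat.dvd_prime h.prime).1 h.dr).imp_right fun e => ⟨e, e ▸ h.dle, ?_⟩
  have := h.five
  have := e ▸ h.dt
  have := h.pos
  have : r ≠ 6 := fun e => by have := h.prime; rw [e] at this; norm_num at this
  rcases eq_or_ne r 5 with rfl | h5 <;> omega

omit h in
theorem two_pow {r : ℕ} (h : 5 ≤ r) : r - 1 ≤ 2 ^ (r - 3) := by
  obtain ⟨k, rfl⟩ := Nat.exists_eq_add_of_le' h
  have := k.lt_two_pow_self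
  rw [show k + 5 - 3 = k + 2 by omega, pow_add]
  omega

theorem b1 (h6 : ¬ (r = 5 ∧ t = 5)) : 2 * r * d ^ 2 * t + 3 ≤ a := by
  have l := h.low
  have h5 := h.five
  have t0 := h.pos
  rcases h.cases h6 with rfl | ⟨rfl, hrt, hc⟩
  · have a1 := (two_pow h5).trans (Nat.pow_le_pow_left (show 2 ≤ t + 1 by omega) _)
    rw [show r - 1 = r - 3 + 2 by omega, pow_add] at l
    obtain ⟨k, rfl⟩ := Nat.exists_eq_add_of_le' h5
    simp only [show k + 5 - 1 = k + 4 by omega] at a1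
    have a2 := Nat.mul_le_mul_right ((t + 1) ^ 2) a1
    have : 2 * (k + 5) * t + 3 ≤ (k + 5) * (t + 1) ^ 2 := by ring_nf; omega
    nlinarith [Nat.zero_le ((t + 1) ^ (k + 5 - 2))]
  · have a1 : 2 * d ^ 4 ≤ (t + 1) ^ (d - 2) := by
      rcases hc with ⟨rfl, h10⟩ | h7
      · exact le_trans (by norm_num) (Nat.pow_le_pow_left (show 11 ≤ t + 1 by omega) 3)
      · calc _ ≤ d * d ^ 4 := Nat.mul_le_mul_right _ (by omega)
          _ = d ^ 5 := by ring
          _ ≤ (t + 1) ^ 5 := Nat.pow_le_pow_left (by omega) _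
          _ ≤ _ := Nat.pow_le_pow_right (by omega) (by omega)
    rw [show d - 1 = d - 2 + 1 by omega, pow_succ] at l
    refine Nat.le_of_mul_le_mul_right ?_ (show 0 < d by omega)
    have a2 := Nat.mul_le_mul_right (t + 1) a1
    have a3 : d ≤ d ^ 4 := Nat.le_self_pow (by omega) _
    nlinarith [Nat.zero_le ((t + 1) ^ 2)]

theorem big (h2 : ¬ (r = 5 ∧ t = 1)) (h6 : ¬ (r = 5 ∧ t = 5)) : (r + 1) ^ 2 < a := by
  have l := h.low
  have h5 := h.five
  have t0 := h.pos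
  rcases h.cases h6 with rfl | ⟨rfl, hrt, -⟩
  · rcases eq_or_ne r 5 with rfl | h7
    · have := Nat.pow_le_pow_left (show 3 ≤ t + 1 by omega) (5 - 1)
      omega
    have : r ≠ 6 := fun e => by have := h.prime; rw [e] at this; norm_num at this
    obtain ⟨k, rfl⟩ := Nat.exists_eq_add_of_le' (show 7 ≤ r by omega)
    have a1 := Nat.pow_le_pow_left (show 2 ≤ t + 1 by omega) (k + 7 - 1)
    have a2 : (k + 8) ^ 2 ≤ 2 ^ (k + 6) := by
      clear * -
      induction k with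
      | zero => norm_num
      | succ k ih =>
        have : (k + 1 + 8) ^ 2 ≤ (k + 8) ^ 2 * 2 := by ring_nf; omega
        rw [show k + 1 + 6 = k + 6 + 1 by omega, pow_succ 2]
        omega
    have : 0 < (t + 1) ^ 2 := by positivity
    simp only [show k + 7 - 1 = k + 6 by omega] at a1 l
    show (k + 8) ^ 2 < a
    omega
  · have := h.b1 h6
    nlinarith [Nat.mul_le_mul_left (2 * d * d ^ 2) t0]

theorem num (h6 : ¬ (r = 5 ∧ t = 5)) : r * d * a < (a - 1) * (a - r) := by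
  have a1 := h.b1 h6
  have a2 : r * d + r + 3 ≤ a := by
    have := h.dpos
    have b1 : d ≤ d ^ 2 := Nat.le_self_pow (by omega) _
    nlinarith [Nat.mul_le_mul_left (2 * r * d ^ 2) h.pos, Nat.mul_le_mul_left r b1,
      Nat.mul_le_mul_left r this]
  obtain ⟨k, rfl⟩ := Nat.exists_eq_add_of_le a2
  rw [show r * d + r + 3 + k - 1 = r * d + r + 2 + k by omega,
    show r * d + r + 3 + k - r = r * d + 3 + k by omega]
  generalize r * d = u
  ring_nf
  omega

theorem b2 (h6 : ¬ (r = 5 ∧ t = 5)) : 2 * r * d ^ 4 * t < (t + 1) ^ (r - 1) * (t + 1 - d) ^ 2 := by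
  have h5 := h.five
  have t0 := h.pos
  rcases h.cases h6 with rfl | ⟨rfl, hrt, ⟨rfl, h10⟩ | rfl | h8⟩
  · have a1 := (two_pow h5).trans (Nat.pow_le_pow_left (show 2 ≤ t + 1 by omega) _)
    rw [show r - 1 = r - 3 + 2 by omega, pow_add, Nat.add_sub_cancel, one_pow, mul_one, sq t,
      ← mul_assoc]
    refine Nat.mul_lt_mul_of_pos_right (lt_of_lt_of_le ?_ (Nat.le_mul_of_pos_right _ t0)) t0
    have := Nat.mul_le_mul a1 (Nat.pow_le_pow_left (show 2 ≤ t + 1 by omega) 2)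
    omega
  · have a1 := Nat.mul_le_mul (Nat.pow_le_pow_left (show 11 ≤ t + 1 by omega) 3)
      (Nat.pow_le_pow_left (show 6 ≤ t + 1 - 5 by omega) 2)
    rw [show 5 - 1 = 3 + 1 by rfl, pow_succ (t + 1) 3]
    nlinarith
  · rcases eq_or_ne t 7 with rfl | h7
    · norm_num
    have a1 := Nat.mul_le_mul (Nat.pow_le_pow_left (show 9 ≤ t + 1 by omega) 5)
      (Nat.pow_le_pow_left (show 1 ≤ t + 1 - 7 by omega) 2)
    rw [show 7 - 1 = 5 + 1 by rfl, pow_succ (t + 1) 5]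
    nlinarith
  · calc _ < 2 * d * d ^ 4 * (t + 1) := Nat.mul_lt_mul_of_pos_left (by omega) (by positivity)
      _ ≤ d * d * d ^ 4 * (t + 1) := by gcongr; omega
      _ = d ^ 6 * (t + 1) := by ring
      _ ≤ (t + 1) ^ 6 * (t + 1) := by gcongr; omega
      _ ≤ (t + 1) ^ (d - 1) := by rw [← pow_succ]; exact Nat.pow_le_pow_right (by omega) (by omega)
      _ ≤ _ := Nat.le_mul_of_pos_right _ (pow_pos (by omega) _)

/-- the valency bound -/
theorem bound (h6 : ¬ (r = 5 ∧ t = 5)) {n : ℕ} {S : ℝ}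
    (hS : ((a : ℝ) - 1) ^ 2 * S ≤ r * d ^ 2 * n * (a * t) ^ 2)
    (l1 : n ≤ a * t → ((a : ℝ) * t - n) ^ 2 ≤ S)
    (l2 : n ≤ a * t → a * t ≤ 2 * n → t * ((a : ℝ) * t - n) ^ 2 ≤ S) : (t + 1) ^ (r - 1) ≤ n := by
  by_contra hc
  push Not at hc
  have hn : n ≤ a * t := by have := h.e1; omega
  have t0 : (0 : ℝ) < t := Nat.cast_pos.2 h.pos
  have d0 : (0 : ℝ) < d := Nat.cast_pos.2 h.dpos
  have r0 : (0 : ℝ) < r := Nat.cast_pos.2 h.prime.pos
  have n0 : (0 : ℝ) ≤ n := Nat.cast_nonneg _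
  have b1 : 2 * r * d ^ 2 * t + 3 ≤ (a : ℝ) := by exact_mod_cast h.b1 h6
  have a4 : (4 : ℝ) ≤ a := by
    have := h.b1 h6
    have : 0 < 2 * r * d ^ 2 * t := by have := h.pos; have := h.dpos; have := h.prime.pos; positivity
    exact_mod_cast (by omega)
  rcases le_total (a * t) (2 * n) with h2 | h2
  · have a1 := (mul_le_mul_of_nonneg_left (l2 hn h2) (sq_nonneg ((a : ℝ) - 1))).trans hS
    have a2 : ((a : ℝ) * t - n) ^ 2 ≤ 2 * r * d ^ 2 * n * t := by
      have : (a : ℝ) ^ 2 * (t * (a * t - n) ^ 2) ≤ 2 * (a - 1) ^ 2 * (t * (a * t - n) ^ 2) :=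
        mul_le_mul_of_nonneg_right (by nlinarith) (by positivity)
      refine le_of_mul_le_mul_left ?_ (show (0 : ℝ) < a ^ 2 * t by positivity)
      nlinarith
    have m : (a : ℝ) * d * t + 1 = (t + 1) ^ (r - 1) * (t + 1) := by
      rw [← pow_succ, Nat.sub_add_cancel h.prime.pos]; exact_mod_cast h.mul
    have b2 : (2 * r * d ^ 4 * t : ℝ) < (t + 1) ^ (r - 1) * (t + 1 - d) ^ 2 := by
      have := h.b2 h6
      rw [← Nat.cast_lt (α := ℝ)] at this
      push_cast [Nat.cast_sub (h.dle.trans (Nat.le_succ t))] at this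
      exact this
    have c1 : (n : ℝ) + 1 ≤ (t + 1) ^ (r - 1) := by exact_mod_cast hc
    have d1 : (1 : ℝ) ≤ d := by exact_mod_cast h.dpos
    have dt : (d : ℝ) ≤ t := by exact_mod_cast h.dle
    generalize ((t : ℝ) + 1) ^ (r - 1) = Q at *
    have Q0 : 0 < Q := by linarith
    have a3 : Q * (t + 1 - d) ≤ d * (a * t - n) := by nlinarith
    have a5 := pow_le_pow_left₀ (mul_nonneg Q0.le (by linarith)) a3 2
    have a6 : (d * (a * t - n) : ℝ) ^ 2 ≤ 2 * r * d ^ 4 * t * Q := by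
      calc _ = (d : ℝ) ^ 2 * (a * t - n) ^ 2 := by ring
        _ ≤ d ^ 2 * (2 * r * d ^ 2 * n * t) := by gcongr
        _ = 2 * r * d ^ 4 * t * n := by ring
        _ ≤ _ := by gcongr; linarith
    nlinarith [mul_lt_mul_of_pos_right b2 Q0]
  · have a1 := (mul_le_mul_of_nonneg_left (l1 hn) (sq_nonneg ((a : ℝ) - 1))).trans hS
    have h3 : 2 * (n : ℝ) ≤ a * t := by exact_mod_cast h2
    have H0 : (0 : ℝ) < a * t := by positivity
    have a2 : ((a : ℝ) - 1) ^ 2 ≤ 2 * r * d ^ 2 * (a * t) := by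
      refine le_of_mul_le_mul_right ?_ (show (0 : ℝ) < (a * t) ^ 2 by positivity)
      have b3 : ((a : ℝ) * t) ^ 2 ≤ 4 * (a * t - n) ^ 2 := by nlinarith
      have b4 := mul_le_mul_of_nonneg_left b3 (sq_nonneg ((a : ℝ) - 1))
      have b5 := mul_le_mul_of_nonneg_left h3 (show (0 : ℝ) ≤ 2 * r * d ^ 2 * (a * t) ^ 2 by positivity)
      nlinarith
    nlinarith [mul_le_mul_of_nonneg_left b1 (show (0 : ℝ) ≤ a by positivity)]

end Num

end Cfsg.Lib.CKS
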