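import Cfsg.Agent.Lib.CK.SC
import Cfsg.Agent.Lib.CK.SF
import Cfsg.Agent.Lib.CK.SG

/-! Groups of `F`-linear maps of a field `K` of prime degree containing the multiplications of
determinant an `r`-th power: semilinear elements, trivial intersection, transitivity. -/

set_option autoImplicit false

namespace Cfsg.Lib.CKS

open Module MulAction Finset

section Field

variable {F K : Type*} [Field F] [Fintype F] [Field K] [Finite K] [Algebra F K]

theorem alg_pow (σ : K →ₐ[F] K) : ∃ j, ∀ x, σ x = x ^ Fintype.card F ^ j := by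
  obtain ⟨j, rfl⟩ := (FiniteField.bijective_frobeniusAlgHom_pow F K).2 σ
  exact ⟨j, fun x => by simp [AlgHom.coe_pow, FiniteField.coe_frobeniusAlgHom, pow_iterate]⟩

theorem mem_of_pow {u : K} (h : u ^ Fintype.card F = u) : ∃ c : F, algebraMap F K c = u :=
  (IsGalois.mem_range_algebraMap_iff_fixed u).2 fun f => by
    obtain ⟨j, hj⟩ := alg_pow (f : K →ₐ[F] K)
    refine (hj u).trans ?_
    clear hj
    induction j with
    | zero => simp
    | succ j ih => rw [pow_succ, pow_mul, ih, h]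

theorem frob_iff {k : ℕ} : (∀ v : K, v ^ Fintype.card F ^ k = v) ↔ finrank F K ∣ k := by
  rw [← FiniteField.orderOf_frobeniusAlgHom, orderOf_dvd_iff_pow_eq_one, AlgHom.ext_iff]
  simp [AlgHom.coe_pow, FiniteField.coe_frobeniusAlgHom, pow_iterate]

theorem semi_of_conj (hr : (finrank F K).Prime) (g : K →ₗ[F] K) (g1 : g 1 ≠ 0) {u u' : K}
    (hu : ∀ c, algebraMap F K c ≠ u) (h : ∀ v, g (u * v) = u' * g v) :
    ∃ j, ∀ v, g v = g 1 * v ^ Fintype.card F ^ j := by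
  let S : Subalgebra F K :=
    { carrier := {k | ∃ k', ∀ v, g (k * v) = k' * g v}
      mul_mem' := fun ⟨a, ha⟩ ⟨b, hb⟩ => ⟨a * b, fun v => by rw [mul_assoc, ha, hb, mul_assoc]⟩
      add_mem' := fun ⟨a, ha⟩ ⟨b, hb⟩ => ⟨a + b, fun v => by rw [add_mul, map_add, ha, hb, add_mul]⟩
      algebraMap_mem' := fun c => ⟨algebraMap F K c, fun v => by simp [← Algebra.smul_def]⟩ }
  have hS : S = ⊤ := ((Subalgebra.isSimpleOrder_of_finrank_prime F K hr).eq_bot_or_eq_top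
    S).resolve_left fun e => by
      have : u ∈ S := ⟨u', h⟩
      rw [e, Algebra.mem_bot] at this
      exact this.elim hu
  obtain ⟨j, hj⟩ := alg_pow (AlgHom.ofLinearMap (LinearMap.mulLeft F (g 1)⁻¹ ∘ₗ g) (by simp [g1])
    fun x y => by
      obtain ⟨k, hk⟩ : x ∈ S := hS ▸ Algebra.mem_top
      have := hk 1
      rw [mul_one] at this
      simp only [LinearMap.comp_apply, LinearMap.mulLeft_apply, hk, this]
      field_simp)
  exact ⟨j, fun v => by rw [← hj]; simp [g1]⟩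

end Field

variable (K : Type*) [Field K] {G : Type*} [Group G] [DistribMulAction G K]

/-- `g` is semilinear for the `j`-th power of the Frobenius map -/
def Sl (t : ℕ) (g : G) (j : ℕ) : Prop := ∃ b : K, ∀ v : K, g • v = b * v ^ (t + 1) ^ j

variable (G) in
/-- multiplications by `m`-th roots of unity -/
def Sc (m : ℕ) : Subgroup G :=
  ((powMonoidHom m : Kˣ →* Kˣ).ker.map (toPermHom Kˣ K)).comap (toPermHom G K)

/-- nonzero vectors -/
def Nz : Type _ := {v : K // v ≠ 0}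

instance nzMulAction : MulAction G (Nz K) where
  smul g v := ⟨g • v.1, (smul_ne_zero_iff_ne g).2 v.2⟩
  one_smul v := Subtype.ext (one_smul G v.1)
  mul_smul g h v := Subtype.ext (mul_smul g h v.1)

noncomputable instance nzFintype [Finite K] : Fintype (Nz K) := by
  unfold Nz; exact Fintype.ofFinite _

variable {K}

theorem Nz.smul_eq {g : G} {v w : Nz K} : g • v = w ↔ g • v.1 = w.1 := Subtype.ext_iff

theorem mem_Sc {m : ℕ} {g : G} :
    g ∈ Sc K G m ↔ ∃ u : Kˣ, u ^ m = 1 ∧ ∀ v : K, g • v = u * v := by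
  simp only [Sc, Subgroup.mem_comap, Subgroup.mem_map, MonoidHom.mem_ker, powMonoidHom_apply,
    Equiv.ext_iff, toPermHom_apply, toPerm_apply, Units.smul_def, smul_eq_mul, eq_comm]

theorem Sc_mono {m n : ℕ} (h : m ∣ n) : Sc K G m ≤ Sc K G n := fun _ hg => by
  obtain ⟨u, h1, h2⟩ := mem_Sc.1 hg
  obtain ⟨c, rfl⟩ := h
  exact mem_Sc.2 ⟨u, by rw [pow_mul, h1, one_pow], h2⟩

theorem Sl.mul {t i j : ℕ} {g k : G} (hg : Sl K t g i) (hk : Sl K t k j) :
    Sl K t (g * k) (j + i) := by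
  obtain ⟨b, hb⟩ := hg
  obtain ⟨c, hc⟩ := hk
  exact ⟨b * c ^ (t + 1) ^ i, fun v => by
    rw [mul_smul, hc, hb, mul_pow, ← pow_mul, ← pow_add, mul_assoc]⟩

theorem Sl.pow {t i : ℕ} {g : G} (hg : Sl K t g i) (n : ℕ) : Sl K t (g ^ n) (i * n) := by
  induction n with
  | zero => exact ⟨1, fun v => by simp⟩
  | succ n ih => rw [pow_succ']; exact hg.mul ih

theorem sl_of_mem_Sc {t m : ℕ} {g : G} (hg : g ∈ Sc K G m) : Sl K t g 0 := by
  obtain ⟨u, -, h⟩ := mem_Sc.1 hg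
  exact ⟨u, fun v => by simp [h]⟩

variable [FaithfulSMul G K]

theorem Sc_comm {m n : ℕ} {g k : G} (hg : g ∈ Sc K G m) (hk : k ∈ Sc K G n) : g * k = k * g := by
  obtain ⟨u, -, h⟩ := mem_Sc.1 hg
  obtain ⟨w, -, h'⟩ := mem_Sc.1 hk
  exact eq_of_smul_eq_smul fun v : K => by simp only [mul_smul, h, h', mul_left_comm]

theorem pow_of_mem_Sc {m : ℕ} {g : G} (hg : g ∈ Sc K G m) : g ^ m = 1 := by
  obtain ⟨u, h1, h⟩ := mem_Sc.1 hg
  have : ∀ n : ℕ, ∀ v : K, g ^ n • v = u ^ n * v := fun n v => by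
    induction n with
    | zero => simp
    | succ n ih => rw [pow_succ', mul_smul, ih, h, pow_succ', mul_assoc]
  exact eq_of_smul_eq_smul fun v : K => by rw [this, ← Units.val_pow_eq_pow_val, h1]; simp

theorem eq_one_of_mem_Sc {m : ℕ} {g : G} (hg : g ∈ Sc K G m) {v : K} (v0 : v ≠ 0)
    (h : g • v = v) : g = 1 := by
  obtain ⟨u, -, h'⟩ := mem_Sc.1 hg
  rw [h', mul_left_eq_self₀, or_iff_left v0] at h
  exact eq_of_smul_eq_smul fun v : K => by simp [h', h]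

variable (F : Type*) [Field F] [Fintype F] [Finite K] [Algebra F K] [SMulCommClass G F K]

variable (K G) in
/-- the model -/
structure Md (t r d a : ℕ) : Prop extends Num t r d a where
  card : Fintype.card F = t + 1
  rank : finrank F K = r
  sc : ∀ u : Kˣ, u ^ (a * t) = 1 → ∃ g : G, ∀ v : K, g • v = u * v
  nrm : ∀ (g : G) (b : K) j, (∀ v : K, g • v = b * v ^ (t + 1) ^ j) → b ^ (a * t) = 1

namespace Md

variable {F} {t r d a : ℕ} (h : Md K G F t r d a)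
include h

omit [FaithfulSMul G K] [SMulCommClass G F K] in
theorem frob {k : ℕ} : (∀ v : K, v ^ (t + 1) ^ k = v) ↔ r ∣ k := by
  rw [← h.card, ← h.rank]; exact frob_iff

omit [FaithfulSMul G K] [SMulCommClass G F K] in
theorem cardK : Nat.card K = (t + 1) ^ r := by
  rw [natCard_eq_pow_finrank (K := F), h.rank, Nat.card_eq_fintype_card, h.card]

omit [FaithfulSMul G K] [SMulCommClass G F K] in
theorem cardU : Nat.card Kˣ = a * d * t := by rw [Nat.card_units, h.cardK, ← h.mul]; rfl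

omit [FaithfulSMul G K] [SMulCommClass G F K] in
theorem cardNz : Nat.card (Nz K) = a * d * t := h.cardU ▸ (Nat.card_congr unitsEquivNeZero).symm

omit [SMulCommClass G F K] in
theorem card_Sc {m : ℕ} (hm : m ∣ a * t) : Nat.card (Sc K G m) = m := by
  rw [← Subgroup.card_map_of_injective (f := toPermHom G K) toPerm_injective, Sc,
    Subgroup.map_comap_eq_self, Subgroup.card_map_of_injective toPerm_injective,
    IsCyclic.card_powMonoidHom_ker, h.cardU, Nat.gcd_eq_right]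
  · exact hm.trans ⟨d, by ring⟩
  · rintro _ ⟨u, hu, rfl⟩
    obtain ⟨c, hc⟩ := hm
    obtain ⟨g, hg⟩ := h.sc u (by rw [hc, pow_mul, show u ^ m = 1 from hu, one_pow])
    exact ⟨g, Equiv.ext hg⟩

omit [FaithfulSMul G K] [SMulCommClass G F K] in
theorem mem_Z {g : G} : g ∈ Sc K G t ↔ ∃ c : F, ∀ v : K, g • v = c • v := by
  rw [mem_Sc]
  constructor
  · rintro ⟨u, h1, h2⟩
    obtain ⟨c, hc⟩ := mem_of_pow (F := F) (u := (u : K)) (by
      rw [h.card, pow_succ, ← Units.val_pow_eq_pow_val, h1]; simp)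
    exact ⟨c, fun v => by rw [h2, ← hc, Algebra.smul_def]⟩
  · rintro ⟨c, hc⟩
    have c0 : c ≠ 0 := fun e => by simpa [e, smul_eq_zero_iff_eq] using hc 1
    refine ⟨Units.mk0 (algebraMap F K c) (by simpa), Units.ext ?_, fun v => by
      simp [hc, Algebra.smul_def]⟩
    have := FiniteField.pow_card_sub_one_eq_one c c0
    rw [h.card, Nat.add_sub_cancel] at this
    simp [← map_pow, this]

omit [FaithfulSMul G K] [SMulCommClass G F K] in
theorem exists_Z {c : F} (c0 : c ≠ 0) : ∃ z ∈ Sc K G t, ∀ v : K, z • v = c • v := by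
  obtain ⟨z, hz⟩ := h.sc (Units.mk0 (algebraMap F K c) (by simpa)) (Units.ext (by
    have := FiniteField.pow_card_sub_one_eq_one c c0
    rw [h.card, Nat.add_sub_cancel] at this
    simp [← map_pow, pow_mul', this]))
  have : ∀ v : K, z • v = c • v := fun v => by simp [hz, Algebra.smul_def]
  exact ⟨z, h.mem_Z.2 ⟨c, this⟩, this⟩

theorem cen : Sc K G t ≤ Subgroup.center G := fun z hz => by
  obtain ⟨c, hc⟩ := h.mem_Z.1 hz
  exact Subgroup.mem_center_iff.2 fun g => eq_of_smul_eq_smul fun v : K => by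
    rw [mul_smul, mul_smul, hc, hc, smul_comm]

omit [SMulCommClass G F K] in
theorem disj {x : G} (hx : x ∈ Sc K G a) (hz : x ∈ Sc K G t) : x = 1 :=
  (pow_eq_one_iff_of_coprime h.ct).1 ⟨pow_of_mem_Sc hx, pow_of_mem_Sc hz⟩

omit [SMulCommClass G F K] in
theorem split {y : G} (hy : y ∈ Sc K G (a * t)) :
    ∃ z ∈ Sc K G t, ∃ x ∈ Sc K G a, z * x = y := by
  obtain ⟨u, h1, h2⟩ := mem_Sc.1 hy
  obtain ⟨i, j, e⟩ : ∃ i j : ℤ, a * i + t * j = 1 :=
    ⟨_, _, by rw [← Nat.gcd_eq_gcd_ab, h.ct.gcd_eq_one, Nat.cast_one]⟩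
  have key : ∀ (m n : ℕ) (i : ℤ), u ^ (m * n) = 1 → m * n = a * t →
      ∃ g ∈ Sc K G n, ∀ v : K, g • v = (u ^ (m * i) : Kˣ) * v := fun m n i e1 e2 => by
    have : (u ^ (m * i)) ^ n = 1 := by
      rw [← zpow_natCast, ← zpow_mul, mul_right_comm, zpow_mul, ← Nat.cast_mul, zpow_natCast, e1,
        one_zpow]
    obtain ⟨g, hg⟩ := h.sc (u ^ (m * i)) (by rw [← e2, pow_mul', this, one_pow])
    exact ⟨g, mem_Sc.2 ⟨_, this, hg⟩, hg⟩
  obtain ⟨z, hz, z1⟩ := key a t i h1 rfl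
  obtain ⟨x, hx, x1⟩ := key t a j (mul_comm a t ▸ h1) (mul_comm _ _)
  exact ⟨z, hz, x, hx, eq_of_smul_eq_smul fun v : K => by
    rw [mul_smul, z1, x1, h2, ← mul_assoc, ← Units.val_mul, ← zpow_add, e, zpow_one]⟩

omit [FaithfulSMul G K] [SMulCommClass G F K] in
theorem mem_Ah {g : G} {j : ℕ} (hg : Sl K t g j) (hj : r ∣ j) : g ∈ Sc K G (a * t) := by
  obtain ⟨b, hb⟩ := hg
  have := h.nrm g b j hb
  simp only [h.frob.2 hj] at hb
  have b0 : b ≠ 0 := fun e => by simpa [e, smul_eq_zero_iff_eq] using hb 1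
  exact mem_Sc.2 ⟨Units.mk0 b b0, Units.ext (by simpa), hb⟩

omit [FaithfulSMul G K] [SMulCommClass G F K] in
theorem dvd_of_sl {j : ℕ} (hg : Sl K t (1 : G) j) : r ∣ j := by
  obtain ⟨b, hb⟩ := hg
  have := hb 1
  rw [one_smul, one_pow, mul_one] at this
  exact h.frob.1 fun v => by simpa [← this] using (hb v).symm

omit [FaithfulSMul G K] [SMulCommClass G F K] in
/-- the semilinear elements -/
def Nn : Subgroup G where
  carrier := {g | ∃ j, Sl K t g j}
  mul_mem' := fun ⟨_, h1⟩ ⟨_, h2⟩ => ⟨_, h1.mul h2⟩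
  one_mem' := ⟨0, 1, fun v => by simp⟩
  inv_mem' := by
    rintro g ⟨j, b, hb⟩
    have b0 : b ≠ 0 := fun e => by simpa [e, smul_eq_zero_iff_eq] using hb 1
    refine ⟨j * (r - 1), b⁻¹ ^ (t + 1) ^ (j * (r - 1)), fun v => ?_⟩
    rw [inv_smul_eq_iff, hb, ← mul_pow, ← pow_mul, ← pow_add, ← Nat.mul_succ,
      Nat.succ_eq_add_one, Nat.sub_add_cancel h.prime.pos, h.frob.2 (dvd_mul_left _ _),
      mul_inv_cancel_left₀ b0]

omit [FaithfulSMul G K] in
theorem ti {g y : G} {m n : ℕ} (hy : y ∈ Sc K G m) (hz : y ∉ Sc K G t)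
    (hg : g * y * g⁻¹ ∈ Sc K G n) : g ∈ h.Nn := by
  obtain ⟨u, -, hu⟩ := mem_Sc.1 hy
  obtain ⟨w, -, hw⟩ := mem_Sc.1 hg
  obtain ⟨j, hj⟩ := semi_of_conj (h.rank ▸ h.prime) (DistribSMul.toLinearMap F K g)
    (by simp [smul_eq_zero_iff_eq])
    (u := u) (u' := w) (fun c e => hz (h.mem_Z.2 ⟨c, fun v => by rw [hu, ← e, Algebra.smul_def]⟩))
    fun v => by simpa [mul_smul, hu] using hw (g • v)
  exact ⟨j, g • 1, fun v => by simpa [h.card] using hj v⟩

theorem exists_ne : ∃ x ∈ Sc K G a, x ≠ 1 := by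
  by_contra hc
  push Not at hc
  have := h.card_Sc (dvd_mul_right a t)
  rw [(Subgroup.eq_bot_iff_forall _).2 hc, Subgroup.card_bot] at this
  exact h.one_lt.ne this

theorem top_of_normal {Y : Subgroup G} (hY : Y.Normal) (h1 : Sc K G a ≤ Y) (h2 : Y ≤ h.Nn) :
    h.Nn = ⊤ := by
  obtain ⟨x, hx, x1⟩ := h.exists_ne
  refine top_unique fun g _ => ?_
  obtain ⟨j, hj⟩ := h2 (hY.conj_mem x (h1 hx) g)
  have := hj.pow a
  rw [conj_pow, pow_of_mem_Sc hx, mul_one, mul_inv_cancel] at this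
  exact h.ti hx (fun e => x1 (h.disj hx e))
    (h.mem_Ah hj (h.cr.symm.dvd_of_dvd_mul_right (h.dvd_of_sl this)))

omit [SMulCommClass G F K] in
theorem card_Nn : Nat.card h.Nn ≤ r * a * t := by
  have : ∀ g : h.Nn, ∃ p : Fin r × (powMonoidHom (a * t) : Kˣ →* Kˣ).ker,
      ∀ v : K, (g : G) • v = (p.2 : Kˣ) * v ^ (t + 1) ^ (p.1 : ℕ) := fun ⟨g, j, b, hb⟩ => by
    have b0 : b ≠ 0 := fun e => by simpa [e, smul_eq_zero_iff_eq] using hb 1
    refine ⟨⟨⟨j % r, Nat.mod_lt _ h.prime.pos⟩, Units.mk0 b b0, Units.ext ?_⟩, fun v => ?_⟩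
    · simpa using h.nrm g b j hb
    · conv_lhs => rw [hb, ← Nat.div_add_mod j r, pow_add, pow_mul v, h.frob.2 (dvd_mul_right _ _)]
      rfl
  choose f hf using this
  refine (Nat.card_le_card_of_injective f fun g k e => Subtype.ext
    (eq_of_smul_eq_smul fun v : K => by rw [hf, hf, e])).trans ?_
  rw [Nat.card_prod, IsCyclic.card_powMonoidHom_ker, Nat.card_eq_fintype_card, Fintype.card_fin,
    mul_assoc]
  exact Nat.mul_le_mul_left _ (Nat.gcd_le_right _ (Nat.mul_pos h.one_lt.pos h.pos))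

omit [FaithfulSMul G K] [SMulCommClass G F K] in
theorem frob_or : (∃ φ : G, ∀ v : K, φ • v = v ^ (t + 1)) ∨ h.Nn ≤ Sc K G (a * t) := by
  refine or_iff_not_imp_right.2 fun hc => ?_
  obtain ⟨g, ⟨j, b, hb⟩, hg⟩ := SetLike.not_le_iff_exists.1 hc
  have b0 : b ≠ 0 := fun e => by simpa [e, smul_eq_zero_iff_eq] using hb 1
  obtain ⟨s, hs⟩ := h.sc (Units.mk0 b b0) (Units.ext (by simpa using h.nrm g b j hb))
  obtain ⟨i, -, hi⟩ := Nat.exists_mul_mod_eq_one_of_coprime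
    ((Nat.Prime.coprime_iff_not_dvd h.prime).2 fun e => hg (h.mem_Ah ⟨b, hb⟩ e)).symm h.prime.one_lt
  have a1 : ∀ n : ℕ, ∀ v : K, (s⁻¹ * g) ^ n • v = v ^ (t + 1) ^ (j * n) := fun n v => by
    induction n with
    | zero => simp
    | succ n ih =>
      rw [pow_succ', mul_smul, ih, mul_smul, inv_smul_eq_iff, hs, hb, ← pow_mul, ← pow_add]
      rfl
  exact ⟨_, fun v => by
    rw [a1 i, ← Nat.div_add_mod (j * i) r, pow_add, pow_mul v, h.frob.2 (dvd_mul_right _ _), hi,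
      pow_one]⟩

omit [FaithfulSMul G K] in
theorem trans_or (Y : Subgroup G) (hY : Sc K G (a * d) ≤ Y) :
    (∀ v w : K, v ≠ 0 → w ≠ 0 → ∃ y ∈ Y, y • v = w) ∨ Y ≤ h.Nn := by
  classical
  refine or_iff_not_imp_left.2 fun hc y hy => ?_
  push Not at hc
  obtain ⟨v, w, v0, w0, hvw⟩ := hc
  have inv : ∀ y ∈ Y, ∀ x : K, (∃ k ∈ Y, k • v = y • x) ↔ ∃ k ∈ Y, k • v = x := fun y hy x =>
    ⟨fun ⟨k, hk, e⟩ => ⟨y⁻¹ * k, Y.mul_mem (Y.inv_mem hy) hk, by simp [mul_smul, e]⟩,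
      fun ⟨k, hk, e⟩ => ⟨y * k, Y.mul_mem hy hk, by simp [mul_smul, e]⟩⟩
  have h1 : ∀ z x : K, z ≠ 0 →
      ((∃ k ∈ Y, k • v = z ^ Fintype.card F * x) ↔ ∃ k ∈ Y, k • v = z * x) := fun z x z0 => by
    have e1 : (Units.mk0 z z0 ^ t) ^ (a * d) = 1 := by
      rw [← pow_mul, mul_comm, ← h.cardU, pow_card_eq_one']
    obtain ⟨s, hs⟩ := h.sc (Units.mk0 z z0 ^ t) (by
      obtain ⟨c, hc⟩ := h.dt
      conv_lhs => enter [2]; rw [hc, ← mul_assoc]
      rw [pow_mul, e1, one_pow])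
    have := inv s (hY (mem_Sc.2 ⟨_, e1, hs⟩)) (z * x)
    rwa [hs, ← mul_assoc, Units.val_pow_eq_pow_val, Units.val_mk0, ← pow_succ, ← h.card] at this
  obtain ⟨b, j, hb⟩ := pm (h.rank ▸ h.five) (DistribSMul.toLinearMap F K y)
    (by simp [smul_eq_zero_iff_eq])
    (fun x => if ∃ k ∈ Y, k • v = x then 1 else 0) (fun z x z0 _ => by simp only [h1 z x z0])
    (fun x _ => by simp [inv y hy]) v0 w0 (by
      rw [if_pos ⟨1, Y.one_mem, one_smul _ _⟩, if_neg fun ⟨k, hk, e⟩ => hvw k hk e]; simp)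
  exact ⟨j, b, fun v => by simpa [h.card] using hb v⟩

end Md

end Cfsg.Lib.CKS
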